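import Cfsg.Agent.S5901

/-!
Complemented subgroup lattices lifted from a subgroup lying in a unique maximal subgroup.
-/

set_option autoImplicit false

namespace Cfsg.Agent.Lib.SmallSimple

variable {G : Type*} [Group G]

/-- A complemented lattice above `T` inside `X`, in the form needed by `S5901`. -/
theorem hint_of_orderIso {L : Type*} [Lattice L] [BoundedOrder L] [ComplementedLattice L]
    (T X : Subgroup G) (e : L → Subgroup G)
    (hsurj : ∀ Y, T ≤ Y → Y ≤ X → ∃ a, e a = Y)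
    (hmem : ∀ a, T ≤ e a ∧ e a ≤ X)
    (hsup : ∀ a b, Codisjoint a b → e a ⊔ e b = X) (hinf : ∀ a b, Disjoint a b → e a ⊓ e b = T) :
    ∀ Y : Subgroup G, T ≤ Y → Y ≤ X → ∃ C : Subgroup G, T ≤ C ∧ C ≤ X ∧ Y ⊔ C = X ∧ Y ⊓ C = T := by
  intro Y hTY hYX
  obtain ⟨a, rfl⟩ := hsurj Y hTY hYX
  obtain ⟨b, hb⟩ := ComplementedLattice.exists_isCompl a
  exact ⟨e b, (hmem b).1, (hmem b).2, hsup a b hb.codisjoint, hinf a b hb.disjoint⟩

theorem hint_bot (X : Subgroup G) (hK : ComplementedLattice (Subgroup X)) :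
    ∀ Y : Subgroup G, ⊥ ≤ Y → Y ≤ X →
      ∃ C : Subgroup G, ⊥ ≤ C ∧ C ≤ X ∧ Y ⊔ C = X ∧ Y ⊓ C = ⊥ := by
  refine hint_of_orderIso ⊥ X (fun a : Subgroup X => a.map X.subtype)
    (fun Y _ hYX => ⟨Y.subgroupOf X, by
      show (Y.subgroupOf X).map X.subtype = Y
      rw [Subgroup.subgroupOf_map_subtype]; exact inf_eq_left.2 hYX⟩)
    (fun a => ⟨bot_le, Subgroup.map_subtype_le a⟩) (fun a b h => ?_) (fun a b h => ?_)
  · show a.map X.subtype ⊔ b.map X.subtype = X
    rw [← Subgroup.map_sup, h.eq_top, ← MonoidHom.range_eq_map, Subgroup.range_subtype]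
  · show a.map X.subtype ⊓ b.map X.subtype = ⊥
    rw [← Subgroup.map_inf a b X.subtype Subtype.val_injective, h.eq_bot, Subgroup.map_bot]

theorem hint_quotient (X N : Subgroup G) (hNX : N ≤ X) [(N.subgroupOf X).Normal]
    (hK : ComplementedLattice (Subgroup (X ⧸ N.subgroupOf X))) :
    ∀ Y : Subgroup G, N ≤ Y → Y ≤ X →
      ∃ C : Subgroup G, N ≤ C ∧ C ≤ X ∧ Y ⊔ C = X ∧ Y ⊓ C = N := by
  let π := QuotientGroup.mk' (N.subgroupOf X)
  have hπ : Function.Surjective π := QuotientGroup.mk'_surjective _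
  refine hint_of_orderIso N X (fun a : Subgroup (X ⧸ N.subgroupOf X) => (a.comap π).map X.subtype)
    (fun Y hNY hYX => ⟨(Y.subgroupOf X).map π, ?_⟩) (fun a => ⟨?_, Subgroup.map_subtype_le _⟩)
    (fun a b h => ?_) (fun a b h => ?_)
  · show (((Y.subgroupOf X).map π).comap π).map X.subtype = Y
    rw [Subgroup.comap_map_eq_self, Subgroup.subgroupOf_map_subtype]
    · exact inf_eq_left.2 hYX
    · rw [QuotientGroup.ker_mk']; exact fun x hx => hNY hx
  · intro n hn
    exact ⟨⟨n, hNX hn⟩, by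
      show π ⟨n, hNX hn⟩ ∈ a
      rw [show π ⟨n, hNX hn⟩ = 1 from (QuotientGroup.eq_one_iff _).2 hn]
      exact one_mem a, rfl⟩
  · show (a.comap π).map X.subtype ⊔ (b.comap π).map X.subtype = X
    rw [← Subgroup.map_sup, Subgroup.comap_sup_eq π a b hπ, h.eq_top, Subgroup.comap_top,
      ← MonoidHom.range_eq_map, Subgroup.range_subtype]
  · show (a.comap π).map X.subtype ⊓ (b.comap π).map X.subtype = N
    rw [← Subgroup.map_inf _ _ X.subtype Subtype.val_injective, ← Subgroup.comap_inf, h.eq_bot,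
      MonoidHom.comap_bot, QuotientGroup.ker_mk', Subgroup.subgroupOf_map_subtype]
    exact inf_eq_left.2 hNX

/-- The hypotheses of `S5901` transported by conjugation: complements for every `H` with
`H ⊓ T^g = ⊥` and `H ≰ M^g`. -/
theorem exists_complement_of_conj [Finite G] (T X M : Subgroup G) (hTX : T ≤ X)
    (hint : ∀ Y : Subgroup G, T ≤ Y → Y ≤ X → ∃ C : Subgroup G, T ≤ C ∧ C ≤ X ∧ Y ⊔ C = X ∧ Y ⊓ C = T)
    (hM : IsCoatom M) (hXM : X ≤ M) (huniq : ∀ M' : Subgroup G, IsCoatom M' → X ≤ M' → M' = M)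
    (H : Subgroup G) (e : G ≃* G) (hH : ¬ H.map e.toMonoidHom ≤ M)
    (hHT : H.map e.toMonoidHom ⊓ T = ⊥) :
    ∃ C : Subgroup G, H ⊔ C = ⊤ ∧ H ⊓ C = ⊥ := by
  have hX : X ≠ ⊤ := fun h => hM.1 (top_le_iff.1 (h ▸ hXM))
  obtain ⟨C, h1, h2⟩ := Cfsg.Agent.S5901.result T X M hTX hX hint hM hXM huniq
    (H.map e.toMonoidHom) hH hHT
  refine ⟨C.comap e.toMonoidHom, ?_, ?_⟩
  · apply Subgroup.map_injective (f := e.toMonoidHom) e.injective
    rw [Subgroup.map_sup, Subgroup.map_comap_eq_self_of_surjective (f := e.toMonoidHom) e.surjective,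
      h1, Subgroup.map_top_of_surjective _ e.surjective]
  · apply Subgroup.map_injective (f := e.toMonoidHom) e.injective
    rw [Subgroup.map_inf _ _ e.toMonoidHom e.injective,
      Subgroup.map_comap_eq_self_of_surjective (f := e.toMonoidHom) e.surjective, h2, Subgroup.map_bot]

end Cfsg.Agent.Lib.SmallSimple
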