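import Cfsg.Agent.Lib.SmallSimple.DegreeSquare

/-!
Groups with a self-centralising Sylow subgroup of prime order `p` and normaliser of order `2p`:
the counting relation of the principal block at every involution.
-/

set_option autoImplicit false
set_option linter.unusedSectionVars false

namespace Cfsg.Agent.Lib.SmallSimple.DegreeRelation

open Cfsg Cfsg.Agent.Lib Cfsg.Agent.Lib.Char Cfsg.Agent.Lib.DefectOne
open Cfsg.Agent.Lib.Char.UC (C N)
open Cfsg.Agent.Lib.SmallSimple.DegreeSquare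
open scoped Classical

universe u

variable {G : Type u} [Group G] [Fintype G]

variable {p : ℕ} [hp : Fact p.Prime]

/-- The counting relation at every involution. -/
theorem exists_relation (hperf : commutator G = ⊤) (P : Sylow p G) (hp5 : 5 ≤ p)
    (hP : Nat.card (P : Subgroup G) = p) (hC : C P = (P : Subgroup G))
    (hN : Nat.card (N P) = p * 2) {x₀ : G} (hx₀ : x₀ ∈ (P : Subgroup G)) (hx₀1 : x₀ ≠ 1) :
    ∃ (χ : IrrCharacter G) (f D : ℕ) (s ε : ℤ) (u : G → ℤ), χ ≠ Block.oneIrr G ∧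
      (χ : G → ℂ) 1 = (f : ℂ) ∧ f ∣ Nat.card G ∧ D ∣ Nat.card G ∧ 1 < f ∧
      (p - 1) / 2 * D ^ 2 + f ^ 2 + 1 ≤ Nat.card G ∧
      (s = 1 ∨ s = -1) ∧ (ε = 1 ∨ ε = -1) ∧ (p : ℤ) ∣ (f : ℤ) - s ∧ ε * (D : ℤ) = 1 + s * f ∧
      ∀ z : G, z * z = 1 → z ≠ 1 → (χ : G → ℂ) z = (u z : ℂ) ∧
        ε * s * ((Nat.card G * (Brauer43.pairsOf z x₀).card * f * D : ℕ) : ℤ) =
          (((Subgroup.centralizer ({z} : Set G)).index : ℤ) * ((f : ℤ) - u z)) ^ 2 := by
  obtain ⟨M, hM⟩ := Block.exists_isPModular (p := p) hp.out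
  haveI := hM.2.1
  obtain ⟨-, Z, Y, sgn, ε, hB, hd, hZ, hY, hε, hZv, hYv, hYr, hrel⟩ := principal_structure hM hP
  have he : (C P).relIndex (N P) = 2 := by
    have h := ((C P).subgroupOf (N P)).card_mul_index
    rw [Nat.card_congr (Subgroup.subgroupOfEquivOfLe (UC.C_le_N P)).toEquiv, hC, hP, hN] at h
    rw [Subgroup.relIndex, hC]
    exact Nat.eq_of_mul_eq_mul_left hp.out.pos h
  rw [he] at hZ hY hYv
  have hp2 : p ≠ 2 := by omega
  -- the trivial character is not exceptional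
  have honeB : Block.oneIrr G ∈ principalBlock M G := Block.oneIrr_mem
  rw [hB] at honeB
  have honeZ : Block.oneIrr G ∈ Z := by
    refine honeB.resolve_right fun hY' => ?_
    have h := Int.modEq_iff_dvd.1 (hYv _ hY')
    rw [show charDegree (Block.oneIrr G : G → ℂ) = 1 from charDegree_one] at h
    rcases hε with rfl | rfl <;> push_cast at h <;> have h' := Int.natAbs_dvd_natAbs.2 h <;>
      norm_num at h' <;> first | omega | (have := Nat.le_of_dvd (by norm_num) h'; omega)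
  obtain ⟨χ, hχone, hZeq⟩ : ∃ χ, χ ≠ Block.oneIrr G ∧ Z = {Block.oneIrr G, χ} := by
    obtain ⟨a, b, hab, rfl⟩ := Finset.card_eq_two.1 hZ
    rcases Finset.mem_insert.1 honeZ with h | h
    · exact ⟨b, h ▸ hab.symm, by rw [h]⟩
    · rw [Finset.mem_singleton] at h
      exact ⟨a, h ▸ hab, by rw [h, Finset.pair_comm]⟩
  have hχZ : χ ∈ Z := by rw [hZeq]; simp
  have hval : ∀ ξ ∈ Z, ∀ x ∈ (P : Subgroup G), x ≠ 1 → (ξ : G → ℂ) x = (sgn ξ : ℂ) := by
    intro ξ hξ x hx hx1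
    have := (hZv ξ hξ).2.2 x hx hx1 1 (one_mem _) (by rw [orderOf_one]; exact hp.out.not_dvd_one)
    rwa [mul_one] at this
  have hs1 : sgn (Block.oneIrr G) = 1 := by
    have := hval _ honeZ x₀ hx₀ hx₀1
    rw [Block.oneIrr_apply] at this
    exact_mod_cast this.symm
  obtain ⟨hs, hcongr, -⟩ := hZv χ hχZ
  generalize hsdef : sgn χ = s at hs hcongr
  set f := charDegree (χ : G → ℂ) with hfdef
  have hχ1 : (χ : G → ℂ) 1 = (f : ℂ) := apply_one_eq_charDegree (isCharacter_of_isIrr χ.2)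
  have hf1 : 1 < f := by
    have h0 : 0 < f := charDegree_pos χ.2
    refine Nat.lt_of_le_of_ne h0 fun h1 => hχone ?_
    obtain ⟨l, hl⟩ := exists_hom_of_degree_one (isCharacter_of_isIrr χ.2)
      (by rw [hχ1, ← h1, Nat.cast_one])
    refine Subtype.ext (funext fun g => ?_)
    rw [hl g, Brauer43.perfect_hom_trivial hperf l g, Units.val_one, Block.oneIrr_apply]
  have htreg : ∀ z : G, z * z = 1 → ¬ p ∣ orderOf z := by
    intro z hz h
    have := Nat.le_of_dvd (by norm_num) (h.trans (orderOf_dvd_of_pow_eq_one (n := 2) (by rw [pow_two, hz])))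
    omega
  have huex : ∀ z : G, ∃ v : ℤ, z * z = 1 → (χ : G → ℂ) z = (v : ℂ) := by
    intro z
    by_cases hz : z * z = 1
    · obtain ⟨v, hv⟩ := exists_int_apply (isCharacter_of_isIrr χ.2) hz
      exact ⟨v, fun _ => hv⟩
    · exact ⟨0, fun h => absurd h hz⟩
  choose U hU using huex
  -- the exceptional characters
  have hYne : Y.Nonempty := Finset.card_pos.1 (hY ▸ Nat.div_pos (by omega) (by norm_num))
  obtain ⟨ψ₀, hψ₀⟩ := hYne
  set D := charDegree (ψ₀ : G → ℂ) with hDdef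
  have hdeg : ∀ ψ ∈ Y, (ψ : G → ℂ) 1 = (D : ℂ) := by
    intro ψ hψ
    rw [hYr ψ hψ ψ₀ hψ₀ 1 (by rw [orderOf_one]; exact hp.out.not_dvd_one),
      apply_one_eq_charDegree (isCharacter_of_isIrr ψ₀.2)]
  have hone : (ε : ℂ) * (D : ℂ) = 1 + (s : ℂ) * f := by
    have h := hrel ψ₀ hψ₀ 1 (by rw [orderOf_one]; exact hp.out.not_dvd_one)
    rw [hdeg ψ₀ hψ₀, hZeq, Finset.sum_pair hχone.symm, hs1, hsdef, Block.oneIrr_apply, hχ1] at h
    rw [h]; push_cast; ring
  have hψt : ∀ t : G, t * t = 1 → ∀ ψ ∈ Y, (ψ : G → ℂ) t = (ε : ℂ) * (1 + (s : ℂ) * U t) := by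
    intro t ht2 ψ hψ
    have h := hrel ψ hψ t (htreg t ht2)
    rw [hZeq, Finset.sum_pair hχone.symm, hs1, hsdef, Block.oneIrr_apply, hU t ht2] at h
    have hεε : (ε : ℂ) * ε = 1 := by rcases hε with rfl | rfl <;> norm_num
    linear_combination (ε : ℂ) * h - (ψ : G → ℂ) t * hεε
  -- characters outside the block vanish on the singular elements
  have hout : ∀ X, X ∉ Z → X ∉ Y → ∀ x ∈ (P : Subgroup G), x ≠ 1 → (X : G → ℂ) x = 0 := by
    intro X hXZ hXY x hx hx1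
    haveI := Fintype.ofFinite (C P)
    have hCP : ∀ c : C P, (c : G) ∈ (P : Subgroup G) := fun c => by rw [← hC]; exact c.2
    have hTh : ∀ θ : Th P, θ = oneTh P := by
      intro θ
      refine Subtype.ext ?_
      by_contra hne
      have h := classInner_irr_ne θ.1.2 (oneTh P).1.2 (fun h => hne (Subtype.ext h))
      rw [show (θ.1 : C P → ℂ) = (θ.1 : C P → ℂ) 1 • ((oneTh P).1 : C P → ℂ) from
        funext fun c => by simpa [oneTh] using θ.2 c (hCP c), classInner_smul_left,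
        classInner_irr_self (oneTh P).1.2, mul_one] at h
      exact irr_degree_ne_zero θ.1.2 h
    have hXB : X ∉ principalBlock M G := by rw [hB]; simp [hXZ, hXY]
    have h := apply_eq_sum_S hP X ⟨x, hx⟩ (y := 1) not_dvd_one'
    rw [OneMemClass.coe_one, mul_one] at h
    rw [h]
    refine Finset.sum_eq_zero fun θ _ => ?_
    rw [hTh θ, S_eq_zero hM hP (oneTh P) (induced_principal hM hP) hXB
      (fun h => hx1 (congrArg Subtype.val h)), zero_mul]
  -- sums over the irreducible characters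
  have hsplit : ∀ F : IrrCharacter G → ℂ, (∀ X, X ∉ Z → X ∉ Y → F X = 0) →
      ∑ X, F X = F (Block.oneIrr G) + F χ + ∑ ψ ∈ Y, F ψ := by
    intro F hF
    rw [← Finset.sum_subset (Finset.subset_univ (Z ∪ Y)) (fun X _ hX => hF X
      (fun h => hX (Finset.mem_union_left _ h)) (fun h => hX (Finset.mem_union_right _ h))),
      Finset.sum_union hd, hZeq, Finset.sum_pair hχone.symm]
  set x' := x₀⁻¹ with hx'def
  have hx' : x' ∈ (P : Subgroup G) := inv_mem hx₀
  have hx'1 : x' ≠ 1 := inv_ne_one.2 hx₀1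
  have hD0 : (D : ℂ) ≠ 0 := Nat.cast_ne_zero.2 (charDegree_pos ψ₀.2).ne'
  have hf0 : (f : ℂ) ≠ 0 := Nat.cast_ne_zero.2 (by omega)
  have hYx : ∑ ψ ∈ Y, (ψ : G → ℂ) x' = -(ε : ℂ) := by
    have h := sum_degree_mul (G := G) x'
    rw [if_neg hx'1, hsplit _ (fun X h1 h2 => by rw [hout X h1 h2 x' hx' hx'1, mul_zero]),
      Block.oneIrr_apply, Block.oneIrr_apply, hχ1, hval χ hχZ x' hx' hx'1, hsdef,
      Finset.sum_congr rfl (fun ψ hψ => by rw [hdeg ψ hψ]), ← Finset.mul_sum] at h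
    refine mul_left_cancel₀ hD0 ?_
    linear_combination h + hone
  have hall : ∀ t : G, t * t = 1 → ε * s * ((Nat.card G * (Brauer43.pairsOf t x₀).card * f * D : ℕ) : ℤ) =
      (((Subgroup.centralizer ({t} : Set G)).index : ℤ) * ((f : ℤ) - U t)) ^ 2 := by
    intro t ht2
    set k := (Subgroup.centralizer ({t} : Set G)).index with hkdef
    have hcnt := Brauer43.card_pairsOf t x₀
    have hsumt : ∑ ψ ∈ Y, ((k : ℂ) * (ψ : G → ℂ) t) ^ 2 * (ψ : G → ℂ) x' / (ψ : G → ℂ) 1 =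
        ((k : ℂ) * ((ε : ℂ) * (1 + (s : ℂ) * (U t)))) ^ 2 / (D : ℂ) * ∑ ψ ∈ Y, (ψ : G → ℂ) x' := by
      rw [Finset.mul_sum]
      refine Finset.sum_congr rfl fun ψ hψ => ?_
      rw [hψt t ht2 ψ hψ, hdeg ψ hψ]; ring
    rw [← hx'def, ← hkdef,
      hsplit _ (fun X h1 h2 => by rw [hout X h1 h2 x' hx' hx'1, mul_zero, zero_div]),
      Block.oneIrr_apply, Block.oneIrr_apply, Block.oneIrr_apply, hU t ht2, hχ1,
      hval χ hχZ x' hx' hx'1, hsdef, hsumt, hYx] at hcnt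
    have hεε : (ε : ℂ) * ε = 1 := by rcases hε with rfl | rfl <;> norm_num
    have hss : (s : ℂ) * s = 1 := by rcases hs with rfl | rfl <;> norm_num
    have hkey : (ε : ℂ) * s * ((Nat.card G : ℂ) * ((Brauer43.pairsOf t x₀).card : ℂ) * f * D) = ((k : ℂ) * ((f : ℂ) - (U t))) ^ 2 := by
      have h1 : (Nat.card G : ℂ) * ((Brauer43.pairsOf t x₀).card : ℂ) * f * D = (k : ℂ) ^ 2 * (f * D + ((U t : ℂ)) ^ 2 * s * D
          - ε * (1 + (s : ℂ) * (U t)) ^ 2 * f) := by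
        rw [hcnt]
        field_simp
        linear_combination (-((k : ℂ) ^ 2 * (1 + (s : ℂ) * (U t)) ^ 2 * f * ε)) * hεε
      rw [h1]
      linear_combination ((s : ℂ) * (k : ℂ) ^ 2 * ((f : ℂ) + ((U t : ℂ)) ^ 2 * s)) * hone
        - ((s : ℂ) * (k : ℂ) ^ 2 * (1 + (s : ℂ) * (U t)) ^ 2 * f) * hεε
        + ((k : ℂ) ^ 2 * ((f : ℂ) ^ 2 - 2 * f * (U t) + ((U t : ℂ)) ^ 2)) * hss
    have hkey' : ε * s * ((Nat.card G * (Brauer43.pairsOf t x₀).card * f * D : ℕ) : ℤ) = ((k : ℤ) * ((f : ℤ) - (U t))) ^ 2 := by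
      have : ((ε * s * ((Nat.card G * (Brauer43.pairsOf t x₀).card * f * D : ℕ) : ℤ) : ℤ) : ℂ) =
          ((((k : ℤ) * ((f : ℤ) - (U t))) ^ 2 : ℤ) : ℂ) := by push_cast; exact hkey
      exact_mod_cast this
    exact hkey'
  have hone' : ε * (D : ℤ) = 1 + s * f := by exact_mod_cast hone
  refine ⟨χ, f, D, s, ε, U, hχone, hχ1, charDegree_dvd_card χ.2, charDegree_dvd_card ψ₀.2, hf1, ?_, hs, hε,
    Int.modEq_iff_dvd.1 hcongr.symm, hone', fun z hz _ => ⟨hU z hz, hall z hz⟩⟩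
  have h := sum_charDegree_sq (G := G)
  have hle : ∑ X ∈ Z ∪ Y, charDegree (X : G → ℂ) ^ 2 ≤ Nat.card G :=
    h ▸ Finset.sum_le_sum_of_subset_of_nonneg (Finset.subset_univ _) fun _ _ _ => Nat.zero_le _
  rw [Finset.sum_union hd, hZeq, Finset.sum_pair hχone.symm,
    Finset.sum_congr rfl (g := fun _ => D ^ 2) (fun ψ hψ => by
      congr 1
      exact_mod_cast (apply_one_eq_charDegree (isCharacter_of_isIrr ψ.2)).symm.trans (hdeg ψ hψ)),
    Finset.sum_const, hY, smul_eq_mul,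
    show charDegree (Block.oneIrr G : G → ℂ) = 1 from charDegree_one] at hle
  linarith

end Cfsg.Agent.Lib.SmallSimple.DegreeRelation
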