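import Cfsg.Agent.Lib.SmallSimple.SevenOf5040
import Cfsg.Agent.S0111

/-!
The Sylow 5-normalisers of a putative simple group of order 5040 (helper17).
-/

set_option autoImplicit false
set_option linter.unusedSectionVars false

namespace Cfsg.Agent.Lib.SmallSimple.Order5040

open Subgroup

variable {G : Type*} [Group G] [Finite G] [IsSimpleGroup G]

/-- Index of `N(Q)` is not 56. -/
theorem five_ne_56 (h : Nat.card G = 5040) (Q : Subgroup G) (hQ : Nat.card Q = 5)
    (hN : Nat.card ↥(normalizer (Q : Set G)) = 90) (hC : Nat.card ↥(centralizer (Q : Set G)) = 45) : False := by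
  classical
  haveI : Fact (Nat.Prime 5) := ⟨Nat.prime_five⟩
  haveI : Fact (Nat.Prime 3) := ⟨Nat.prime_three⟩
  haveI : IsCyclic Q := isCyclic_of_prime_card hQ
  have hG := not_comm h
  set N := normalizer (Q : Set G) with hNdef
  set C := centralizer (Q : Set G) with hCdef
  have hCN : C ≤ N := centralizer_le_normalizer _
  obtain ⟨S⟩ : Nonempty (Sylow 3 C) := inferInstance
  have hS : Nat.card (S : Subgroup C) = 9 := by
    simpa using card_sylow_subgroup S (k := 2) (m := 5) (by rw [hC]; norm_num) (by norm_num)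
  set K : Subgroup G := (S : Subgroup C).map C.subtype with hKdef
  have hK : Nat.card K = 9 := by rw [hKdef, card_map_of_injective C.subtype_injective, hS]
  have hsub : Subsingleton (Sylow 3 C) := by
    have hd : Nat.card (Sylow 3 C) ∣ 5 := by
      have hi := (S : Subgroup C).card_mul_index
      rw [hS, hC] at hi
      have := S.card_dvd_index
      rwa [show (S : Subgroup C).index = 5 by omega] at this
    have hm := card_sylow_modEq_one 3 C
    rcases (Nat.dvd_prime Nat.prime_five).1 hd with h1 | h1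
    · exact (Nat.card_eq_one_iff_unique.1 h1).1
    · rw [h1] at hm
      exact absurd hm (by decide)
  have hNK : N ≤ normalizer (K : Set G) := by
    intro n hn
    refine mem_normalizer_iff_map_conj_eq.2 ?_
    set K' := K.map (MulAut.conj n).toMonoidHom with hK'def
    have hK'C : K' ≤ C := by
      rintro _ ⟨k, hk, rfl⟩
      have := conj_mem_centralizer (P := Q) (map_subtype_le _ hk) (n := n⁻¹) (N.inv_mem hn)
      simpa using this
    have hK' : Nat.card K' = 9 := by
      rw [hK'def, card_map_of_injective (MulEquiv.injective _), hK]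
    let A : Sylow 3 C := Sylow.ofCard (K'.subgroupOf C) (by
      rw [Nat.card_congr (subgroupOfEquivOfLe hK'C).toEquiv, hK', hC,
        show (45 : ℕ) = 3 ^ 2 * 5 from rfl, Nat.factorization_mul (by norm_num) (by norm_num),
        Finsupp.add_apply, Nat.prime_three.factorization_pow, Finsupp.single_eq_same,
        Nat.factorization_eq_zero_of_not_dvd (by norm_num), add_zero]
      norm_num)
    have hA : (A : Subgroup C) = K'.subgroupOf C := Sylow.coe_ofCard _ _
    rw [Subsingleton.elim A S] at hA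
    have hKK : K = K' := by rw [hKdef, hA, map_subgroupOf_eq_of_le hK'C]
    exact hKK.symm
  have hk := relIndex_normalizer_modEq (H := normalizer (K : Set G)) (P := Q) (p := 5) (by rw [h]; norm_num) hQ
    (le_normalizer.trans hNK)
  rw [← hNdef] at hk
  have hm := relIndex_mul_relIndex (⊥ : Subgroup G) N (normalizer (K : Set G)) bot_le hNK
  rw [relIndex_bot_left, relIndex_bot_left, hN] at hm
  let T : Sylow 3 G := Sylow.ofCard K (by
    rw [hK, h, show (5040 : ℕ) = 3 ^ 2 * 560 from rfl, Nat.factorization_mul (by norm_num) (by norm_num),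
      Finsupp.add_apply, Nat.prime_three.factorization_pow, Finsupp.single_eq_same,
      Nat.factorization_eq_zero_of_not_dvd (by norm_num), add_zero]
    norm_num)
  have hT : (T : Subgroup G) = K := Sylow.coe_ofCard _ _
  obtain ⟨-, h3, -⟩ := card_sylow_facts (p := 3) hG (by rw [h]; norm_num)
  rw [card_sylow_eq_index T, hT] at h3
  have hne : normalizer (K : Set G) ≠ ⊤ := by
    have := sylow_normalizer_ne_top hG T (by rw [h]; norm_num)
    rwa [hT] at this
  have h8 := eight_le_index h hne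
  have hi := (normalizer (K : Set G)).card_mul_index
  rw [← hm, h] at hi
  set k := N.relIndex (normalizer (K : Set G))
  have hk7 : k ≤ 7 := by nlinarith
  interval_cases k <;> omega

/-- An order-7 element, and commuting elements of order two and three in its normaliser. -/
theorem exists_seven (h : Nat.card G = 5040) [Fact (Nat.Prime 7)] :
    ∃ P : Subgroup G, Nat.card P = 7 ∧ ∃ t e : G, orderOf t = 2 ∧ orderOf e = 3 ∧ Commute e t ∧
      t ∈ normalizer (P : Set G) ∧ e ∈ normalizer (P : Set G) ∧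
      t ∉ centralizer (P : Set G) ∧ e ∉ centralizer (P : Set G) := by
  classical
  haveI : Fact (Nat.Prime 3) := ⟨Nat.prime_three⟩
  haveI : Fact (Nat.Prime 2) := ⟨Nat.prime_two⟩
  obtain ⟨a, ha⟩ := exists_prime_orderOf_dvd_card' (G := G) 7 (by rw [h]; norm_num)
  set P := zpowers a with hPdef
  have hP : Nat.card P = 7 := by rw [hPdef, Nat.card_zpowers, ha]
  haveI : IsCyclic P := isCyclic_of_prime_card hP
  obtain ⟨hC, hN⟩ := sylow_seven h P hP
  set N := normalizer (P : Set G) with hNdef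
  obtain ⟨t', ht'⟩ := exists_prime_orderOf_dvd_card' (G := N) 2 (by rw [hN]; norm_num)
  set t : G := (t' : G) with htdef
  have ht : orderOf t = 2 := by rw [htdef, Subgroup.orderOf_coe, ht']
  have hnC : ∀ x : G, (orderOf x = 2 ∨ orderOf x = 3 ∨ orderOf x = 5) → x ∉ centralizer (P : Set G) :=
    fun x hx hxC => not_commute_seven h ha hx (mem_centralizer_iff.1 hxC a (mem_zpowers a))
  have hcomm : ∀ n ∈ N, n * t * n⁻¹ * t⁻¹ ∈ P := by
    intro n hn
    rw [← hC]
    have hmem : (⟨n, hn⟩ * t' * ⟨n, hn⟩⁻¹ * t'⁻¹ : N) ∈ P.normalizerMonoidHom.ker := by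
      haveI : IsCyclic (MulAut P) := by
        haveI : Fact (Nat.Prime (Nat.card P)) := ⟨by rw [hP]; norm_num⟩
        exact isCyclic_of_surjective (IsCyclic.mulAutMulEquiv P).symm.toMonoidHom (MulEquiv.surjective _)
      rw [MonoidHom.mem_ker, map_mul, map_mul, map_mul, map_inv, map_inv]
      have := (IsCyclic.isMulCommutative (α := MulAut P)).is_comm.comm (P.normalizerMonoidHom ⟨n, hn⟩) (P.normalizerMonoidHom t')
      rw [this, mul_inv_cancel_right, mul_inv_cancel]
    rw [Subgroup.normalizerMonoidHom_ker, mem_subgroupOf] at hmem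
    simpa using hmem
  set D := (centralizer ({t} : Set G)).subgroupOf N with hDdef
  have hinj : Nat.card (N ⧸ D) ≤ 7 := by
    rw [← hP]
    refine Nat.card_le_card_of_injective (fun ω => (⟨(ω.out : G) * t * (ω.out : G)⁻¹ * t⁻¹,
      hcomm _ ω.out.2⟩ : P)) ?_
    intro ω ω' he
    have he' : (ω.out : G) * t * (ω.out : G)⁻¹ = (ω'.out : G) * t * (ω'.out : G)⁻¹ :=
      mul_right_cancel (congrArg Subtype.val he)
    rw [← QuotientGroup.out_eq' ω, ← QuotientGroup.out_eq' ω']
    refine QuotientGroup.eq.2 (mem_subgroupOf.2 (mem_centralizer_singleton_iff.2 ?_))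
    show (ω.out : G)⁻¹ * ω'.out * t = t * ((ω.out : G)⁻¹ * ω'.out)
    calc (ω.out : G)⁻¹ * ω'.out * t
        = (ω.out : G)⁻¹ * ((ω'.out : G) * t * (ω'.out : G)⁻¹) * ω'.out := by group
      _ = _ := by rw [← he']; group
  have hD : 6 ≤ Nat.card D := by
    have hh := D.card_eq_card_quotient_mul_card_subgroup
    rw [hN] at hh
    nlinarith
  have h7 : ¬ 7 ∣ Nat.card D := by
    intro h7
    obtain ⟨b, hb⟩ := exists_prime_orderOf_dvd_card' (G := D) 7 h7
    have hb' : orderOf ((b : N) : G) = 7 := by rw [Subgroup.orderOf_coe, Subgroup.orderOf_coe, hb]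
    exact not_commute_seven h hb' (Or.inl ht)
      (mem_centralizer_singleton_iff.1 (mem_subgroupOf.1 b.2))
  have hD42 : Nat.card D ∣ 42 := hN ▸ D.card_subgroup_dvd_card
  have hD6 : Nat.card D = 6 := by
    have hle := Nat.le_of_dvd (by norm_num) hD42
    obtain ⟨v, hv⟩ := hD42
    have : v ≤ 7 := by nlinarith
    interval_cases v <;> omega
  obtain ⟨e', he'⟩ := exists_prime_orderOf_dvd_card' (G := D) 3 (by rw [hD6]; norm_num)
  set e : G := ((e' : N) : G) with hedef
  have he : orderOf e = 3 := by rw [hedef, Subgroup.orderOf_coe, Subgroup.orderOf_coe, he']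
  exact ⟨P, hP, t, e, ht, he, mem_centralizer_singleton_iff.1 (mem_subgroupOf.1 e'.2), t'.2,
    (e' : N).2, hnC t (Or.inl ht), hnC e (Or.inr (Or.inl he))⟩

/-- Index of `N(Q)` is not 21. -/
theorem five_ne_21 (h : Nat.card G = 5040) [Fact (Nat.Prime 7)] (Q : Subgroup G) (hQ : Nat.card Q = 5)
    (hN : Nat.card ↥(normalizer (Q : Set G)) = 240) (hC : 3 ∣ Nat.card ↥(centralizer (Q : Set G))) : False := by
  classical
  haveI : Fact (Nat.Prime 5) := ⟨Nat.prime_five⟩
  haveI : Fact (Nat.Prime 3) := ⟨Nat.prime_three⟩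
  have hG := not_comm h
  have hperf := commutator_eq_top hG
  haveI : IsCyclic Q := isCyclic_of_prime_card hQ
  set H := normalizer (Q : Set G) with hHdef
  have hCH : centralizer (Q : Set G) ≤ H := centralizer_le_normalizer _
  have hHi : H.index = 21 := by
    have := H.card_mul_index
    rw [hN, h] at this; omega
  have hHne : H ≠ ⊤ := fun ht => by rw [ht, index_top] at hHi; omega
  obtain ⟨d', hd'⟩ := exists_prime_orderOf_dvd_card' (G := centralizer (Q : Set G)) 3 hC
  set d : G := (d' : G) with hddef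
  have hd : orderOf d = 3 := by rw [hddef, Subgroup.orderOf_coe, hd']
  obtain ⟨hd15, hdpos, hdsum⟩ := moved_facts (p := 5) (P := Q) (H := H) (c := d) (r := 3)
    (by rw [h]; norm_num) hQ le_normalizer hHne Nat.prime_three (by norm_num) hd d'.2
    fun n hn => H.mul_mem (H.mul_mem (H.inv_mem hn) (hCH d'.2)) hn
  change Nat.card {ω : G ⧸ H // d • ω ≠ ω} + Nat.card {ω : G ⧸ H // d • ω = ω} = H.index at hdsum
  change 5 * 3 ∣ Nat.card {ω : G ⧸ H // d • ω ≠ ω} at hd15
  change 0 < Nat.card {ω : G ⧸ H // d • ω ≠ ω} at hdpos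
  rw [hHi] at hdsum
  obtain ⟨P, hP, t, e, ht, he, het, htN, heN, htC, heC⟩ := exists_seven h
  have hH7 : ¬ 7 ∣ Nat.card H := by rw [hN]; norm_num
  have htb := fixed_mul_le_index hP hH7 htN htC
  have heb := fixed_mul_le_index hP hH7 heN heC
  rw [hHi] at htb heb
  have ht4 := four_dvd_card_moved hperf (Ω := G ⧸ H) (x := t) (by rw [← ht, pow_orderOf_eq_one])
  have htsum := moved_add_fixed H t
  rw [hHi] at htsum
  have ht1 : Nat.card {ω : G ⧸ H // t • ω = ω} = 1 := by omega
  obtain ⟨⟨⟨ω, hω⟩⟩, hsub⟩ : Nonempty {ω : G ⧸ H // t • ω = ω} ∧ Subsingleton {ω : G ⧸ H // t • ω = ω} :=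
    ⟨(Nat.card_eq_one_iff_unique.1 ht1).2, (Nat.card_eq_one_iff_unique.1 ht1).1⟩
  have heω : e • ω = ω := by
    have h1 : t • (e • ω) = e • ω := by rw [← mul_smul, ← het.eq, mul_smul, hω]
    exact congrArg Subtype.val (Subsingleton.elim (α := {ω : G ⧸ H // t • ω = ω}) ⟨_, h1⟩ ⟨ω, hω⟩)
  have he3 : 3 ∣ Nat.card {ω : G ⧸ H // e • ω ≠ ω} :=
    dvd_card_moved (Commute.refl e) (by rw [← he, pow_orderOf_eq_one]) fun _ hh => hh
  have hesum := moved_add_fixed H e
  rw [hHi] at hesum
  haveI : Nonempty {ω : G ⧸ H // e • ω = ω} := ⟨⟨ω, heω⟩⟩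
  have hepos : 0 < Nat.card {ω : G ⧸ H // e • ω = ω} := Nat.card_pos
  obtain ⟨g, rfl⟩ := QuotientGroup.mk_surjective ω
  have he' : g⁻¹ * e * g ∈ H := by
    have h' := QuotientGroup.eq.1 heω.symm
    simpa [mul_assoc] using h'
  -- inside `H` the subgroups of order three are conjugate
  have hdH : d ∈ H := hCH d'.2
  obtain ⟨k, -, hk⟩ := exists_conj_of_card_prime (G := H) (p := 3) (H := ⊤)
    (P := zpowers (⟨d, hdH⟩ : H)) (P' := zpowers (⟨g⁻¹ * e * g, he'⟩ : H))
    (by rw [hN]; norm_num) (by rw [Nat.card_zpowers, Subgroup.orderOf_mk, hd])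
    (by
      rw [Nat.card_zpowers, Subgroup.orderOf_mk, ← he]
      simpa [mul_assoc] using (MulAut.conj g⁻¹).orderOf_eq e) le_top le_top
  have hk' := hk _ (mem_zpowers _)
  set u : G := g * (k : G) with hudef
  have hu : u⁻¹ * e * u ∈ zpowers d := by
    obtain ⟨j, hj⟩ := mem_zpowers_iff.1 hk'
    refine mem_zpowers_iff.2 ⟨j, ?_⟩
    have hj' := congrArg (Subtype.val : H → G) hj
    simp only [SubgroupClass.coe_zpow, Subgroup.coe_mul, Subgroup.coe_inv] at hj'
    rw [hj', hudef]
    group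
  have hd3 : d ^ 3 = 1 := by rw [← hd, pow_orderOf_eq_one]
  have hue : u⁻¹ * e * u ≠ 1 := by
    intro h1
    have h2 : e = 1 := by
      calc e = u * (u⁻¹ * e * u) * u⁻¹ := by group
        _ = 1 := by rw [h1]; group
    rw [h2, orderOf_one] at he
    norm_num at he
  have hud : u⁻¹ * e * u = d ∨ u⁻¹ * e * u = d⁻¹ := by
    rw [IsOfFinOrder.mem_zpowers_iff_mem_range_orderOf (isOfFinOrder_of_finite d), hd] at hu
    obtain ⟨j, hj, hju⟩ := Finset.mem_image.1 hu
    rw [Finset.mem_range] at hj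
    interval_cases j
    · exact absurd (by rw [← hju, pow_zero]) hue
    · exact Or.inl (by rw [← hju, pow_one])
    · exact Or.inr (by rw [← hju, eq_inv_iff_mul_eq_one, ← pow_succ, hd3])
  have hfix : Nat.card {ω : G ⧸ H // e • ω = ω} = Nat.card {ω : G ⧸ H // d • ω = ω} := by
    refine Nat.card_congr (Equiv.subtypeEquiv (MulAction.toPerm u⁻¹) fun x => ?_)
    show e • x = x ↔ d • (u⁻¹ • x) = u⁻¹ • x
    have h1 : e • x = x ↔ (u⁻¹ * e * u) • (u⁻¹ • x) = u⁻¹ • x := by
      rw [mul_smul, smul_inv_smul, mul_smul, smul_left_cancel_iff]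
    rcases hud with h2 | h2 <;> rw [h1, h2]
    rw [inv_smul_eq_iff]
    exact eq_comm
  omega

/-- An involution centralised by `N(Q)`, when `|N(Q)| = 40`, has that group as centraliser. -/
theorem centralizer_eq_normalizer (h : Nat.card G = 5040) (Q : Subgroup G) (hQ : Nat.card Q = 5)
    (hN : Nat.card ↥(normalizer (Q : Set G)) = 40) {x : G} (hx : orderOf x = 2)
    (hle : normalizer (Q : Set G) ≤ centralizer ({x} : Set G)) :
    centralizer ({x} : Set G) = normalizer (Q : Set G) := by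
  classical
  haveI : Fact (Nat.Prime 5) := ⟨Nat.prime_five⟩
  haveI : Fact (Nat.Prime 2) := ⟨Nat.prime_two⟩
  have hG := not_comm h
  set N := normalizer (Q : Set G) with hNdef
  set H := centralizer ({x} : Set G) with hHdef
  have hx1 : x ≠ 1 := fun h1 => by rw [h1, orderOf_one] at hx; norm_num at hx
  have hne := centralizer_ne_top h hx1
  have h8 := eight_le_index h hne
  have hsq5 : ¬ 5 ^ 2 ∣ Nat.card G := by rw [h]; norm_num
  have hk := relIndex_normalizer_modEq hsq5 hQ (le_normalizer.trans hle)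
  rw [← hNdef] at hk
  have hm := relIndex_mul_relIndex (⊥ : Subgroup G) N H bot_le hle
  rw [relIndex_bot_left, relIndex_bot_left, hN] at hm
  have hi := H.card_mul_index
  rw [← hm, h] at hi
  set k := N.relIndex H with hkdef
  have hk15 : k ≤ 15 := by nlinarith
  interval_cases k <;> try omega
  · exact le_antisymm (relIndex_eq_one.1 hkdef.symm) hle
  · exfalso
    have hHi : H.index = 21 := by omega
    have hQH : Q ≤ H := le_normalizer.trans hle
    have hxC : x ∈ centralizer (Q : Set G) := mem_centralizer_iff.2 fun z hz =>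
      mem_centralizer_singleton_iff.1 (hQH hz)
    obtain ⟨h10, hpos, hsum⟩ := moved_facts hsq5 hQ hQH hne Nat.prime_two (by norm_num) hx hxC
      fun n hn => by
        have hxH : x ∈ H := mem_centralizer_singleton_iff.2 rfl
        exact H.mul_mem (H.mul_mem (H.inv_mem (hle hn)) hxH) (hle hn)
    change Nat.card {ω : G ⧸ H // x • ω ≠ ω} + Nat.card {ω : G ⧸ H // x • ω = ω} = H.index at hsum
    change 5 * 2 ∣ Nat.card {ω : G ⧸ H // x • ω ≠ ω} at h10
    change 0 < Nat.card {ω : G ⧸ H // x • ω ≠ ω} at hpos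
    have h4 := four_dvd_card_moved (commutator_eq_top hG) (Ω := G ⧸ H) (x := x)
      (by rw [← hx, pow_orderOf_eq_one])
    rw [hHi] at hsum
    have h1 : Nat.card {ω : G ⧸ H // x • ω = ω} = 1 := by omega
    haveI := (Nat.card_eq_one_iff_unique.1 h1).1
    obtain ⟨g, hgc, hgne⟩ := exists_commuting_conj hG hx
    refine hgne ?_
    have hmem : g * x * g⁻¹ ∈ H := mem_centralizer_singleton_iff.2 hgc.eq.symm
    have hfix1 : x • ((g⁻¹ : G) : G ⧸ H) = ((g⁻¹ : G) : G ⧸ H) := by
      refine (QuotientGroup.eq.2 ?_).symm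
      simpa [mul_assoc] using hmem
    have hfix0 : x • ((1 : G) : G ⧸ H) = ((1 : G) : G ⧸ H) := by
      refine (QuotientGroup.eq.2 ?_).symm
      simpa using (mem_centralizer_singleton_iff.2 (rfl : x * x = x * x) : x ∈ H)
    have heq := congrArg Subtype.val (Subsingleton.elim (α := {ω : G ⧸ H // x • ω = ω}) ⟨_, hfix1⟩ ⟨_, hfix0⟩)
    have hg : g ∈ H := by simpa using QuotientGroup.eq.1 heq
    rw [mem_centralizer_singleton_iff.1 hg, mul_inv_cancel_right]

/-- Index of `N(Q)` is not 126. -/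
theorem five_ne_126 (h : Nat.card G = 5040) (Q : Subgroup G) (hQ : Nat.card Q = 5)
    (hN : Nat.card ↥(normalizer (Q : Set G)) = 40)
    (hC : Nat.card ↥(centralizer (Q : Set G)) = 10 ∨ Nat.card ↥(centralizer (Q : Set G)) = 20) : False := by
  classical
  haveI : Fact (Nat.Prime 5) := ⟨Nat.prime_five⟩
  haveI : Fact (Nat.Prime 2) := ⟨Nat.prime_two⟩
  haveI : IsCyclic Q := isCyclic_of_prime_card hQ
  have hG := not_comm h
  have hsq5 : ¬ 5 ^ 2 ∣ Nat.card G := by rw [h]; norm_num
  set N := normalizer (Q : Set G) with hNdef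
  set C := centralizer (Q : Set G) with hCdef
  have hCN : C ≤ N := centralizer_le_normalizer _
  have hQN : Q ≤ N := le_normalizer
  obtain ⟨U, hU⟩ := Sylow.exists_subgroup_card_pow_prime (G := N) 2 (n := 3) (by rw [hN]; norm_num)
  set S8 : Subgroup G := U.map N.subtype with hS8def
  have hS8N : S8 ≤ N := map_subtype_le U
  have hS8 : Nat.card S8 = 8 := by rw [hS8def, card_map_of_injective N.subtype_injective, hU]; norm_num
  have hS8p : IsPGroup 2 S8 := IsPGroup.of_card (n := 3) (by rw [hS8]; norm_num)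
  obtain ⟨S16, hS16, hle⟩ := Sylow.exists_subgroup_card_pow_succ (G := G) (p := 2) (n := 3) (H := S8)
    (by rw [h]; norm_num) (by rw [hS8]; norm_num)
  have hS16' : Nat.card S16 = 16 := by rw [hS16]; norm_num
  have hS16p : IsPGroup 2 S16 := IsPGroup.of_card (n := 4) (by rw [hS16']; norm_num)
  have hidx : (S8.subgroupOf S16).index = 2 := by
    have := (S8.subgroupOf S16).card_mul_index
    rw [Nat.card_congr (subgroupOfEquivOfLe hle).toEquiv, hS8, hS16'] at this; omega
  have hnorm : S16 ≤ normalizer (S8 : Set G) :=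
    (normal_subgroupOf_iff_le_normalizer hle).1 (Subgroup.normal_of_index_eq_two hidx)
  obtain ⟨y, hy, hy8⟩ : ∃ y ∈ S16, y ∉ S8 := by
    by_contra hcon
    push Not at hcon
    have := card_le_of_le (show S16 ≤ S8 from hcon)
    omega
  have sqS8 : ∀ z ∈ S16, z ^ 2 ∈ S8 := fun z hz => by
    simpa [mem_subgroupOf] using sq_mem_of_index_two hidx (⟨z, hz⟩ : S16)
  have hyN : y ∉ N := by
    intro hyN
    have h1 : S8 ≤ S16 ⊓ N := le_inf hle hS8N
    have h2 := card_dvd_of_le (inf_le_left : S16 ⊓ N ≤ S16)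
    have h3 := card_dvd_of_le (inf_le_right : S16 ⊓ N ≤ N)
    have h4 := Nat.dvd_gcd h2 h3
    rw [hS16', hN] at h4
    have : S8 = S16 ⊓ N := eq_of_le_of_card_ge h1 (by
      rw [hS8]
      exact Nat.le_of_dvd (by norm_num) (by simpa using h4))
    exact hy8 (this ▸ ⟨hy, hyN⟩)
  have hQS : Q ⊔ S8 = N := by
    refine eq_of_le_of_card_ge (sup_le hQN hS8N) ?_
    rw [hN]
    refine Nat.le_of_dvd Nat.card_pos (Nat.Coprime.mul_dvd_of_dvd_of_dvd (by norm_num : Nat.Coprime 5 8)
      (hQ ▸ card_dvd_of_le le_sup_left) (hS8 ▸ card_dvd_of_le le_sup_right))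
  -- involutions of `C` central in `S8`
  have central : ∀ x ∈ C, orderOf x = 2 → S8 ≤ centralizer ({x} : Set G) →
      centralizer ({x} : Set G) = N := by
    intro x hxC hx hxS
    refine centralizer_eq_normalizer h Q hQ hN hx (hQS.ge.trans (sup_le (fun z hz => ?_) hxS))
    exact mem_centralizer_singleton_iff.2 (mem_centralizer_iff.1 hxC z hz)
  set T := S8 ⊓ C with hTdef
  have hTn : S8 ≤ normalizer (T : Set G) := by
    intro s hs
    refine mem_normalizer_iff.2 fun z => ⟨fun hz => ⟨?_, ?_⟩, fun hz => ⟨?_, ?_⟩⟩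
    · exact S8.mul_mem (S8.mul_mem hs hz.1) (S8.inv_mem hs)
    · have := conj_mem_centralizer (P := Q) hz.2 (n := s⁻¹) (N.inv_mem (hS8N hs))
      simpa using this
    · have := S8.mul_mem (S8.mul_mem (S8.inv_mem hs) hz.1) hs
      simpa [mul_assoc] using this
    · have := conj_mem_centralizer (P := Q) hz.2 (n := s) (hS8N hs)
      simpa [mul_assoc] using this
  have hTne : T ≠ ⊥ ∧ Nat.card T ≤ 4 ∧ (Nat.card C = 10 → Nat.card T ≤ 2) := by
    have h1 : Nat.card T ∣ Nat.gcd (Nat.card S8) (Nat.card C) :=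
      Nat.dvd_gcd (card_dvd_of_le inf_le_left) (card_dvd_of_le inf_le_right)
    rw [hS8] at h1
    refine ⟨fun hbot => ?_, ?_, fun h10 => ?_⟩
    · haveI hCn : (C.subgroupOf N).Normal := by
        rw [hCdef, hNdef, ← Subgroup.normalizerMonoidHom_ker]
        infer_instance
      have h2 := relIndex_dvd_index_of_normal (H := C.subgroupOf N) (K := U)
      have h3 := (C.subgroupOf N).card_mul_index
      rw [Nat.card_congr (subgroupOfEquivOfLe hCN).toEquiv, hN] at h3
      have h4 : C.subgroupOf N ⊓ U = ⊥ := by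
        rw [eq_bot_iff]
        intro z hz
        have hzT : (z : G) ∈ T := ⟨⟨z, hz.2, rfl⟩, mem_subgroupOf.1 hz.1⟩
        rw [hbot, mem_bot] at hzT
        exact mem_bot.2 (Subtype.ext hzT)
      rw [← inf_relIndex_right, h4, relIndex_bot_left, hU] at h2
      have h5 := Nat.le_of_dvd (Nat.pos_of_ne_zero (fun h0 => by rw [h0] at h3; omega)) h2
      rcases hC with hC | hC <;> rw [hC] at h3 <;> norm_num at h5 <;> omega
    · rcases hC with hC | hC <;> rw [hC] at h1 <;>
        exact (Nat.le_of_dvd (by norm_num) h1).trans (by norm_num)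
    · rw [h10] at h1
      exact Nat.le_of_dvd (by norm_num) h1
  obtain ⟨c, hcT, hc, hcS⟩ := exists_central_involution hS8p inf_le_left hTne.1 hTn
  have hcS8 : c ∈ S8 := hcT.1
  have hCc := central c hcT.2 hc hcS
  have notfix : ∀ x ∈ C, orderOf x = 2 → S8 ≤ centralizer ({x} : Set G) → y * x * y⁻¹ ≠ x :=
    fun x hxC hx hxS he => hyN ((central x hxC hx hxS) ▸
      mem_centralizer_singleton_iff.2 (mul_inv_eq_iff_eq_mul.1 he))
  have mul_self : ∀ x : G, orderOf x = 2 → x * x = 1 := fun x hx => by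
    rw [← pow_two, ← hx, pow_orderOf_eq_one]
  have conjS8 : ∀ z ∈ S8, y * z * y⁻¹ ∈ S8 := fun z hz => (mem_normalizer_iff.1 (hnorm hy) z).1 hz
  have comS8 : ∀ x, S8 ≤ centralizer ({x} : Set G) → ∀ s ∈ S8, s * x = x * s :=
    fun x hx s hs => mem_centralizer_singleton_iff.1 (hx hs)
  have conjCentral : ∀ x, S8 ≤ centralizer ({x} : Set G) →
      S8 ≤ centralizer ({y⁻¹ * x * y} : Set G) := by
    intro x hx s hs
    refine mem_centralizer_singleton_iff.2 ?_
    have h1 := comS8 x hx _ (conjS8 s hs)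
    calc s * (y⁻¹ * x * y) = y⁻¹ * ((y * s * y⁻¹) * x) * y := by group
      _ = y⁻¹ * (x * (y * s * y⁻¹)) * y := by rw [h1]
      _ = y⁻¹ * x * y * s := by group
  have ord_conj : ∀ g x : G, orderOf (g * x * g⁻¹) = orderOf x := fun g x => by
    simpa using (MulAut.conj g).orderOf_eq x
  set c₁ := y * c * y⁻¹ with hc₁
  have hc₁S : c₁ ∈ S8 := conjS8 c hcT.1
  have hc₁o : orderOf c₁ = 2 := by rw [hc₁, ord_conj, hc]
  have hc₁c : c₁ ≠ c := notfix c hcT.2 hc hcS
  have hy2c : y * c₁ * y⁻¹ = c := by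
    have h1 := comS8 c hcS _ (sqS8 y hy)
    rw [hc₁, show y * (y * c * y⁻¹) * y⁻¹ = y ^ 2 * c * (y ^ 2)⁻¹ by rw [pow_two]; group, h1,
      mul_inv_cancel_right]
  have hc₁S' : S8 ≤ centralizer ({c₁} : Set G) := by
    intro s hs
    refine mem_centralizer_singleton_iff.2 ?_
    have h1 := comS8 c hcS _ (show y⁻¹ * s * y ∈ S8 by
      simpa using (mem_normalizer_iff.1 (hnorm (S16.inv_mem hy)) s).1 hs)
    calc s * c₁ = y * ((y⁻¹ * s * y) * c) * y⁻¹ := by rw [hc₁]; group
      _ = y * (c * (y⁻¹ * s * y)) * y⁻¹ := by rw [h1]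
      _ = c₁ * s := by rw [hc₁]; group
  set z := c₁ * c with hzdef
  have hzc : c₁ * c = c * c₁ := comS8 c hcS c₁ hc₁S
  have hzy : y * z * y⁻¹ = z := by
    calc y * z * y⁻¹ = (y * c₁ * y⁻¹) * (y * c * y⁻¹) := by rw [hzdef]; group
      _ = z := by rw [hy2c, ← hc₁, ← hzc]
  have hzo : orderOf z = 2 := by
    refine orderOf_eq_prime ?_ ?_
    · rw [hzdef, (show Commute c₁ c from hzc).mul_pow, pow_two, pow_two, mul_self c₁ hc₁o, mul_self c hc, one_mul]
    · intro h1
      refine hc₁c ?_
      rw [hzdef] at h1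
      rw [eq_inv_of_mul_eq_one_left h1]
      exact inv_eq_of_mul_eq_one_right (mul_self c hc)
  have hzS : S8 ≤ centralizer ({z} : Set G) := fun s hs => mem_centralizer_singleton_iff.2
    ((show Commute s c₁ from comS8 c₁ hc₁S' s hs).mul_right (show Commute s c from comS8 c hcS s hs))
  have hc₁C : c₁ ∉ C := fun hcon => notfix z (C.mul_mem hcon hcT.2) hzo hzS hzy
  -- `|T| = 2`
  have hT2 : Nat.card T = 2 := by
    have hdvd := card_dvd_of_le (show zpowers c ≤ T from zpowers_le.2 hcT)
    rw [Nat.card_zpowers, hc] at hdvd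
    obtain ⟨v, hv⟩ := hdvd
    have hv2 : v ≤ 2 := by have := hTne.2.1; omega
    interval_cases v
    · exact absurd hv Nat.card_pos.ne'
    · omega
    exfalso
    set T₁ := T.map (MulAut.conj y).toMonoidHom with hT₁
    have hT₁S : T₁ ≤ S8 := by
      rintro _ ⟨s, hs, rfl⟩
      exact conjS8 s hs.1
    have hT₁c : Nat.card T₁ = 4 := by rw [hT₁, card_map_of_injective (MulEquiv.injective _), hv]
    have hT₁n : S8 ≤ normalizer (T₁ : Set G) := by
      intro s hs
      have hs' : y⁻¹ * s * y ∈ S8 := by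
        simpa using (mem_normalizer_iff.1 (hnorm (S16.inv_mem hy)) s).1 hs
      refine mem_normalizer_iff.2 fun w => ?_
      have h1 := mem_normalizer_iff.1 (hTn hs') (y⁻¹ * w * y)
      have hmem : ∀ w : G, w ∈ T₁ ↔ y⁻¹ * w * y ∈ T := fun w => by
        rw [hT₁, Subgroup.mem_map_equiv]
        simp
      rw [hmem, hmem, h1, show y⁻¹ * (s * w * s⁻¹) * y =
        (y⁻¹ * s * y) * (y⁻¹ * w * y) * (y⁻¹ * s * y)⁻¹ by group]
    have hne : T ⊓ T₁ ≠ ⊥ := by
      intro hb
      have hbig : Nat.card T * Nat.card T₁ ≤ Nat.card S8 := by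
        rw [← Nat.card_prod]
        refine Nat.card_le_card_of_injective (fun p : T × T₁ => (⟨(p.1 : G) * p.2,
          S8.mul_mem p.1.2.1 (hT₁S p.2.2)⟩ : S8)) ?_
        rintro ⟨a, b⟩ ⟨a', b'⟩ he
        have he' : (a : G) * b = a' * b' := congrArg Subtype.val he
        have h1 : (a' : G)⁻¹ * a ∈ T ⊓ T₁ := by
          refine ⟨T.mul_mem (T.inv_mem a'.2) a.2, ?_⟩
          have : (a' : G)⁻¹ * a = (b' : G) * (b : G)⁻¹ := by
            rw [eq_mul_inv_iff_mul_eq, mul_assoc, he', inv_mul_cancel_left]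
          exact this ▸ T₁.mul_mem b'.2 (T₁.inv_mem b.2)
        rw [hb, mem_bot, inv_mul_eq_one] at h1
        exact Prod.ext (Subtype.ext h1.symm) (Subtype.ext (mul_left_cancel (h1 ▸ he')))
      rw [hv, hT₁c, hS8] at hbig
      omega
    obtain ⟨x, hx, hxo, hxS⟩ := exists_central_involution hS8p (inf_le_left.trans inf_le_left) hne
      (fun s hs => mem_normalizer_iff.2 fun w => and_congr (mem_normalizer_iff.1 (hTn hs) w)
        (mem_normalizer_iff.1 (hT₁n hs) w))
    obtain ⟨a, ha, hax⟩ := hx.2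
    have hax' : y * a * y⁻¹ = x := hax
    have hao : orderOf a = 2 := by rw [← hxo, ← hax', ord_conj]
    have haS : S8 ≤ centralizer ({a} : Set G) := by
      have := conjCentral x hxS
      rwa [← hax', show y⁻¹ * (y * a * y⁻¹) * y = a by group] at this
    have hCa := central a ha.2 hao haS
    have hCx := central x hx.1.2 hxo hxS
    -- so `y` normalises `N`, hence `Q`
    refine hyN (mem_normalizer_iff_map_conj_eq.2 ?_)
    set Q' := Q.map (MulAut.conj y).toMonoidHom with hQ'
    have hQ'N : Q' ≤ N := by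
      rintro _ ⟨q, hq, rfl⟩
      rw [← hCx]
      refine mem_centralizer_singleton_iff.2 ?_
      have h1 : q * a = a * q := mem_centralizer_singleton_iff.1 (hCa.ge (hQN hq))
      show y * q * y⁻¹ * x = x * (y * q * y⁻¹)
      rw [← hax']
      calc y * q * y⁻¹ * (y * a * y⁻¹) = y * (q * a) * y⁻¹ := by group
        _ = y * (a * q) * y⁻¹ := by rw [h1]
        _ = y * a * y⁻¹ * (y * q * y⁻¹) := by group
    have hQ'c : Nat.card Q' = 5 := by rw [hQ', card_map_of_injective (MulEquiv.injective _), hQ]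
    obtain ⟨n, hn, hconj⟩ := exists_conj_of_card_prime hsq5 hQ hQ'c hQN hQ'N
    refine eq_of_le_of_card_ge (fun w hw => ?_) (hQ.trans hQ'c.symm).le
    have h1 := (mem_normalizer_iff.1 hn _).1 (hconj w hw)
    simpa [mul_assoc] using h1
  have Tmem : ∀ t ∈ T, t = 1 ∨ t = c := by
    intro t ht
    have hT : zpowers c = T := eq_of_le_of_card_ge (zpowers_le.2 hcT) (by rw [hT2, Nat.card_zpowers, hc])
    rw [← hT, IsOfFinOrder.mem_zpowers_iff_mem_range_orderOf (isOfFinOrder_of_finite c), hc] at ht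
    obtain ⟨j, hj, hjt⟩ := Finset.mem_image.1 ht
    rw [Finset.mem_range] at hj
    interval_cases j
    · exact Or.inl (by rw [← hjt, pow_zero])
    · exact Or.inr (by rw [← hjt, pow_one])
  obtain ⟨q', hq'⟩ := exists_prime_orderOf_dvd_card' (G := Q) 5 (by rw [hQ])
  set q : G := (q' : G) with hqdef
  have hq : orderOf q = 5 := by rw [hqdef, Subgroup.orderOf_coe, hq']
  have hQq : zpowers q = Q := eq_of_le_of_card_ge (zpowers_le.2 q'.2) (by rw [hQ, Nat.card_zpowers, hq])
  have cent_of_commute : ∀ x : G, Commute x q → x ∈ C := fun x hx => mem_centralizer_iff.2 fun w hw => by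
    rw [← hQq] at hw
    obtain ⟨k, rfl⟩ := mem_zpowers_iff.1 hw
    exact (hx.zpow_right k).eq.symm
  have act : ∀ s ∈ S8, s * q * s⁻¹ ∈ zpowers q := fun s hs =>
    hQq ▸ (mem_normalizer_iff.1 (hS8N hs) q).1 q'.2
  -- an element whose square is outside `T`
  obtain ⟨g₀, hg₀, hg₀T⟩ : ∃ g ∈ S8, g ^ 2 ∉ C := by
    by_contra hcon
    push Not at hcon
    have hcl : ∀ s ∈ S8, s * q * s⁻¹ = q ∨ s * q * s⁻¹ = q⁻¹ := fun s hs => by
      refine act_five hq (act s hs) ?_
      rw [show s * (s * q * s⁻¹) * s⁻¹ = s ^ 2 * q * (s ^ 2)⁻¹ by rw [pow_two]; group,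
        ← mem_centralizer_iff.1 (hcon s hs) q q'.2, mul_inv_cancel_right]
    -- two cosets of `T` cover `S8`
    obtain ⟨u, hu, huq⟩ : ∃ u ∈ S8, ∀ s ∈ S8, s ∈ T ∨ u⁻¹ * s ∈ T := by
      by_cases hall : ∀ s ∈ S8, s * q * s⁻¹ = q
      · exact ⟨1, S8.one_mem, fun s hs => Or.inl ⟨hs, cent_of_commute s (mul_inv_eq_iff_eq_mul.1 (hall s hs))⟩⟩
      push Not at hall
      obtain ⟨u, hu, huq⟩ := hall
      refine ⟨u, hu, fun s hs => ?_⟩
      rcases hcl s hs with h1 | h1
      · exact Or.inl ⟨hs, cent_of_commute s (mul_inv_eq_iff_eq_mul.1 h1)⟩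
      · refine Or.inr ⟨S8.mul_mem (S8.inv_mem hu) hs, cent_of_commute _ ?_⟩
        have h2 := (hcl u hu).resolve_left huq
        refine mul_inv_eq_iff_eq_mul.1 ?_
        calc u⁻¹ * s * q * (u⁻¹ * s)⁻¹ = u⁻¹ * (s * q * s⁻¹) * u := by group
          _ = u⁻¹ * (u * q * u⁻¹) * u := by rw [h1, h2]
          _ = q := by group
    have hb : Nat.card S8 ≤ Nat.card (Bool × T) := by
      refine Nat.card_le_card_of_surjective (fun p : Bool × T => (⟨(bif p.1 then u else 1) * (p.2 : G),
        S8.mul_mem (by cases p.1 <;> simp [hu]) p.2.2.1⟩ : S8)) ?_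
      rintro ⟨s, hs⟩
      rcases huq s hs with h1 | h1
      · exact ⟨(false, ⟨s, h1⟩), Subtype.ext (one_mul s)⟩
      · exact ⟨(true, ⟨_, h1⟩), Subtype.ext (mul_inv_cancel_left u s)⟩
    rw [Nat.card_prod, hT2, hS8, show Nat.card Bool = 2 by simp] at hb
    omega
  have hg4 : ∀ g ∈ S8, g ^ 2 ∉ C → orderOf g = 4 ∧ c ∉ zpowers g := by
    intro g hg hgC
    obtain ⟨l, -, hl⟩ := (Nat.dvd_prime_pow Nat.prime_two).1
      (show orderOf g ∣ 2 ^ 3 from by simpa [hS8] using S8.orderOf_dvd_natCard hg)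
    have hl2 : 2 ≤ l := by
      by_contra hlt
      refine hgC ?_
      have hdvd : orderOf g ∣ 2 := by rw [hl]; interval_cases l <;> norm_num
      rw [orderOf_dvd_iff_pow_eq_one.1 hdvd]
      exact C.one_mem
    have hle8 := Nat.le_of_dvd (by norm_num) (show orderOf g ∣ 8 from hS8 ▸ S8.orderOf_dvd_natCard hg)
    have hl3 : l ≤ 3 := by
      by_contra hlt
      have := Nat.pow_le_pow_right (by norm_num : 1 ≤ 2) (show 4 ≤ l by omega)
      omega
    interval_cases l
    · refine ⟨by rw [hl]; norm_num, fun hcg => ?_⟩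
      refine hgC ?_
      rw [IsOfFinOrder.mem_zpowers_iff_mem_range_orderOf (isOfFinOrder_of_finite g)] at hcg
      obtain ⟨j, hj, hjc⟩ := Finset.mem_image.1 hcg
      rw [Finset.mem_range, hl] at hj
      norm_num at hj
      have hord : orderOf (g ^ j) = 2 := hjc ▸ hc
      interval_cases j
      · rw [pow_zero, orderOf_one] at hord; norm_num at hord
      · rw [pow_one, hl] at hord; norm_num at hord
      · exact hjc ▸ hcT.2
      · rw [orderOf_pow' g (by norm_num), hl] at hord; norm_num at hord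
    · exfalso
      have hS : zpowers g = S8 := eq_of_le_of_card_ge (zpowers_le.2 hg) (by rw [hS8, Nat.card_zpowers, hl]; norm_num)
      haveI : IsCyclic S8 := hS ▸ (inferInstance : IsCyclic (zpowers g))
      refine hc₁c ?_
      have hinv : ∀ x ∈ S8, orderOf x = 2 → x = g ^ 4 := by
        intro x hx hxo
        rw [← hS, IsOfFinOrder.mem_zpowers_iff_mem_range_orderOf (isOfFinOrder_of_finite g)] at hx
        obtain ⟨j, hj, hjx⟩ := Finset.mem_image.1 hx
        rw [Finset.mem_range, hl] at hj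
        norm_num at hj
        subst hjx
        rcases Nat.eq_zero_or_pos j with rfl | hj0
        · rw [pow_zero, orderOf_one] at hxo; norm_num at hxo
        rw [orderOf_pow' g hj0.ne', hl] at hxo
        interval_cases j <;> first | rfl | norm_num at hxo
      rw [hinv c₁ hc₁S hc₁o, hinv c hcT.1 hc]
  obtain ⟨hg₀4, hg₀c⟩ := hg4 g₀ hg₀ hg₀T
  -- every element of `S8` is `g₀^j` or `c g₀^j`
  have repr : ∀ g ∈ S8, orderOf g = 4 → c ∉ zpowers g →
      ∀ s ∈ S8, s ∈ zpowers g ∨ c * s ∈ zpowers g := by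
    intro g hg hg4' hcg
    have hbij : Function.Bijective (fun p : Bool × zpowers g => (⟨(bif p.1 then c else 1) * (p.2 : G),
        S8.mul_mem (by cases p.1 <;> simp [hcS8]) (zpowers_le.2 hg p.2.2)⟩ : S8)) := by
      refine Function.Injective.bijective_of_nat_card_le ?_ (by
        rw [Nat.card_prod, Nat.card_zpowers, hg4', hS8, show Nat.card Bool = 2 by simp])
      rintro ⟨a, u⟩ ⟨b, v⟩ he
      have he' : (bif a then c else 1) * (u : G) = (bif b then c else 1) * (v : G) := congrArg Subtype.val he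
      cases a <;> cases b <;> simp only [cond_true, cond_false, one_mul] at he'
      · rw [Subtype.ext he']
      · exact absurd (by rw [eq_mul_inv_of_mul_eq he'.symm]; exact mul_mem u.2 (inv_mem v.2)) hcg
      · exact absurd (by rw [eq_mul_inv_of_mul_eq he']; exact mul_mem v.2 (inv_mem u.2)) hcg
      · rw [Subtype.ext (mul_left_cancel he')]
    intro s hs
    obtain ⟨⟨a, u⟩, hu⟩ := hbij.2 ⟨s, hs⟩
    have hu' : (bif a then c else 1) * (u : G) = s := congrArg Subtype.val hu
    cases a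
    · exact Or.inl (by rw [← hu']; simp)
    · refine Or.inr ?_
      rw [← hu', cond_true, ← mul_assoc, mul_self c hc, one_mul]
      exact u.2
  have powers : ∀ g : G, orderOf g = 4 → ∀ s ∈ zpowers g, s = 1 ∨ s = g ∨ s = g ^ 2 ∨ s = g ^ 3 := by
    intro g hg s hs
    rw [IsOfFinOrder.mem_zpowers_iff_mem_range_orderOf (isOfFinOrder_of_finite g), hg] at hs
    obtain ⟨j, hj, rfl⟩ := Finset.mem_image.1 hs
    rw [Finset.mem_range] at hj
    interval_cases j <;> simp
  have hcg₀ : Commute g₀ c := comS8 c hcS g₀ hg₀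
  have comm8 : ∀ s ∈ S8, Commute s g₀ := by
    intro s hs
    rcases repr g₀ hg₀ hg₀4 hg₀c s hs with h1 | h1
    · obtain ⟨j, rfl⟩ := mem_zpowers_iff.1 h1
      exact (Commute.refl g₀).zpow_left j
    · obtain ⟨j, hj⟩ := mem_zpowers_iff.1 h1
      rw [show s = c * g₀ ^ j by rw [hj, ← mul_assoc, mul_self c hc, one_mul]]
      exact hcg₀.symm.mul_left ((Commute.refl g₀).zpow_left j)
  have sq8 : ∀ s ∈ S8, s ^ 2 = 1 ∨ s ^ 2 = g₀ ^ 2 := by
    intro s hs
    have h4 : g₀ ^ 4 = 1 := by rw [← hg₀4, pow_orderOf_eq_one]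
    have hs2 : s ^ 2 ∈ (zpowers (g₀ ^ 2) : Subgroup G) := by
      rcases repr g₀ hg₀ hg₀4 hg₀c s hs with h1 | h1
      · obtain ⟨j, rfl⟩ := mem_zpowers_iff.1 h1
        exact mem_zpowers_iff.2 ⟨j, by rw [← zpow_natCast, ← zpow_natCast, ← zpow_mul, ← zpow_mul, mul_comm]⟩
      · obtain ⟨j, hj⟩ := mem_zpowers_iff.1 h1
        have h2 : s ^ 2 = (c * s) ^ 2 := by
          rw [(show Commute c s from (comS8 c hcS s hs).symm).mul_pow, pow_two c, mul_self c hc, one_mul]
        rw [h2, ← hj]
        exact mem_zpowers_iff.2 ⟨j, by rw [← zpow_natCast, ← zpow_natCast, ← zpow_mul, ← zpow_mul, mul_comm]⟩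
    have ho : orderOf (g₀ ^ 2) = 2 := by rw [orderOf_pow' g₀ (by norm_num), hg₀4]; norm_num
    rw [IsOfFinOrder.mem_zpowers_iff_mem_range_orderOf (isOfFinOrder_of_finite _), ho] at hs2
    obtain ⟨j, hj, hjs⟩ := Finset.mem_image.1 hs2
    rw [Finset.mem_range] at hj
    rw [← hjs]
    interval_cases j <;> simp
  set w := g₀ ^ 2 with hwdef
  have hwo : orderOf w = 2 := by rw [hwdef, orderOf_pow' g₀ (by norm_num), hg₀4]; norm_num
  have hy2w : y * w * y⁻¹ = w := by
    rcases sq8 _ (conjS8 g₀ hg₀) with h1 | h1 <;> rw [conj_pow, ← hwdef] at h1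
    · have := ord_conj y w
      rw [h1, orderOf_one, hwo] at this
      norm_num at this
    · exact h1
  have hcw : c ≠ w := fun he => hg₀T (by show w ∈ C; rw [← he]; exact hcT.2)
  have hc₁eq : c₁ = c * w := by
    rcases repr g₀ hg₀ hg₀4 hg₀c c₁ hc₁S with h1 | h1 <;> rcases powers g₀ hg₀4 _ h1 with h2 | h2 | h2 | h2
    · rw [h2, orderOf_one] at hc₁o; norm_num at hc₁o
    · rw [h2, hg₀4] at hc₁o; norm_num at hc₁o
    · exfalso
      rw [← hwdef] at h2
      rw [hc₁] at h2
      have : c = y⁻¹ * w * y := by rw [← h2]; group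
      refine hcw (this.trans ?_)
      conv_lhs => rw [← hy2w]
      group
    · rw [h2, orderOf_pow' g₀ (by norm_num), hg₀4] at hc₁o; norm_num at hc₁o
    · exfalso
      refine hc₁c ?_
      rw [eq_inv_of_mul_eq_one_right h2]
      exact inv_eq_of_mul_eq_one_right (mul_self c hc)
    · exfalso
      have h3 : c₁ = c * g₀ := by rw [← h2, ← mul_assoc, mul_self c hc, one_mul]
      have : orderOf c₁ = 4 := by
        rw [h3]
        refine orderOf_eq_prime_pow (p := 2) (n := 1) ?_ ?_
        · rw [show (2 : ℕ) ^ 1 = 2 from rfl, hcg₀.symm.mul_pow, pow_two c, mul_self c hc, one_mul, ← hwdef]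
          intro h4; rw [h4, orderOf_one] at hwo; norm_num at hwo
        · rw [show (2 : ℕ) ^ (1 + 1) = 4 from rfl, hcg₀.symm.mul_pow, show (4 : ℕ) = 2 * 2 from rfl, pow_mul,
            pow_mul, pow_two c, mul_self c hc, one_pow, one_mul, ← pow_mul, show 2 * 2 = orderOf g₀ from hg₀4.symm,
            pow_orderOf_eq_one]
      omega
    · rw [← hwdef] at h2
      rw [← h2, ← mul_assoc, mul_self c hc, one_mul]
    · exfalso
      have h3 : c₁ = c * g₀ ^ 3 := by rw [← h2, ← mul_assoc, mul_self c hc, one_mul]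
      have h4 : c₁ ^ 2 = w := by
        rw [h3, (hcg₀.symm.pow_right 3).mul_pow, pow_two c, mul_self c hc, one_mul, ← pow_mul,
          show 3 * 2 = orderOf g₀ + 2 by rw [hg₀4], pow_add, pow_orderOf_eq_one, one_mul]
      rw [show c₁ ^ 2 = 1 by rw [← hc₁o, pow_orderOf_eq_one]] at h4
      rw [← h4, orderOf_one] at hwo
      norm_num at hwo
  -- replace `g₀` by an element centralised by `y`
  have ycyy : y * (y * g₀ * y⁻¹) * y⁻¹ = g₀ := by
    rw [show y * (y * g₀ * y⁻¹) * y⁻¹ = y ^ 2 * g₀ * (y ^ 2)⁻¹ by rw [pow_two]; group,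
      (comm8 _ (sqS8 y hy)).eq, mul_inv_cancel_right]
  obtain ⟨g, hg, hgT, hgy⟩ : ∃ g ∈ S8, g ^ 2 = w ∧ y * g * y⁻¹ = g := by
    have hmain : ∀ v, v = y * g₀ * y⁻¹ → (v = g₀ ∨ v = g₀⁻¹) →
        ∃ g ∈ S8, g ^ 2 = w ∧ y * g * y⁻¹ = g := by
      rintro v hv (h1 | h1)
      · exact ⟨g₀, hg₀, hwdef.symm, hv.symm.trans h1⟩
      · refine ⟨c * g₀, S8.mul_mem hcT.1 hg₀, ?_, ?_⟩
        · rw [hcg₀.symm.mul_pow, pow_two c, mul_self c hc, one_mul, ← hwdef]
        · calc y * (c * g₀) * y⁻¹ = (y * c * y⁻¹) * (y * g₀ * y⁻¹) := by group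
            _ = c * w * g₀⁻¹ := by rw [← hc₁, hc₁eq, ← hv, h1]
            _ = c * g₀ := by rw [hwdef, pow_two]; group
    have hvo : orderOf (y * g₀ * y⁻¹) = 4 := by rw [ord_conj, hg₀4]
    have hbad : ∀ j : ℕ, y * g₀ * y⁻¹ = c * g₀ ^ j → w ^ j * g₀ ^ (j * j) = g₀ := by
      intro j hj
      rw [hj] at ycyy
      rw [show y * (c * g₀ ^ j) * y⁻¹ = (y * c * y⁻¹) * (y * g₀ * y⁻¹) ^ j by rw [conj_pow]; group,
        ← hc₁, hc₁eq, hj, (hcg₀.symm.pow_right j).mul_pow, ← pow_mul] at ycyy
      rcases Nat.even_or_odd j with ⟨k, rfl⟩ | ⟨k, rfl⟩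
      · exfalso
        have h2 : (y * g₀ * y⁻¹) ^ 2 = 1 := by
          rw [hj, (hcg₀.symm.pow_right _).mul_pow, pow_two c, mul_self c hc, one_mul, ← pow_mul,
            show (k + k) * 2 = orderOf g₀ * k by rw [hg₀4]; ring, pow_mul, pow_orderOf_eq_one, one_pow]
        have := orderOf_dvd_of_pow_eq_one h2
        rw [hvo] at this
        norm_num at this
      · have hcpow : c ^ (2 * k + 1) = c := by rw [pow_succ, pow_mul, pow_two, mul_self c hc, one_pow, one_mul]
        rw [hcpow] at ycyy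
        have hwpow : w ^ (2 * k + 1) = w := by rw [pow_succ, pow_mul, ← hwo, pow_orderOf_eq_one, one_pow, one_mul]
        rw [hwpow]
        calc w * g₀ ^ ((2 * k + 1) * (2 * k + 1))
            = c * c * (w * g₀ ^ ((2 * k + 1) * (2 * k + 1))) := by rw [mul_self c hc, one_mul]
          _ = c * w * (c * g₀ ^ ((2 * k + 1) * (2 * k + 1))) := by
              have hcw' : c * w = w * c := (hcg₀.symm.pow_right 2).eq
              rw [hwdef] at hcw' ⊢
              simp only [mul_assoc]
              congr 1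
              rw [← mul_assoc, hcw', mul_assoc]
          _ = g₀ := ycyy
    have hw4 : g₀ ^ 4 = 1 := by rw [← hg₀4, pow_orderOf_eq_one]
    refine hmain _ rfl ?_
    rcases repr g₀ hg₀ hg₀4 hg₀c _ (conjS8 g₀ hg₀) with h1 | h1 <;>
      rcases powers g₀ hg₀4 _ h1 with h2 | h2 | h2 | h2
    · rw [h2, orderOf_one] at hvo; norm_num at hvo
    · exact Or.inl h2
    · rw [h2, ← hwdef, hwo] at hvo; norm_num at hvo
    · refine Or.inr (h2.trans (eq_inv_of_mul_eq_one_left ?_))
      rw [← pow_succ, hw4]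
    all_goals exfalso
    all_goals have h3 : y * g₀ * y⁻¹ = c * (c * (y * g₀ * y⁻¹)) := by rw [← mul_assoc, mul_self c hc, one_mul]
    all_goals rw [h2] at h3
    · rw [mul_one] at h3; rw [h3, hc] at hvo; norm_num at hvo
    · have h4 := hbad 1 (by rw [pow_one]; exact h3)
      rw [pow_one, pow_one] at h4
      rw [mul_eq_right.1 h4, orderOf_one] at hwo
      norm_num at hwo
    · have := hbad 2 h3
      rw [show w ^ 2 = 1 by rw [← hwo, pow_orderOf_eq_one], one_mul, show 2 * 2 = orderOf g₀ from hg₀4.symm, pow_orderOf_eq_one] at this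
      rw [← this, orderOf_one] at hg₀4
      norm_num at hg₀4
    · have h4 := hbad 3 h3
      have hw3 : w ^ 3 = w := by
        rw [pow_succ, show w ^ 2 = 1 by rw [← hwo, pow_orderOf_eq_one], one_mul]
      rw [hw3, show 3 * 3 = 4 * 2 + 1 from rfl, pow_succ, pow_mul, hw4, one_pow, one_mul, mul_eq_right] at h4
      rw [h4, orderOf_one] at hwo
      norm_num at hwo
  obtain ⟨hg4', hgc⟩ := hg4 g hg (hgT ▸ hg₀T)
  have hyg : Commute y g := mul_inv_eq_iff_eq_mul.1 hgy
  -- adjust `y`
  obtain ⟨y', hy', hy'8, hy'g, hy'2⟩ : ∃ y' ∈ S16, y' ∉ S8 ∧ Commute y' g ∧ (y' ^ 2 = 1 ∨ y' ^ 2 = g) := by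
    have hy2 : y ^ 2 ∈ zpowers g := by
      rcases repr g hg hg4' hgc _ (sqS8 y hy) with h1 | h1
      · exact h1
      · exfalso
        refine hc₁c ?_
        have hcm : Commute y (c * y ^ 2) := by
          obtain ⟨j, hj⟩ := mem_zpowers_iff.1 h1
          rw [← hj]
          exact hyg.zpow_right j
        have h2 : Commute y c := by
          have := hcm.mul_right ((Commute.refl y).pow_right 2).inv_right
          simpa using this
        rw [hc₁, h2.eq, mul_inv_cancel_right]
    have hg4p : g ^ 4 = 1 := by rw [← hg4', pow_orderOf_eq_one]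
    have key : ∀ k : ℕ, y * g ^ k ∈ S16 ∧ y * g ^ k ∉ S8 ∧ Commute (y * g ^ k) g ∧
        (y * g ^ k) ^ 2 = y ^ 2 * g ^ (k * 2) := fun k => by
      refine ⟨S16.mul_mem hy (S16.pow_mem (hle hg) k), fun hm => hy8 ?_, hyg.mul_left (Commute.pow_self g k), ?_⟩
      · simpa using S8.mul_mem hm (S8.inv_mem (S8.pow_mem hg k))
      · rw [(hyg.pow_right k).mul_pow, ← pow_mul]
    rcases powers g hg4' _ hy2 with h1 | h1 | h1 | h1
    · exact ⟨y, hy, hy8, hyg, Or.inl h1⟩
    · exact ⟨y, hy, hy8, hyg, Or.inr h1⟩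
    · exact ⟨_, (key 1).1, (key 1).2.1, (key 1).2.2.1, Or.inl (by rw [(key 1).2.2.2, h1, one_mul, ← pow_add, hg4p])⟩
    · exact ⟨_, (key 1).1, (key 1).2.1, (key 1).2.2.1, Or.inr (by
        rw [(key 1).2.2.2, h1, one_mul, ← pow_add, show 3 + 2 = 4 + 1 from rfl, pow_succ, hg4p, one_mul])⟩
  have hy'c : y' * c * y'⁻¹ = c * w := by
    have hrel : y⁻¹ * y' ∈ S8 := by
      have := (mul_mem_iff_of_index_two hidx (a := (⟨y⁻¹, S16.inv_mem hy⟩ : S16)) (b := ⟨y', hy'⟩)).2
        (iff_of_false (fun hh => hy8 (by simpa using S8.inv_mem (mem_subgroupOf.1 hh))) fun hh => hy'8 (mem_subgroupOf.1 hh))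
      exact mem_subgroupOf.1 this
    have h2 := comS8 c hcS _ hrel
    calc y' * c * y'⁻¹ = y * ((y⁻¹ * y') * c) * y'⁻¹ := by group
      _ = y * (c * (y⁻¹ * y')) * y'⁻¹ := by rw [h2]
      _ = y * c * y⁻¹ := by group
      _ = c * w := by rw [← hc₁, hc₁eq]
  have hwc : Commute c w := hcg₀.symm.pow_right 2
  -- a maximal subgroup of `S16` whose only involution is `w`
  obtain ⟨M, hM16, hM8, hMinv⟩ : ∃ M : Subgroup G, M ≤ S16 ∧ Nat.card M = 8 ∧ ∀ x ∈ M, orderOf x = 2 → x = w := by
    rcases hy'2 with h2 | h2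
    · -- quaternion case
      set a := g * c with hadef
      set b := g * y' with hbdef
      have hgc' : Commute g c := comS8 c hcS g hg
      have ha2 : a ^ 2 = w := by rw [hadef, hgc'.mul_pow, pow_two c, mul_self c hc, mul_one, hgT]
      have hb2 : b ^ 2 = w := by rw [hbdef, hy'g.symm.mul_pow, h2, mul_one, hgT]
      have hainv : a⁻¹ = g * c * w := by
        refine inv_eq_of_mul_eq_one_right ?_
        rw [← hadef, ← mul_assoc, ← pow_two, ha2, ← pow_two, ← hwo, pow_orderOf_eq_one]
      have hbab : b * a * b⁻¹ = a⁻¹ := by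
        rw [hainv, hadef, hbdef]
        calc g * y' * (g * c) * (g * y')⁻¹ = g * ((y' * g) * c * y'⁻¹) * g⁻¹ := by group
          _ = g * (g * (y' * c * y'⁻¹)) * g⁻¹ := by rw [hy'g.eq]; group
          _ = g * (g * (c * w)) * g⁻¹ := by rw [hy'c]
          _ = g * (c * w * g) * g⁻¹ := by rw [(hgc'.mul_right (hgT ▸ Commute.self_pow g 2)).eq]
          _ = g * c * w := by group
      have hao : orderOf a = 4 := by
        refine orderOf_eq_prime_pow (p := 2) (n := 1) ?_ ?_
        · rw [show (2 : ℕ) ^ 1 = 2 from rfl, ha2]; intro h4; rw [h4, orderOf_one] at hwo; norm_num at hwo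
        · rw [show (2 : ℕ) ^ (1 + 1) = 2 * 2 from rfl, pow_mul, ha2, ← hwo, pow_orderOf_eq_one]
      have haS : a ∈ S8 := S8.mul_mem hg hcT.1
      have hbS : b ∈ S16 := S16.mul_mem (hle hg) hy'
      have hb8 : b ∉ S8 := fun hh => hy'8 (by simpa [hbdef] using S8.mul_mem (S8.inv_mem hg) hh)
      have hbn : zpowers b ≤ normalizer ((zpowers a : Subgroup G) : Set G) := by
        rw [zpowers_le, mem_normalizer_iff_map_conj_eq, MonoidHom.map_zpowers]
        show zpowers (b * a * b⁻¹) = zpowers a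
        rw [hbab, zpowers_inv]
      set M := zpowers b ⊔ zpowers a with hMdef
      have hMle : M ≤ S16 := sup_le (zpowers_le.2 hbS) (zpowers_le.2 (hle haS))
      have hMinv : ∀ x ∈ M, orderOf x = 2 → x = w := by
        intro x hx hxo
        rw [hMdef, ← SetLike.mem_coe, coe_mul_of_left_le_normalizer_right _ _ hbn] at hx
        obtain ⟨u, hu, v, hv, rfl⟩ := Set.mem_mul.1 hx
        obtain ⟨i, rfl⟩ := mem_zpowers_iff.1 hu
        have hwa : w ∈ zpowers a := ha2 ▸ pow_mem (mem_zpowers a) 2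
        rcases Int.even_or_odd i with ⟨k, rfl⟩ | ⟨k, rfl⟩
        · have hmem : b ^ (k + k) * v ∈ zpowers a := by
            refine mul_mem ?_ hv
            rw [← two_mul, zpow_mul, show b ^ (2 : ℤ) = w by exact_mod_cast hb2]
            exact zpow_mem hwa k
          rcases powers a hao _ hmem with h5 | h5 | h5 | h5 <;> rw [h5] at hxo ⊢
          · rw [orderOf_one] at hxo; norm_num at hxo
          · rw [hao] at hxo; norm_num at hxo
          · rw [ha2]
          · rw [orderOf_pow' a (by norm_num), hao] at hxo; norm_num at hxo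
        · exfalso
          set v' := w ^ k * v with hv'
          have hv'a : v' ∈ zpowers a := mul_mem (zpow_mem hwa k) hv
          have hform : b ^ (2 * k + 1) * v = b * v' := by
            rw [add_comm, zpow_add, zpow_one, zpow_mul, show b ^ (2 : ℤ) = w by exact_mod_cast hb2, hv', mul_assoc]
          rw [hform] at hxo
          have hsq : (b * v') ^ 2 = 1 := by rw [← hxo, pow_orderOf_eq_one]
          obtain ⟨j, hj⟩ := mem_zpowers_iff.1 hv'a
          have hinv : b * v' * b⁻¹ = v'⁻¹ := by rw [← hj, ← conj_zpow, hbab, inv_zpow]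
          have h6 : (b * v') ^ 2 = w := by
            rw [← hb2, pow_two, pow_two]
            calc b * v' * (b * v') = (b * v' * b⁻¹) * (b * b) * v' := by group
              _ = v'⁻¹ * (b * b) * v' := by rw [hinv]
              _ = b * b := by
                have hc6 : Commute (b * b) v' := by
                  rw [← pow_two, hb2, ← ha2, ← hj]
                  exact ((Commute.refl a).pow_left 2).zpow_right j
                rw [mul_assoc, hc6.eq, inv_mul_cancel_left]
          rw [h6] at hsq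
          rw [hsq, orderOf_one] at hwo
          norm_num at hwo
      refine ⟨M, hMle, ?_, hMinv⟩
      have h4M := card_dvd_of_le (le_sup_right : zpowers a ≤ M)
      rw [Nat.card_zpowers, hao] at h4M
      have hd16 := card_dvd_of_le hMle
      rw [hS16'] at hd16
      have hne4 : Nat.card M ≠ 4 := fun h4 => hb8 (by
        have : zpowers a = M := eq_of_le_of_card_ge le_sup_right (by rw [Nat.card_zpowers, hao, h4])
        exact zpowers_le.2 haS (this ▸ mem_sup_left (mem_zpowers b)))
      have hne16 : Nat.card M ≠ 16 := fun h16 => hcw (hMinv c (by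
        rw [eq_of_le_of_card_ge hMle (by omega)]; exact hle hcT.1) hc)
      obtain ⟨v, hv⟩ := h4M
      have hle16 := Nat.le_of_dvd (by norm_num) hd16
      have hpos : 0 < Nat.card M := Nat.card_pos
      change Nat.card M = 4 * v at hv
      change Nat.card M ≤ 16 at hle16
      change Nat.card M ∣ 16 at hd16
      change Nat.card M ≠ 4 at hne4
      change Nat.card M ≠ 16 at hne16
      show Nat.card M = 8
      generalize Nat.card M = m at hv hle16 hd16 hne4 hne16 hpos ⊢
      subst hv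
      have : v ≤ 4 := by omega
      interval_cases v <;> omega
    · -- modular case
      have hyo : orderOf y' = 8 := by
        refine orderOf_eq_prime_pow (p := 2) (n := 2) ?_ ?_
        · rw [show (2 : ℕ) ^ 2 = 2 * 2 from rfl, pow_mul, h2, hgT]
          intro h4; rw [h4, orderOf_one] at hwo; norm_num at hwo
        · rw [show (2 : ℕ) ^ (2 + 1) = 2 * 4 from rfl, pow_mul, h2, ← hg4', pow_orderOf_eq_one]
      refine ⟨zpowers y', zpowers_le.2 hy', by rw [Nat.card_zpowers, hyo], fun x hx hxo => ?_⟩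
      rw [IsOfFinOrder.mem_zpowers_iff_mem_range_orderOf (isOfFinOrder_of_finite y'), hyo] at hx
      obtain ⟨j, hj, rfl⟩ := Finset.mem_image.1 hx
      rw [Finset.mem_range] at hj
      rcases Nat.eq_zero_or_pos j with rfl | hj0
      · rw [pow_zero, orderOf_one] at hxo; norm_num at hxo
      have hj4 : j = 4 := by
        rw [orderOf_pow' y' hj0.ne', hyo] at hxo
        interval_cases j <;> first | rfl | norm_num at hxo
      rw [hj4, show 4 = 2 * 2 from rfl, pow_mul, h2, hgT]
  -- transfer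
  let S : Sylow 2 G := Sylow.ofCard S16 (by
    rw [hS16', h, show (5040 : ℕ) = 2 ^ 4 * 315 from rfl, Nat.factorization_mul (by norm_num) (by norm_num),
      Finsupp.add_apply, Nat.prime_two.factorization_pow, Finsupp.single_eq_same,
      Nat.factorization_eq_zero_of_not_dvd (by norm_num), add_zero]
    norm_num)
  have hS : (S : Subgroup G) = S16 := Sylow.coe_ofCard _ _
  rcases Cfsg.Agent.S0111.result S M (by rw [hS]; exact hM16) (by
      rw [hS]
      have := relIndex_mul_relIndex (⊥ : Subgroup G) M S16 bot_le hM16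
      rw [relIndex_bot_left, relIndex_bot_left, hM8, hS16'] at this
      omega) c hc (by rw [hS]; exact hle hcT.1) (fun hm => hcw (hMinv c hm hc)) with ⟨L, hL, hLi, -⟩ | ⟨k, hk⟩
  · rcases hL.eq_bot_or_eq_top with h1 | h1 <;> rw [h1] at hLi
    · rw [index_bot, h] at hLi; omega
    · rw [index_top] at hLi; omega
  · have hkw := hMinv _ hk (by rw [ord_conj, hc])
    have hwS16 : S16 ≤ centralizer ({w} : Set G) := by
      intro s hs
      refine mem_centralizer_singleton_iff.2 ?_
      have h8' : ∀ t ∈ S8, t * w = w * t := fun t ht => ((comm8 t ht).pow_right 2).eq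
      by_cases hs8 : s ∈ S8
      · exact h8' s hs8
      · have hys : y⁻¹ * s ∈ S8 := by
          have := (mul_mem_iff_of_index_two hidx (a := (⟨y⁻¹, S16.inv_mem hy⟩ : S16)) (b := ⟨s, hs⟩)).2
            (iff_of_false (fun hh => hy8 (by simpa using S8.inv_mem (mem_subgroupOf.1 hh))) fun hh => hs8 (mem_subgroupOf.1 hh))
          exact mem_subgroupOf.1 this
        have hyw : Commute y w := mul_inv_eq_iff_eq_mul.1 hy2w
        have := (hyw.mul_left (show Commute (y⁻¹ * s) w from h8' _ hys)).eq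
        rwa [mul_inv_cancel_left] at this
    have hle2 : S16.map (MulAut.conj k⁻¹).toMonoidHom ≤ centralizer ({c} : Set G) := by
      rintro _ ⟨s, hs, rfl⟩
      refine mem_centralizer_singleton_iff.2 ?_
      show k⁻¹ * s * k⁻¹⁻¹ * c = c * (k⁻¹ * s * k⁻¹⁻¹)
      have hsw := mem_centralizer_singleton_iff.1 (hwS16 hs)
      rw [← hkw] at hsw
      calc k⁻¹ * s * k⁻¹⁻¹ * c = k⁻¹ * (s * (k * c * k⁻¹)) * k := by group
        _ = k⁻¹ * ((k * c * k⁻¹) * s) * k := by rw [hsw]
        _ = c * (k⁻¹ * s * k⁻¹⁻¹) := by group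
    have := card_dvd_of_le hle2
    rw [card_map_of_injective (MulEquiv.injective _), hS16', hCc, hN] at this
    norm_num at this

/-- There is no simple group of order 5040. -/
theorem card_ne_5040 : Nat.card G ≠ 5040 := by
  intro h
  classical
  haveI : Fact (Nat.Prime 7) := ⟨by norm_num⟩
  haveI : Fact (Nat.Prime 5) := ⟨Nat.prime_five⟩
  have hG := not_comm h
  obtain ⟨S⟩ : Nonempty (Sylow 5 G) := inferInstance
  have hQ : Nat.card (S : Subgroup G) = 5 := by
    simpa using card_sylow_subgroup S (k := 1) (m := 1008) (by rw [h]; norm_num) (by norm_num)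
  obtain ⟨-, h2, -⟩ := card_sylow_facts (p := 5) hG (by rw [h]; norm_num)
  rw [card_sylow_eq_index S] at h2
  set Q : Subgroup G := (S : Subgroup G) with hQdef
  set N := normalizer (Q : Set G) with hNdef
  set C := centralizer (Q : Set G) with hCdef
  have hne : N ≠ ⊤ := sylow_normalizer_ne_top hG S (by rw [h]; norm_num)
  have h8 := eight_le_index h hne
  have hmul := N.card_mul_index
  rw [h] at hmul
  obtain ⟨u, hu⟩ : 5 ∣ Nat.card N := hQ ▸ card_dvd_of_le le_normalizer
  have hd : N.index ∣ 1008 := by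
    rw [hu, mul_assoc] at hmul
    exact ⟨u, by rw [mul_comm]; omega⟩
  have hcases : N.index ∈ ({1, 6, 16, 21, 36, 56, 126, 336} : Finset ℕ) := by
    rw [show ({1, 6, 16, 21, 36, 56, 126, 336} : Finset ℕ) = (Nat.divisors 1008).filter (· % 5 = 1) by decide +kernel]
    exact Finset.mem_filter.2 ⟨Nat.mem_divisors.2 ⟨hd, by norm_num⟩, h2⟩
  simp only [Finset.mem_insert, Finset.mem_singleton] at hcases
  haveI : IsCyclic Q := isCyclic_of_prime_card hQ
  obtain ⟨i, hi4, hNC⟩ := exists_normalizer_index Q hQ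
  rw [← hNdef, ← hCdef] at hNC
  have hCN : C ≤ N := centralizer_le_normalizer _
  have hi1 : i ≠ 1 := by
    rintro rfl
    refine not_normalizer_le_centralizer hG S (by rw [h]; norm_num) fun g hg => ?_
    rw [mul_one] at hNC
    exact (eq_of_le_of_card_ge hCN hNC.le).ge hg
  have hi' : i = 2 ∨ i = 4 := by
    have := Nat.le_of_dvd (by norm_num) hi4
    interval_cases i <;> omega
  rcases hcases with hn | hn | hn | hn | hn | hn | hn | hn <;> rw [hn] at hmul
  · omega
  · omega
  · rcases hi' with rfl | rfl <;> omega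
  · exact five_ne_21 h Q hQ (show Nat.card N = 240 by omega)
      (show 3 ∣ Nat.card C by rcases hi' with rfl | rfl <;> omega)
  · obtain ⟨a', ha'⟩ := exists_prime_orderOf_dvd_card' (G := N) 7 (by omega)
    have ha : orderOf (a' : G) = 7 := by rw [Subgroup.orderOf_coe, ha']
    have haC := mem_centralizer_of_coprime Q hQ a'.2 (by rw [ha]; norm_num)
    obtain ⟨q, hq⟩ := exists_prime_orderOf_dvd_card' (G := Q) 5 (by rw [hQ])
    exact not_commute_seven h ha (x := (q : G)) (Or.inr (Or.inr (by rw [Subgroup.orderOf_coe, hq])))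
      (mem_centralizer_iff.1 haC q q.2).symm
  · exact five_ne_56 h Q hQ (show Nat.card N = 90 by omega)
      (show Nat.card C = 45 by rcases hi' with rfl | rfl <;> omega)
  · exact five_ne_126 h Q hQ (show Nat.card N = 40 by omega) (by
      rcases hi' with rfl | rfl
      · exact Or.inr (show Nat.card C = 20 by omega)
      · exact Or.inl (show Nat.card C = 10 by omega))
  · rcases hi' with rfl | rfl <;> omega

end Cfsg.Agent.Lib.SmallSimple.Order5040
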