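import Cfsg.Agent.Lib.SmallSimple.PointFix

/-!
Fixed cosets of elements normalising a subgroup of prime order.
-/

set_option autoImplicit false

namespace Cfsg.Agent.Lib.SmallSimple.FixCount

open Subgroup

variable {G : Type*} [Group G]

/-- The fixed cosets of `s` and the conjugates of `s` in `H`. -/
theorem card_fixed_mul [Finite G] (H : Subgroup G) (s : G) :
    Nat.card {ω : G ⧸ H // s • ω = ω} * Nat.card H =
      Nat.card (centralizer ({s} : Set G)) * Nat.card {x : G // x ∈ H ∧ IsConj s x} := by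
  classical
  let A := {g : G // g⁻¹ * s * g ∈ H}
  have hiff : ∀ g : G, g⁻¹ * s * g ∈ H ↔ s • (g : G ⧸ H) = g := by
    intro g
    show _ ↔ ((s * g : G) : G ⧸ H) = g
    rw [eq_comm, QuotientGroup.eq, mul_assoc]
  have h1 : Nat.card A = Nat.card {ω : G ⧸ H // s • ω = ω} * Nat.card H := by
    rw [← Nat.card_prod]
    refine (Nat.card_congr (Equiv.subtypeEquivRight hiff)).trans (Nat.card_congr ?_)
    exact QuotientGroup.preimageMkEquivSubgroupProdSet H {ω : G ⧸ H | s • ω = ω} |>.trans
      (Equiv.prodComm _ _)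
  let f : A → {x : G // x ∈ H ∧ IsConj s x} := fun g =>
    ⟨g.1⁻¹ * s * g.1, g.2, isConj_iff.2 ⟨g.1⁻¹, by group⟩⟩
  have hfib : ∀ b, Nonempty ({g : A // f g = b} ≃ centralizer ({s} : Set G)) := by
    rintro ⟨x, hx, hc⟩
    obtain ⟨c, hc⟩ := isConj_iff.1 hc
    refine ⟨
      { toFun := fun g => ⟨g.1.1 * c, ?_⟩
        invFun := fun z => ⟨⟨z.1 * c⁻¹, ?_⟩, ?_⟩
        left_inv := fun g => by simp
        right_inv := fun z => by simp }⟩
    · have h := congrArg Subtype.val g.2
      change g.1.1⁻¹ * s * g.1.1 = x at h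
      rw [mem_centralizer_singleton_iff]
      calc g.1.1 * c * s = g.1.1 * (c * s * c⁻¹) * c := by group
        _ = g.1.1 * (g.1.1⁻¹ * s * g.1.1) * c := by rw [hc, h]
        _ = s * (g.1.1 * c) := by group
    · have h := mem_centralizer_singleton_iff.1 z.2
      rwa [show (z.1 * c⁻¹)⁻¹ * s * (z.1 * c⁻¹) = c * (z.1⁻¹ * (s * z.1)) * c⁻¹ by group, ← h,
        inv_mul_cancel_left, hc]
    · have h := mem_centralizer_singleton_iff.1 z.2
      refine Subtype.ext ?_
      show (z.1 * c⁻¹)⁻¹ * s * (z.1 * c⁻¹) = x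
      rw [show (z.1 * c⁻¹)⁻¹ * s * (z.1 * c⁻¹) = c * (z.1⁻¹ * (s * z.1)) * c⁻¹ by group, ← h,
        inv_mul_cancel_left, hc]
  rw [← h1, mul_comm, ← Nat.card_prod]
  exact Nat.card_congr ((Equiv.sigmaFiberEquiv f).symm.trans
    ((Equiv.sigmaCongrRight fun b => (hfib b).some).trans (Equiv.sigmaEquivProd _ _)))

/-- Conjugate elements fix equally many cosets. -/
theorem card_fixed_eq [Finite G] {H : Subgroup G} {s x : G} (h : IsConj s x) :
    Nat.card {ω : G ⧸ H // x • ω = ω} = Nat.card {ω : G ⧸ H // s • ω = ω} := by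
  obtain ⟨c, rfl⟩ := isConj_iff.1 h
  refine Nat.card_congr (Equiv.subtypeEquiv (MulAction.toPerm c⁻¹) fun ω => ?_)
  show (c * s * c⁻¹) • ω = ω ↔ s • c⁻¹ • ω = c⁻¹ • ω
  rw [mul_smul, mul_smul, smul_eq_iff_eq_inv_smul]

variable {p : ℕ} [hp : Fact p.Prime]

/-- An involution normalising but not centralising `P` inverts it. -/
theorem inverts_of_not_mem [Finite G] {P : Subgroup G} (hP : Nat.card P = p) {g : G}
    (hg : g ∈ normalizer (P : Set G)) (hg2 : g * g = 1) (hgC : g ∉ centralizer (P : Set G))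
    {z : G} (hz : z ∈ P) : g * z * g⁻¹ = z⁻¹ := by
  haveI : IsCyclic P := isCyclic_of_prime_card hP
  letI : CommGroup P := IsCyclic.commGroup
  have hy : g * z * g⁻¹ ∈ P := (mem_normalizer_iff.1 hg z).1 hz
  by_contra hne
  set w := z * (g * z * g⁻¹) with hwdef
  have hw : w ∈ P := mul_mem hz hy
  have hw1 : w ≠ 1 := fun e => hne (eq_inv_of_mul_eq_one_right e)
  have hgi : g⁻¹ = g := inv_eq_of_mul_eq_one_right hg2
  have hcm : g * z * g⁻¹ * z = z * (g * z * g⁻¹) :=
    congrArg Subtype.val (mul_comm (⟨_, hy⟩ : P) ⟨z, hz⟩)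
  have hfix : w * g = g * w := by
    calc w * g = g * z * g⁻¹ * z * g := by rw [hwdef, hcm]
      _ = g * (z * (g * z * g⁻¹)) := by rw [hgi]; simp only [mul_assoc]
  refine hgC ?_
  have hgen : zpowers w = P := eq_of_le_of_card_ge (zpowers_le.2 hw) (by
    rw [hP, Nat.card_zpowers]
    refine Nat.le_of_dvd (orderOf_pos w) ?_
    have hd : orderOf w ∣ p := hP ▸ P.orderOf_dvd_natCard hw
    rcases (Nat.dvd_prime hp.out).1 hd with h | h
    · exact absurd (orderOf_eq_one_iff.1 h) hw1
    · rw [h])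
  have hle : P ≤ centralizer ({g} : Set G) := hgen ▸ zpowers_le.2 (mem_centralizer_singleton_iff.2 hfix)
  rw [mem_centralizer_iff]
  exact fun y hy' => mem_centralizer_singleton_iff.1 (hle hy')

/-- An involution of `N(P)` inverting `P` fixes at most one coset in each orbit of `P`. -/
theorem fixed_bound [Finite G] {P H : Subgroup G} (hsq : ¬ p ^ 2 ∣ Nat.card G) (hp2 : p ≠ 2)
    (hP : Nat.card P = p) (hNH : normalizer (P : Set G) ≤ H) {g : G}
    (hinv : ∀ z ∈ P, g * z * g⁻¹ = z⁻¹) :
    p * (Nat.card {ω : G ⧸ H // g • ω = ω} - 1) ≤ H.index - 1 := by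
  classical
  let b : G ⧸ H := ((1 : G) : G ⧸ H)
  have hPH : P ≤ H := le_normalizer.trans hNH
  have huniq : ∀ y ∈ P, y ≠ 1 → ∀ ω : G ⧸ H, y • ω = ω → ω = b := by
    intro y hy hy1 ω hω
    induction ω using QuotientGroup.induction_on with
    | _ k =>
      have h1 : k⁻¹ * y * k ∈ H := by
        have := QuotientGroup.eq.1 (hω.symm : (k : G ⧸ H) = ((y * k : G) : G ⧸ H))
        simpa [mul_assoc] using this
      have hgen : zpowers y = P := eq_of_le_of_card_ge (zpowers_le.2 hy) (by
        rw [hP, Nat.card_zpowers]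
        rcases (Nat.dvd_prime hp.out).1 (hP ▸ P.orderOf_dvd_natCard hy) with h | h
        · exact absurd (orderOf_eq_one_iff.1 h) hy1
        · rw [h])
      obtain ⟨n, hn, hkn⟩ := exists_normalizer_mul hsq hP hPH (g := k) fun z hz => by
        rw [← hgen] at hz
        obtain ⟨j, rfl⟩ := mem_zpowers_iff.1 hz
        have := zpow_mem h1 j
        rwa [show k⁻¹ * y * k = k⁻¹ * y * (k⁻¹)⁻¹ by rw [inv_inv], conj_zpow, inv_inv] at this
      rw [QuotientGroup.eq.2 hkn]
      exact QuotientGroup.eq.2 (by simpa using inv_mem (hNH hn))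
  have hcop : (Nat.card P).Coprime 2 := by
    rw [hP]; exact (Nat.coprime_primes hp.out Nat.prime_two).2 hp2
  let F := {ω : {ω : G ⧸ H // g • ω = ω} // ω.1 ≠ b}
  let R := {ω : G ⧸ H // ω ≠ b}
  have hmove : ∀ (y : P) (ω : G ⧸ H), ω ≠ b → (y : G) • ω ≠ b := by
    intro y ω hω h
    refine hω ?_
    have h2 : (y : G) • b = b := by
      show (((y : G) * 1 : G) : G ⧸ H) = b
      exact QuotientGroup.eq.2 (by simpa using inv_mem (hPH y.2))
    exact smul_left_cancel _ (h.trans h2.symm)
  let φ : P × F → R := fun q => ⟨(q.1 : G) • q.2.1.1, hmove _ _ q.2.2⟩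
  have hinj : Function.Injective φ := by
    rintro ⟨x, ω⟩ ⟨x', ω'⟩ h
    have h' : (x : G) • ω.1.1 = (x' : G) • ω'.1.1 := congrArg Subtype.val h
    set y : P := x'⁻¹ * x with hydef
    have hyω : (y : G) • ω.1.1 = ω'.1.1 := by
      rw [hydef, Subgroup.coe_mul, Subgroup.coe_inv, mul_smul, h', inv_smul_smul]
    have h2 : ((y : G)⁻¹) • ω.1.1 = ω'.1.1 := by
      have h3 : g • (y : G) • ω.1.1 = ω'.1.1 := by rw [hyω]; exact ω'.1.2
      rw [← hinv _ y.2, mul_smul, mul_smul]
      rw [inv_smul_eq_iff.2 ω.1.2.symm]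
      exact h3
    have h4 : ((y : G) * y) • ω.1.1 = ω.1.1 := by
      rw [mul_smul, hyω, ← h2, smul_inv_smul]
    have hyy : y * y = 1 := by
      by_contra hne
      exact ω.2 (huniq _ (mul_mem y.2 y.2) (fun e => hne (Subtype.ext e)) _ h4)
    have hy1 : y = 1 := (powCoprime hcop).injective (by simpa [powCoprime_apply, pow_two] using hyy)
    have hxx : x = x' := (inv_mul_eq_one.1 hy1).symm
    subst hxx
    exact Prod.ext rfl (Subtype.ext (Subtype.ext (smul_left_cancel _ h')))
  have hc := Nat.card_le_card_of_injective φ hinj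
  rw [Nat.card_prod, hP] at hc
  have hF : Nat.card {ω : G ⧸ H // g • ω = ω} - 1 ≤ Nat.card F := by
    have : Nat.card {ω : G ⧸ H // g • ω = ω} ≤ Nat.card F + 1 := by
      rw [← Finite.card_option]
      refine Nat.card_le_card_of_injective
        (fun ω => if h : ω.1 ≠ b then some (⟨ω, h⟩ : F) else none) fun a a' e => ?_
      dsimp only at e
      split_ifs at e with h1 h2
      · exact congrArg Subtype.val (Option.some.inj e)
      · exact Subtype.ext ((not_ne_iff.1 h1).trans (not_ne_iff.1 (by assumption)).symm)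
    omega
  have hR : Nat.card R = H.index - 1 := by
    letI := Fintype.ofFinite (G ⧸ H)
    rw [index_eq_card, Nat.card_eq_fintype_card, Nat.card_eq_fintype_card, Fintype.card_subtype_compl,
      Fintype.card_subtype_eq]
  calc p * (Nat.card {ω : G ⧸ H // g • ω = ω} - 1) ≤ p * Nat.card F := Nat.mul_le_mul_left p hF
    _ ≤ Nat.card R := hc
    _ = H.index - 1 := hR

/-- The number of conjugates of `P` in a subgroup containing it is `1` modulo `p`. -/
theorem index_normalizer_mod [Finite G] {P H : Subgroup G} (hsq : ¬ p ^ 2 ∣ Nat.card G)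
    (hP : Nat.card P = p) (hPH : P ≤ H) :
    ∃ q, q % p = 1 ∧ Nat.card H = Nat.card ↥(H ⊓ normalizer (P : Set G)) * q := by
  have hcard : Nat.card (P.subgroupOf H) = p ^ (Nat.card H).factorization p := by
    rw [Nat.card_congr (subgroupOfEquivOfLe hPH).toEquiv, hP]
    have h0 : p ∣ Nat.card H := hP ▸ card_dvd_of_le hPH
    have h1 := hp.out.factorization_pos_of_dvd (Nat.card_pos (α := H)).ne' h0
    have h2 : (Nat.card H).factorization p ≤ 1 := by
      by_contra hlt
      exact hsq (((hp.out.pow_dvd_iff_le_factorization Nat.card_pos.ne').2 (by omega : 2 ≤ _)).trans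
        H.card_subgroup_dvd_card)
    rw [le_antisymm h2 h1, pow_one]
  let A := Sylow.ofCard (P.subgroupOf H) hcard
  have hn := A.card_eq_index_normalizer
  have hmod := card_sylow_modEq_one p H
  rw [hn] at hmod
  have heq : normalizer ((A : Subgroup H) : Set H) = (H ⊓ normalizer (P : Set G)).subgroupOf H := by
    ext x
    show x ∈ normalizer ((P.subgroupOf H : Subgroup H) : Set H) ↔ _
    rw [mem_subgroupOf, mem_inf, and_iff_right x.2, mem_normalizer_iff, mem_normalizer_iff]
    constructor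
    · intro h z
      by_cases hz : z ∈ H
      · simpa [mem_subgroupOf] using h ⟨z, hz⟩
      · refine iff_of_false (fun h' => hz (hPH h')) fun h' => hz ?_
        have := mul_mem (mul_mem (inv_mem x.2) (hPH h')) x.2
        simpa [mul_assoc] using this
    · intro h z
      simpa [mem_subgroupOf] using h z
  refine ⟨(normalizer ((A : Subgroup H) : Set H)).index, by
    unfold Nat.ModEq at hmod
    rwa [Nat.mod_eq_of_lt hp.out.one_lt] at hmod, ?_⟩
  rw [← (normalizer ((A : Subgroup H) : Set H)).card_mul_index, heq,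
    Nat.card_congr (subgroupOfEquivOfLe inf_le_left).toEquiv]

/-- A two-group normalising a subgroup of even order centralises an involution of it. -/
theorem exists_central_involution [Finite G] {T C : Subgroup G} (hT : IsPGroup 2 T)
    (hTC : T ≤ normalizer (C : Set G)) (h2 : 2 ∣ Nat.card C) :
    ∃ s ∈ C, orderOf s = 2 ∧ T ≤ centralizer ({s} : Set G) := by
  classical
  haveI : Fact (Nat.Prime 2) := ⟨Nat.prime_two⟩
  letI := Fintype.ofFinite C
  let X := {x : C // x * x = 1}
  have heven : 2 ∣ Nat.card X := by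
    have h := Equiv.Perm.card_compl_support_modEq (p := 2) (n := 1) (σ := Equiv.inv C)
      (by ext x; simp [pow_two])
    have hX : Nat.card X = (Equiv.Perm.support (Equiv.inv C))ᶜ.card := by
      rw [Nat.card_eq_fintype_card, Fintype.card_subtype]
      congr 1
      ext x
      simp [inv_eq_iff_mul_eq_one]
    rw [hX]
    exact (Nat.ModEq.dvd_iff h dvd_rfl).2 (Nat.card_eq_fintype_card (α := C) ▸ h2)
  letI : MulAction T X :=
    { smul := fun t x => ⟨⟨(t : G) * (x.1 : G) * (t : G)⁻¹, (mem_normalizer_iff.1 (hTC t.2) _).1 x.1.2⟩,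
        Subtype.ext (by
          show (t : G) * (x.1 : G) * (t : G)⁻¹ * ((t : G) * (x.1 : G) * (t : G)⁻¹) = 1
          have h : (x.1 : G) * x.1 = 1 := congrArg Subtype.val x.2
          rw [conj_mul, h, mul_one, mul_inv_cancel])⟩
      one_smul := fun x => Subtype.ext (Subtype.ext (show ((1 : T) : G) * (x.1 : G) * ((1 : T) : G)⁻¹ = _ by simp))
      mul_smul := fun t t' x => Subtype.ext (Subtype.ext (show ((t * t' : T) : G) * (x.1 : G) * ((t * t' : T) : G)⁻¹ =
        (t : G) * ((t' : G) * (x.1 : G) * (t' : G)⁻¹) * (t : G)⁻¹ by simp [mul_assoc])) }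
  let one : X := ⟨1, one_mul 1⟩
  have hone : one ∈ MulAction.fixedPoints T X := fun t =>
    Subtype.ext (Subtype.ext (show (t : G) * ((1 : C) : G) * (t : G)⁻¹ = _ by simp [one]))
  obtain ⟨s, hs, hne⟩ := hT.exists_fixed_point_of_prime_dvd_card_of_fixed_point X heven hone
  refine ⟨(s.1 : G), s.1.2, orderOf_eq_prime (by rw [pow_two]; exact congrArg Subtype.val s.2) ?_, ?_⟩
  · intro h
    exact hne (Subtype.ext (Subtype.ext h.symm))
  · intro t ht
    have h : t * (s.1 : G) * t⁻¹ = s.1 := congrArg (fun x : X => (x.1 : G)) (hs ⟨t, ht⟩)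
    rw [mem_centralizer_singleton_iff]
    calc t * (s.1 : G) = t * (s.1 : G) * t⁻¹ * t := by group
      _ = (s.1 : G) * t := by rw [h]

end Cfsg.Agent.Lib.SmallSimple.FixCount
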