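import Cfsg.Agent.Lib.SmallSimple.PointFix
import Cfsg.Agent.Lib.SmallSimple.Order459648
import Cfsg.Agent.Lib.Involution.QEightMain

/-!
Fixed points of elements in coset actions: parity, bounds from a semiregular subgroup of prime order,
the class equation, and the absence of isolated involutions (helper17).
-/

set_option autoImplicit false
set_option linter.unusedSectionVars false

namespace Cfsg.Agent.Lib.SmallSimple

open Subgroup
open scoped Pointwise

universe u

variable {G : Type u} [Group G]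

/-- In a perfect group an involution moves a multiple of four points. -/
theorem four_dvd_card_moved (hG : commutator G = ⊤) {Ω : Type*} [MulAction G Ω] [Finite Ω] {x : G}
    (hx : x ^ 2 = 1) : 4 ∣ Nat.card {ω : Ω // x • ω ≠ ω} := by
  classical
  haveI := Fintype.ofFinite Ω
  haveI : Fact (Nat.Prime 2) := ⟨Nat.prime_two⟩
  set f : Equiv.Perm Ω := MulAction.toPermHom G Ω x with hf
  have h2 : f ^ 2 = 1 := by rw [hf, ← map_pow, hx, map_one]
  have hct := (Equiv.Perm.pow_prime_eq_one_iff (p := 2)).1 h2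
  have hsum : f.cycleType.sum = 2 * Multiset.card f.cycleType := by
    conv_lhs => rw [Multiset.eq_replicate.2 ⟨rfl, hct⟩]
    rw [Multiset.sum_replicate, smul_eq_mul, mul_comm]
  have hsign : Equiv.Perm.sign f = 1 :=
    Equiv.Perm.mem_alternatingGroup.1 (mem_alternating_of_perfect hG (MulAction.toPermHom G Ω) x)
  rw [Equiv.Perm.sign_of_cycleType, hsum] at hsign
  obtain ⟨k, hk⟩ : Even (Multiset.card f.cycleType) := by
    by_contra hodd
    rw [Nat.not_even_iff_odd] at hodd
    have h3 : Odd (2 * Multiset.card f.cycleType + Multiset.card f.cycleType) := by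
      obtain ⟨k, hk⟩ := hodd
      exact ⟨3 * k + 1, by omega⟩
    rw [h3.neg_one_pow] at hsign
    exact absurd hsign (by decide)
  have hcard : Nat.card {ω : Ω // x • ω ≠ ω} = f.support.card := by
    rw [Nat.card_eq_fintype_card, Fintype.card_subtype]
    refine congrArg Finset.card (Finset.ext fun ω => ?_)
    simp [hf, Equiv.Perm.mem_support]
  rw [hcard, ← Equiv.Perm.sum_cycleType, hsum, hk]
  exact ⟨k, by ring⟩

variable [Finite G]

/-- An element normalising but not centralising a subgroup of prime order `p` fixes at most one coset in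
each regular orbit of that subgroup. -/
theorem fixed_mul_le_of_free {p : ℕ} [hp : Fact p.Prime] {H P : Subgroup G} (hP : Nat.card P = p)
    (S : G ⧸ H → Prop) (hfree : ∀ a : P, ∀ ω : G ⧸ H, S ω → (a : G) • ω = ω → a = 1) {x : G}
    (hx : x ∈ normalizer (P : Set G)) (hxC : x ∉ centralizer (P : Set G)) :
    Nat.card {ω : G ⧸ H // x • ω = ω ∧ S ω} * p ≤ H.index := by
  classical
  have hinj : Function.Injective fun s : P × {ω : G ⧸ H // x • ω = ω ∧ S ω} => (s.1 : G) • s.2.1 := by
    rintro ⟨a, ω⟩ ⟨b, ω'⟩ h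
    simp only at h
    have hω' : ω'.1 = ((b⁻¹ * a : P) : G) • ω.1 := by
      rw [Subgroup.coe_mul, mul_smul, h, Subgroup.coe_inv, inv_smul_smul]
    have hc : b⁻¹ * a = 1 := by
      by_contra hne
      have hconjP : x * ((b⁻¹ * a : P) : G) * x⁻¹ ∈ P := (mem_normalizer_iff.1 hx _).1 (b⁻¹ * a).2
      have h1 : (x * ((b⁻¹ * a : P) : G) * x⁻¹) • ω.1 = ((b⁻¹ * a : P) : G) • ω.1 := by
        rw [mul_smul, mul_smul, inv_smul_eq_iff.2 ω.2.1.symm, ← hω', ω'.2.1]
      have h2 := hfree ((b⁻¹ * a)⁻¹ * ⟨_, hconjP⟩) ω.1 ω.2.2 (by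
        rw [Subgroup.coe_mul, mul_smul, Subgroup.coe_inv, h1, inv_smul_smul])
      rw [inv_mul_eq_one] at h2
      have hgen : zpowers (b⁻¹ * a) = ⊤ := zpowers_eq_top_of_prime_card hP hne
      refine hxC (mem_centralizer_iff.2 fun z hz => ?_)
      have hcm : Commute x ((b⁻¹ * a : P) : G) :=
        mul_inv_eq_iff_eq_mul.1 (congrArg Subtype.val h2).symm
      obtain ⟨k, hk⟩ := mem_zpowers_iff.1 (hgen ▸ mem_top (⟨z, hz⟩ : P))
      have : z = ((b⁻¹ * a : P) : G) ^ k := by
        simpa using (congrArg Subtype.val hk).symm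
      rw [this]
      exact (hcm.zpow_right k).eq.symm
    have hab : a = b := (inv_mul_eq_one.1 hc).symm
    subst hab
    exact Prod.ext rfl (Subtype.ext (smul_left_cancel _ h))
  have := Nat.card_le_card_of_injective _ hinj
  rwa [Nat.card_prod, hP, mul_comm, ← index_eq_card] at this

/-- The case `p ∤ |H|`. -/
theorem fixed_mul_le_index {p : ℕ} [hp : Fact p.Prime] {H P : Subgroup G} (hP : Nat.card P = p)
    (hH : ¬ p ∣ Nat.card H) {x : G} (hx : x ∈ normalizer (P : Set G)) (hxC : x ∉ centralizer (P : Set G)) :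
    Nat.card {ω : G ⧸ H // x • ω = ω} * p ≤ H.index := by
  refine le_trans (le_of_eq (congrArg (· * p) (Nat.card_congr (Equiv.subtypeEquivRight fun ω => ?_))))
    (fixed_mul_le_of_free hP (fun _ : G ⧸ H => True) (fun a ω _ h => ?_) hx hxC)
  · simp
  induction ω using QuotientGroup.induction_on with
  | _ g =>
    by_contra ha
    have h' : g⁻¹ * ((a : G) * g) ∈ H := QuotientGroup.eq.1 h.symm
    have hord : orderOf (a : G) = p := by
      rw [Subgroup.orderOf_coe]
      exact orderOf_eq_prime (by rw [← hP]; exact pow_card_eq_one') ha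
    have h2 : orderOf (g⁻¹ * ((a : G) * g)) = p := by
      rw [← hord]
      simpa [mul_assoc] using (MulAut.conj g⁻¹).orderOf_eq (a : G)
    exact hH (h2 ▸ H.orderOf_dvd_natCard h')

/-- A nontrivial normal `2`-subgroup of a `2`-group contains a central involution. -/
theorem exists_central_involution {S T : Subgroup G} (hS : IsPGroup 2 S) (hTS : T ≤ S) (hT : T ≠ ⊥)
    (hn : S ≤ normalizer (T : Set G)) :
    ∃ x ∈ T, orderOf x = 2 ∧ S ≤ centralizer ({x} : Set G) := by
  haveI : Fact (Nat.Prime 2) := ⟨Nat.prime_two⟩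
  haveI : (T.subgroupOf S).Normal := (normal_subgroupOf_iff_le_normalizer hTS).2 hn
  letI : MulAction (ConjAct S) (T.subgroupOf S) := inferInstance
  have hP : IsPGroup 2 (ConjAct S) := hS
  have h2 : 2 ∣ Nat.card (T.subgroupOf S) := by
    obtain ⟨k, hk⟩ := IsPGroup.iff_card.1 (hS.to_le hTS)
    rw [Nat.card_congr (subgroupOfEquivOfLe hTS).toEquiv, hk]
    refine dvd_pow_self 2 fun h0 => hT ?_
    rw [h0, pow_zero] at hk
    exact card_eq_one.1 hk
  obtain ⟨b, hb, hb1⟩ := hP.exists_fixed_point_of_prime_dvd_card_of_fixed_point (α := T.subgroupOf S) h2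
    (a := 1) (fun s => smul_one s)
  have hbT : ((b : S) : G) ∈ T := b.2
  have hbne : ((b : S) : G) ≠ 1 := fun h => hb1 (Subtype.ext (Subtype.ext h.symm))
  obtain ⟨k, hk⟩ := (hS.to_le hTS) ⟨_, hbT⟩
  have hk' : ((b : S) : G) ^ 2 ^ k = 1 := congrArg Subtype.val hk
  obtain ⟨l, hlk, hl⟩ := (Nat.dvd_prime_pow Nat.prime_two).1 (orderOf_dvd_of_pow_eq_one hk')
  have hl1 : l ≠ 0 := fun h0 => hbne (orderOf_eq_one_iff.1 (by rw [hl, h0, pow_zero]))
  refine ⟨((b : S) : G) ^ 2 ^ (l - 1), pow_mem hbT _, ?_, fun s hs => mem_centralizer_singleton_iff.2 ?_⟩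
  · rw [orderOf_pow' _ (pow_ne_zero _ two_ne_zero), hl, Nat.gcd_eq_right (pow_dvd_pow 2 (Nat.sub_le l 1)),
      Nat.pow_div (Nat.sub_le l 1) (by norm_num), show l - (l - 1) = 1 by omega, pow_one]
  · have h := hb (ConjAct.toConjAct ⟨s, hs⟩)
    have h' : s * ((b : S) : G) * s⁻¹ = (b : S) := congrArg (fun z : T.subgroupOf S => ((z : S) : G)) h
    exact (Commute.pow_right (show Commute s ((b : S) : G) from mul_inv_eq_iff_eq_mul.1 h') _).eq

/-- `|C(x)| |x^G ∩ H| = |H| fix(x)`, both sides counting `{g | g⁻¹ x g ∈ H}`. -/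
theorem card_centralizer_mul_eq (x : G) (H : Subgroup G) :
    Nat.card ↥(centralizer ({x} : Set G)) * Nat.card {h : H // IsConj x (h : G)} =
      Nat.card H * Nat.card {ω : G ⧸ H // x • ω = ω} := by
  classical
  have e1 : {g : G // g⁻¹ * x * g ∈ H} ≃ ↥(centralizer ({x} : Set G)) × {h : H // IsConj x (h : G)} := by
    have key : ∀ h : {h : H // IsConj x (h : G)}, ∃ k : G, k⁻¹ * x * k = (h.1 : G) := fun h => by
      obtain ⟨k, hk⟩ := isConj_iff.1 h.2
      exact ⟨k⁻¹, by rwa [inv_inv]⟩
    choose k hk using key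
    refine (Equiv.ofBijective (fun s : ↥(centralizer ({x} : Set G)) × {h : H // IsConj x (h : G)} =>
      (⟨(s.1 : G) * k s.2, ?_⟩ : {g : G // g⁻¹ * x * g ∈ H})) ⟨?_, ?_⟩).symm
    · have h1 : (s.1 : G)⁻¹ * x * s.1 = x := by
        rw [mul_assoc, ← mem_centralizer_singleton_iff.1 s.1.2, inv_mul_cancel_left]
      rw [show ((s.1 : G) * k s.2)⁻¹ * x * ((s.1 : G) * k s.2) =
        (k s.2)⁻¹ * ((s.1 : G)⁻¹ * x * s.1) * k s.2 by group, h1, hk]
      exact s.2.1.2
    · rintro ⟨c, h⟩ ⟨c', h'⟩ he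
      have he' : (c : G) * k h = (c' : G) * k h' := congrArg Subtype.val he
      have hcx : ∀ d : ↥(centralizer ({x} : Set G)), (d : G)⁻¹ * x * d = x := fun d => by
        rw [mul_assoc, ← mem_centralizer_singleton_iff.1 d.2, inv_mul_cancel_left]
      have hh : h = h' := by
        refine Subtype.ext (Subtype.ext ?_)
        rw [← hk h, ← hk h']
        calc (k h)⁻¹ * x * k h = ((c : G) * k h)⁻¹ * x * ((c : G) * k h) := by
              conv_lhs => rw [← hcx c]
              group
          _ = ((c' : G) * k h')⁻¹ * x * ((c' : G) * k h') := by rw [he']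
          _ = (k h')⁻¹ * x * k h' := by
              conv_rhs => rw [← hcx c']
              group
      subst hh
      exact Prod.ext (Subtype.ext (mul_right_cancel he')) rfl
    · rintro ⟨g, hg⟩
      let h : {h : H // IsConj x (h : G)} := ⟨⟨_, hg⟩, isConj_iff.2 ⟨g⁻¹, by rw [inv_inv]⟩⟩
      refine ⟨(⟨g * (k h)⁻¹, mem_centralizer_singleton_iff.2 ?_⟩, h), Subtype.ext (inv_mul_cancel_right _ _)⟩
      have : (k h)⁻¹ * x * k h = g⁻¹ * x * g := hk h
      calc g * (k h)⁻¹ * x = g * ((k h)⁻¹ * x * k h) * (k h)⁻¹ := by group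
        _ = g * (g⁻¹ * x * g) * (k h)⁻¹ := by rw [this]
        _ = x * (g * (k h)⁻¹) := by group
  have e2 : {g : G // g⁻¹ * x * g ∈ H} ≃ H × {ω : G ⧸ H // x • ω = ω} := by
    have hfix : ∀ g : G, x • (g : G ⧸ H) = (g : G ⧸ H) ↔ g⁻¹ * x * g ∈ H := fun g => by
      rw [eq_comm, show x • (g : G ⧸ H) = ((x * g : G) : G ⧸ H) from rfl, QuotientGroup.eq, mul_assoc]
    refine (Equiv.ofBijective (fun s : H × {ω : G ⧸ H // x • ω = ω} =>
      (⟨s.2.1.out * (s.1 : G), ?_⟩ : {g : G // g⁻¹ * x * g ∈ H})) ⟨?_, ?_⟩).symm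
    · refine (hfix _).1 ?_
      rw [QuotientGroup.mk_mul_of_mem _ s.1.2, QuotientGroup.out_eq']
      exact s.2.2
    · rintro ⟨a, ω⟩ ⟨b, ω'⟩ he
      have he' : ω.1.out * (a : G) = ω'.1.out * (b : G) := congrArg Subtype.val he
      have hω : ω = ω' := by
        refine Subtype.ext ?_
        have := congrArg (fun g : G => (g : G ⧸ H)) he'
        simpa [QuotientGroup.mk_mul_of_mem] using this
      subst hω
      exact Prod.ext (Subtype.ext (mul_left_cancel he')) rfl
    · rintro ⟨g, hg⟩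
      obtain ⟨a, ha⟩ := QuotientGroup.mk_out_eq_mul H g
      exact ⟨(a⁻¹, ⟨(g : G ⧸ H), (hfix g).2 hg⟩), Subtype.ext (by simp [ha])⟩
  rw [← Nat.card_prod, ← Nat.card_prod, ← Nat.card_congr e1, Nat.card_congr e2]

variable [IsSimpleGroup G]

/-- A nonabelian simple group has no isolated involution. -/
theorem exists_commuting_conj (hG : ¬ IsMulCommutative G) {x : G} (hx : orderOf x = 2) :
    ∃ g : G, Commute x (g * x * g⁻¹) ∧ g * x * g⁻¹ ≠ x := by
  by_contra h
  push Not at h
  have hiso : Cfsg.IsIsolatedInvolution x := ⟨hx, h⟩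
  haveI : (Cfsg.oddCore G).Normal := Cfsg.Agent.Lib.Involution.oddCore_normal
  have hO : Cfsg.oddCore G = ⊥ := by
    refine ((inferInstance : (Cfsg.oddCore G).Normal).eq_bot_or_eq_top).resolve_right fun ht => ?_
    have hodd := Cfsg.Agent.Lib.Involution.odd_card_oddCore (G := G)
    rw [ht, card_top] at hodd
    have := orderOf_dvd_natCard x
    rw [hx] at this
    exact absurd (Nat.odd_iff.1 hodd) (by omega)
  have hc := Cfsg.Agent.Lib.Involution.zstar_center hiso hO
  rcases (inferInstance : (center G).Normal).eq_bot_or_eq_top with hb | ht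
  · rw [hb, mem_bot] at hc
    rw [hc, orderOf_one] at hx
    norm_num at hx
  · exact hG (center_eq_top_iff.1 ht)

omit [IsSimpleGroup G] in
/-- An involution's centraliser has order divisible by four when `4 ∣ |G|`. -/
theorem four_dvd_card_centralizer (h4 : 4 ∣ Nat.card G) {x : G} (hx : orderOf x = 2) :
    4 ∣ Nat.card ↥(centralizer ({x} : Set G)) := by
  haveI : Fact (Nat.Prime 2) := ⟨Nat.prime_two⟩
  have hzp : Nat.card ↥(zpowers x) = 2 ^ 1 := by rw [Nat.card_zpowers, hx, pow_one]
  obtain ⟨K, hK, hxK⟩ := Sylow.exists_subgroup_card_pow_succ (p := 2) (n := 1) (by simpa using h4) hzp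
  have hc : IsMulCommutative K := IsPGroup.isMulCommutative_of_card_eq_prime_sq (p := 2) hK
  have hle : K ≤ centralizer ({x} : Set G) := fun k hk => mem_centralizer_singleton_iff.2
    (congrArg Subtype.val (hc.is_comm.comm ⟨k, hk⟩ ⟨x, hxK (mem_zpowers x)⟩))
  simpa [hK] using card_dvd_of_le hle

omit [IsSimpleGroup G] in
/-- Sylow's congruence inside a subgroup containing `P`, `|P| = p`, `p² ∤ |G|`. -/
theorem relIndex_normalizer_modEq {p : ℕ} [hp : Fact p.Prime] (hsq : ¬ p ^ 2 ∣ Nat.card G)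
    {P H : Subgroup G} (hP : Nat.card P = p) (hPH : P ≤ H) :
    (normalizer (P : Set G)).relIndex H % p = 1 := by
  have hcard : Nat.card (P.subgroupOf H) = p ^ (Nat.card H).factorization p := by
    rw [Nat.card_congr (subgroupOfEquivOfLe hPH).toEquiv, hP]
    have h0 : p ∣ Nat.card H := hP ▸ card_dvd_of_le hPH
    have h1 := hp.out.factorization_pos_of_dvd (Nat.card_pos (α := H)).ne' h0
    have h2 : (Nat.card H).factorization p ≤ 1 := by
      by_contra hlt
      exact hsq (((hp.out.pow_dvd_iff_le_factorization Nat.card_pos.ne').2 (by omega : 2 ≤ _)).trans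
        H.card_subgroup_dvd_card)
    rw [le_antisymm h2 h1, pow_one]
  let A := Sylow.ofCard (P.subgroupOf H) hcard
  have hmod := card_sylow_modEq_one p H
  rw [A.card_eq_index_normalizer] at hmod
  change (normalizer ((P.subgroupOf H : Subgroup H) : Set H)).index ≡ 1 [MOD p] at hmod
  have hnorm : normalizer ((P.subgroupOf H : Subgroup H) : Set H) = (normalizer (P : Set G)).subgroupOf H := by
    ext h
    rw [mem_subgroupOf, mem_normalizer_iff, mem_normalizer_iff]
    constructor
    · intro hn z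
      constructor
      · intro hz
        have := (hn ⟨z, hPH hz⟩).1 (mem_subgroupOf.2 hz)
        simpa [mem_subgroupOf] using this
      · intro hz
        have hzH : z ∈ H := by
          have h2 := H.mul_mem (H.mul_mem (H.inv_mem h.2) (hPH hz)) h.2
          simpa [mul_assoc] using h2
        have := (hn ⟨z, hzH⟩).2 (by simpa [mem_subgroupOf] using hz)
        simpa [mem_subgroupOf] using this
    · intro hn z
      simpa [mem_subgroupOf] using hn (z : G)
  rw [hnorm] at hmod
  rw [Nat.ModEq, Nat.mod_eq_of_lt hp.out.one_lt] at hmod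
  exact hmod

end Cfsg.Agent.Lib.SmallSimple
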