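import Cfsg.Agent.Lib.SmallSimple.DegreeSquare
import Cfsg.Agent.Lib.Char.Order7920Tools
import Cfsg.Agent.Lib.CharTools.Basic

/-!
A self-centralising Sylow subgroup of prime order `p` whose normaliser has order `p (p - 1)`:
degrees and values at an involution of the principal block.
-/

set_option autoImplicit false
set_option linter.unusedSectionVars false

namespace Cfsg.Agent.Lib.SmallSimple.FullNormalizer

open Cfsg Cfsg.Agent.Lib Cfsg.Agent.Lib.Char Cfsg.Agent.Lib.DefectOne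
open Cfsg.Agent.Lib.Char.UC (C N)
open Cfsg.Agent.Lib.SmallSimple.DegreeSquare
open scoped Classical ComplexConjugate

universe u

variable {G : Type u} [Group G] [Fintype G] {p : ℕ} [hp : Fact p.Prime]

/-- The five-term relations of the principal block when `N(P)` is a Frobenius group of order
`p (p - 1)`. -/
theorem exists_degrees_full (hperf : commutator G = ⊤) (P : Sylow p G) (hp5 : 5 ≤ p)
    (hP : Nat.card (P : Subgroup G) = p) (hC : C P = (P : Subgroup G))
    (hN : Nat.card (N P) = p * (p - 1)) {t : G} (ht : t ∈ N P) (hto : orderOf t = 2) :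
    ∃ (S : Finset (IrrCharacter G)) (f : IrrCharacter G → ℕ) (σ u : IrrCharacter G → ℤ),
      S.card = p - 1 ∧
      (∀ χ ∈ S, 1 < f χ ∧ f χ ∣ Nat.card G ∧ (σ χ = 1 ∨ σ χ = -1) ∧ (p : ℤ) ∣ (f χ : ℤ) - σ χ ∧
        ∃ k : ℕ, u χ = (f χ : ℤ) - 4 * k ∧ 2 * k ≤ f χ) ∧
      1 + ∑ χ ∈ S, σ χ * f χ = 0 ∧ 1 + ∑ χ ∈ S, σ χ * u χ = 0 ∧
      1 + ∑ χ ∈ S, f χ ^ 2 ≤ Nat.card G ∧
      1 + ∑ χ ∈ S, u χ ^ 2 ≤ (Nat.card (Subgroup.centralizer ({t} : Set G)) : ℤ) ∧
      (Nat.card G : ℚ) * (1 + ∑ χ ∈ S, (σ χ : ℚ) * (u χ : ℚ) ^ 2 / (f χ : ℚ)) =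
        (p : ℚ) * (Nat.card (Subgroup.centralizer ({t} : Set G)) : ℚ) ^ 2 := by
  obtain ⟨M, hM⟩ := Block.exists_isPModular (p := p) hp.out
  haveI := hM.2.1
  obtain ⟨-, Z, Y, sgn, ε, hB, hd, hZ, hY, hε, hZv, hYv, hYr, hrel⟩ := principal_structure hM hP
  have he : (C P).relIndex (N P) = p - 1 := by
    have h := ((C P).subgroupOf (N P)).card_mul_index
    rw [Nat.card_congr (Subgroup.subgroupOfEquivOfLe (UC.C_le_N P)).toEquiv, hC, hP, hN] at h
    rw [Subgroup.relIndex, hC]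
    exact Nat.eq_of_mul_eq_mul_left hp.out.pos h
  rw [he] at hZ hY hYv
  have hp2 : p ≠ 2 := by omega
  rw [Nat.div_self (by omega)] at hY
  obtain ⟨ψ₀, rfl⟩ := Finset.card_eq_one.1 hY
  obtain ⟨x₀, hx₀, hx₀1⟩ := exists_mem_ne_one (P := P) hP
  have ht2 : t * t = 1 := by rw [← pow_two, ← hto, pow_orderOf_eq_one]
  have htP : t ∉ (P : Subgroup G) := fun h => by
    have h' := (P : Subgroup G).orderOf_dvd_natCard h
    rw [hto, hP] at h'
    exact hp2 ((Nat.prime_dvd_prime_iff_eq Nat.prime_two hp.out).1 h').symm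
  have htreg : ¬ p ∣ orderOf t := by
    rw [hto]; intro h
    exact hp2 ((Nat.prime_dvd_prime_iff_eq hp.out Nat.prime_two).1 h)
  have hψZ : ψ₀ ∉ Z := fun h => Finset.disjoint_left.1 hd h (Finset.mem_singleton_self _)
  let B := insert ψ₀ Z
  let σ : IrrCharacter G → ℤ := fun χ => if χ ∈ Z then sgn χ else -ε
  have hσψ : σ ψ₀ = -ε := if_neg hψZ
  have hσZ : ∀ χ ∈ Z, σ χ = sgn χ := fun χ h => if_pos h
  have hεε : (ε : ℂ) * ε = 1 := by rcases hε with rfl | rfl <;> norm_num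
  -- characters outside the block vanish on the singular elements
  have hout : ∀ X, X ∉ B → ∀ x ∈ (P : Subgroup G), x ≠ 1 → (X : G → ℂ) x = 0 := by
    intro X hXB' x hx hx1
    haveI := Fintype.ofFinite (C P)
    have hCP : ∀ c : C P, (c : G) ∈ (P : Subgroup G) := fun c => by rw [← hC]; exact c.2
    have hTh : ∀ θ : Th P, θ = oneTh P := by
      intro θ
      refine Subtype.ext ?_
      by_contra hne
      have h := classInner_irr_ne θ.1.2 (oneTh P).1.2 (fun h => hne (Subtype.ext h))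
      rw [show (θ.1 : C P → ℂ) = (θ.1 : C P → ℂ) 1 • ((oneTh P).1 : C P → ℂ) from
        funext fun c => by simpa [oneTh] using θ.2 c (hCP c), classInner_smul_left,
        classInner_irr_self (oneTh P).1.2, mul_one] at h
      exact irr_degree_ne_zero θ.1.2 h
    have hXB : X ∉ principalBlock M G := by
      rw [hB]
      intro h
      refine hXB' ?_
      simp only [B, Finset.mem_insert]
      rcases h with h | h
      · exact Or.inr h
      · exact Or.inl (Finset.mem_singleton.1 h)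
    have h := apply_eq_sum_S hP X ⟨x, hx⟩ (y := 1) not_dvd_one'
    rw [OneMemClass.coe_one, mul_one] at h
    rw [h]
    refine Finset.sum_eq_zero fun θ _ => ?_
    rw [hTh θ, S_eq_zero hM hP (oneTh P) (induced_principal hM hP) hXB
      (fun h => hx1 (congrArg Subtype.val h)), zero_mul]
  -- the relation on regular elements
  have hrel' : ∀ g : G, ¬ p ∣ orderOf g → ∑ χ ∈ B, (σ χ : ℂ) * (χ : G → ℂ) g = 0 := by
    intro g hg
    rw [Finset.sum_insert hψZ, hσψ, Finset.sum_congr rfl fun χ hχ => by rw [hσZ χ hχ],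
      ← hrel ψ₀ (Finset.mem_singleton_self _) g hg]
    push_cast; ring
  have hval : ∀ x ∈ (P : Subgroup G), x ≠ 1 → ∀ χ ∈ B, (χ : G → ℂ) x = (σ χ : ℂ) := by
    intro x hx hx1
    have hvZ : ∀ ξ ∈ Z, (ξ : G → ℂ) x = (sgn ξ : ℂ) := fun ξ hξ => by
      have := (hZv ξ hξ).2.2 x hx hx1 1 (one_mem _) (by rw [orderOf_one]; exact hp.out.not_dvd_one)
      rwa [mul_one] at this
    intro χ hχ
    rcases Finset.mem_insert.1 hχ with rfl | hχ
    · have h := sum_degree_mul (G := G) x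
      rw [if_neg hx1, ← Finset.sum_subset (Finset.subset_univ B)
        (fun X _ hX => by rw [hout X hX x hx hx1, mul_zero]), Finset.sum_insert hψZ,
        Finset.sum_congr rfl fun ξ hξ => by rw [hvZ ξ hξ, mul_comm]] at h
      have h1 := hrel χ (Finset.mem_singleton_self _) 1 (by rw [orderOf_one]; exact hp.out.not_dvd_one)
      rw [← h1] at h
      have hne := irr_degree_ne_zero χ.2
      rw [hσψ]; push_cast
      refine mul_left_cancel₀ hne ?_
      linear_combination h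
    · rw [hσZ χ hχ]; exact hvZ χ hχ
  have honeB : Block.oneIrr G ∈ B := by
    have h : Block.oneIrr G ∈ principalBlock M G := Block.oneIrr_mem
    rw [hB] at h
    rcases h with h | h
    · exact Finset.mem_insert_of_mem h
    · rw [Finset.mem_singleton.1 h]; exact Finset.mem_insert_self _ _
  have hσ1 : σ (Block.oneIrr G) = 1 := by
    have := hval x₀ hx₀ hx₀1 _ honeB
    rw [Block.oneIrr_apply] at this
    exact_mod_cast this.symm
  have hσ : ∀ χ ∈ B, (σ χ = 1 ∨ σ χ = -1) ∧ (p : ℤ) ∣ (charDegree (χ : G → ℂ) : ℤ) - σ χ := by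
    intro χ hχ
    rcases Finset.mem_insert.1 hχ with rfl | hχ
    · rw [hσψ]
      refine ⟨by rcases hε with rfl | rfl <;> simp, ?_⟩
      have h := Int.modEq_iff_dvd.1 (hYv χ (Finset.mem_singleton_self _)).symm
      have h2 := h.add (Dvd.intro ε rfl : (p : ℤ) ∣ (p : ℤ) * ε)
      rw [Nat.cast_sub (by omega : 1 ≤ p), Nat.cast_one] at h2
      have e1 : (charDegree (χ : G → ℂ) : ℤ) - ε * ((p : ℤ) - 1) + (p : ℤ) * ε =
          (charDegree (χ : G → ℂ) : ℤ) - -ε := by ring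
      exact e1 ▸ h2
    · rw [hσZ χ hχ]
      exact ⟨(hZv χ hχ).1, Int.modEq_iff_dvd.1 (hZv χ hχ).2.1.symm⟩
  have hk : ∀ χ : IrrCharacter G, ∃ k : ℕ,
      (χ : G → ℂ) t = (((charDegree (χ : G → ℂ) : ℤ) - 4 * k : ℤ) : ℂ) ∧ 2 * k ≤ charDegree (χ : G → ℂ) := by
    intro χ
    obtain ⟨k, hk, hle⟩ := O7920.exists_mod_four hperf χ hto
    exact ⟨k, by rw [hk]; push_cast; ring, hle⟩
  choose k hkv hkle using hk
  let u : IrrCharacter G → ℤ := fun χ => (charDegree (χ : G → ℂ) : ℤ) - 4 * k χ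
  have hu : ∀ χ : IrrCharacter G, (χ : G → ℂ) t = (u χ : ℂ) := hkv
  let f : IrrCharacter G → ℕ := fun χ => charDegree (χ : G → ℂ)
  have hf : ∀ χ : IrrCharacter G, (χ : G → ℂ) 1 = (f χ : ℂ) := fun χ =>
    apply_one_eq_charDegree (isCharacter_of_isIrr χ.2)
  have hu1 : u (Block.oneIrr G) = 1 := by
    have := hu (Block.oneIrr G)
    rw [Block.oneIrr_apply] at this
    exact_mod_cast this.symm
  have hf1 : f (Block.oneIrr G) = 1 := charDegree_one
  let S := B.erase (Block.oneIrr G)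
  have hS : ∀ F : IrrCharacter G → ℂ, ∑ χ ∈ B, F χ = F (Block.oneIrr G) + ∑ χ ∈ S, F χ :=
    fun F => (Finset.add_sum_erase B F honeB).symm
  refine ⟨S, f, σ, u, ?_, fun χ hχ => ⟨?_, charDegree_dvd_card χ.2, (hσ χ (Finset.mem_of_mem_erase hχ)).1,
    (hσ χ (Finset.mem_of_mem_erase hχ)).2, k χ, rfl, hkle χ⟩, ?_, ?_, ?_, ?_, ?_⟩
  · rw [Finset.card_erase_of_mem honeB, Finset.card_insert_of_notMem hψZ, hZ]; omega
  · have h0 : 0 < f χ := charDegree_pos χ.2
    refine Nat.lt_of_le_of_ne h0 fun h1 => Finset.ne_of_mem_erase hχ ?_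
    obtain ⟨l, hl⟩ := exists_hom_of_degree_one (isCharacter_of_isIrr χ.2)
      (by rw [hf χ, ← h1, Nat.cast_one])
    refine Subtype.ext (funext fun g => ?_)
    rw [hl g, Brauer43.perfect_hom_trivial hperf l g, Units.val_one, Block.oneIrr_apply]
  · have h := hrel' 1 (by rw [orderOf_one]; exact hp.out.not_dvd_one)
    rw [hS, hσ1, Block.oneIrr_apply, Finset.sum_congr rfl fun χ _ => by rw [hf χ]] at h
    have h' : (((1 : ℤ) + ∑ χ ∈ S, σ χ * f χ : ℤ) : ℂ) = ((0 : ℤ) : ℂ) := by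
      push_cast at h ⊢; linear_combination h
    exact_mod_cast h'
  · have h := hrel' t htreg
    rw [hS, hσ1, Block.oneIrr_apply, Finset.sum_congr rfl fun χ _ => by rw [hu χ]] at h
    have h' : (((1 : ℤ) + ∑ χ ∈ S, σ χ * u χ : ℤ) : ℂ) = ((0 : ℤ) : ℂ) := by
      push_cast at h ⊢; linear_combination h
    exact_mod_cast h'
  · have h := sum_charDegree_sq (G := G)
    have h2 : ∑ χ ∈ B, f χ ^ 2 ≤ Nat.card G :=
      h ▸ Finset.sum_le_sum_of_subset_of_nonneg (Finset.subset_univ _) fun _ _ _ => Nat.zero_le _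
    rw [← Finset.add_sum_erase B _ honeB, hf1, one_pow] at h2
    exact h2
  · have h := CharTools.sum_irr_mul_conj' t t
    rw [if_pos (IsConj.refl t), Finset.sum_congr rfl (g := fun χ => ((u χ ^ 2 : ℤ) : ℂ)) fun χ _ => by
      rw [hu χ, map_intCast]; push_cast; ring, ← Int.cast_sum] at h
    have h' : ∑ χ : IrrCharacter G, u χ ^ 2 = (Nat.card (Subgroup.centralizer ({t} : Set G)) : ℤ) := by
      exact_mod_cast h
    rw [← h']
    refine le_trans (le_of_eq ?_) (Finset.sum_le_sum_of_subset_of_nonneg (Finset.subset_univ B)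
      fun _ _ _ => sq_nonneg _)
    rw [← Finset.add_sum_erase B _ honeB, hu1, one_pow]
  · have hcnt := Brauer43.card_pairsOf t x₀
    set k' := (Subgroup.centralizer ({t} : Set G)).index with hk'def
    have hx' : x₀⁻¹ ∈ (P : Subgroup G) := inv_mem hx₀
    rw [card_pairs hP hp2 hC ht htP ht2 hx₀ hx₀1,
      ← Finset.sum_subset (Finset.subset_univ B)
        (fun X _ hX => by rw [hout X hX _ hx' (inv_ne_one.2 hx₀1), mul_zero, zero_div]),
      Finset.sum_congr rfl fun χ hχ => by rw [hu χ, hf χ, hval _ hx' (inv_ne_one.2 hx₀1) χ hχ],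
      hS, hσ1, hu1, hf1] at hcnt
    set c := Nat.card (Subgroup.centralizer ({t} : Set G)) with hcdef
    have hck : (Nat.card G : ℂ) = c * k' := by
      rw [hcdef, hk'def, ← Nat.cast_mul, Subgroup.card_mul_index]
    have hsum : ∑ χ ∈ S, ((k' : ℂ) * (u χ : ℂ)) ^ 2 * (σ χ : ℂ) / (f χ : ℂ) =
        (k' : ℂ) ^ 2 * ∑ χ ∈ S, (σ χ : ℂ) * (u χ : ℂ) ^ 2 / (f χ : ℂ) := by
      rw [Finset.mul_sum]; exact Finset.sum_congr rfl fun χ _ => by ring
    rw [hsum] at hcnt
    have hG0 : (Nat.card G : ℂ) ≠ 0 := Nat.cast_ne_zero.2 Nat.card_pos.ne'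
    have h' : ((((Nat.card G : ℚ) * (1 + ∑ χ ∈ S, (σ χ : ℚ) * (u χ : ℚ) ^ 2 / (f χ : ℚ))) : ℚ) : ℂ) =
        ((((p : ℚ) * (c : ℚ) ^ 2) : ℚ) : ℂ) := by
      push_cast
      refine mul_left_cancel₀ hG0 ?_
      generalize ∑ χ ∈ S, (σ χ : ℂ) * (u χ : ℂ) ^ 2 / (f χ : ℂ) = T at hcnt ⊢
      push_cast at hcnt
      rw [hck] at hcnt ⊢
      linear_combination (-((c : ℂ) ^ 2)) * hcnt
    exact_mod_cast h'

end Cfsg.Agent.Lib.SmallSimple.FullNormalizer
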