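import Cfsg.Agent.Lib.SmallSimple.PointFix
import Cfsg.Agent.Lib.SmallSimple.Order459648

/-!
A simple group of order 5760 has no subgroup of order three whose normaliser of index sixteen contains
the normaliser of a subgroup of order five: the cosets would form an affine plane with five parallel classes.
-/

set_option autoImplicit false

namespace Cfsg.Agent.Lib.SmallSimple.PlaneSixteen

open Subgroup
open scoped Pointwise

variable {G : Type*} [Group G]

theorem card_sup_of_commute [Finite G] (K U : Subgroup G) (hc : ∀ k ∈ K, ∀ u ∈ U, Commute k u)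
    (hd : ∀ k ∈ K, k ∈ U → k = 1) : Nat.card ↥(K ⊔ U) = Nat.card K * Nat.card U := by
  let f : K × U →* G := MonoidHom.noncommCoprod K.subtype U.subtype fun k u => hc k k.2 u u.2
  have hinj : Function.Injective f := by
    rintro ⟨k, u⟩ ⟨k', u'⟩ e
    change (k : G) * u = k' * u' at e
    have h1 : (k' : G)⁻¹ * k = (u' : G) * (u : G)⁻¹ := by
      rw [eq_mul_inv_iff_mul_eq, mul_assoc, e, inv_mul_cancel_left]
    have h2 : (k' : G)⁻¹ * k = 1 :=
      hd _ (mul_mem (inv_mem k'.2) k.2) (h1 ▸ mul_mem u'.2 (inv_mem u.2))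
    rw [h2] at h1
    exact Prod.ext (Subtype.ext (inv_mul_eq_one.1 h2).symm) (Subtype.ext (mul_inv_eq_one.1 h1.symm).symm)
  have hr : (MonoidHom.noncommCoprod K.subtype U.subtype fun k u => hc k k.2 u u.2).range = K ⊔ U := by
    exact (MonoidHom.noncommCoprod_range _ _ _).trans (by rw [Subgroup.range_subtype, Subgroup.range_subtype])
  rw [← hr, ← Nat.card_prod]
  exact Nat.card_congr (MonoidHom.ofInjective hinj).toEquiv.symm

section Geometry

variable (Ω : Type*) [MulAction G Ω]

/-- The common fixed points of the elements of cube one fixing two points. -/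
def line (G : Type*) [Group G] {Ω : Type*} [MulAction G Ω] (x y : Ω) : Set Ω :=
  {z | ∀ d : G, d ^ 3 = 1 → d • x = x → d • y = y → d • z = z}

end Geometry

theorem line_smul {Ω : Type*} [MulAction G Ω] (g : G) (x y z : Ω) :
    g • z ∈ line G (g • x) (g • y) ↔ z ∈ line G x y := by
  have key : ∀ (g : G) (x y z : Ω), z ∈ line G x y → g • z ∈ line G (g • x) (g • y) := by
    intro g x y z hz d hd hx hy
    have h := hz (g⁻¹ * d * g)
      (by rw [show g⁻¹ * d * g = g⁻¹ * d * (g⁻¹)⁻¹ by rw [inv_inv], conj_pow, hd, mul_one, mul_inv_cancel])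
      (by rw [mul_smul, mul_smul, hx, inv_smul_smul]) (by rw [mul_smul, mul_smul, hy, inv_smul_smul])
    rwa [mul_smul, mul_smul, inv_smul_eq_iff] at h
  refine ⟨fun h => ?_, key g x y z⟩
  simpa using key g⁻¹ _ _ _ h

theorem line_comm {Ω : Type*} [MulAction G Ω] (x y : Ω) : line G x y = line G y x := by
  ext z
  exact ⟨fun h d hd h1 h2 => h d hd h2 h1, fun h d hd h1 h2 => h d hd h2 h1⟩

variable [Finite G] [IsSimpleGroup G]

set_option maxHeartbeats 1000000 in
theorem false_of_plane (h : Nat.card G = 5760) {c : G} (hc : orderOf c = 3) {P : Subgroup G}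
    (hP : Nat.card P = 5) (hcP : c ∈ centralizer (P : Set G))
    (hNM : normalizer (P : Set G) ≤ normalizer ((zpowers c : Subgroup G) : Set G))
    (h9 : ¬ 9 ∣ Nat.card (centralizer (P : Set G)))
    (hMi : (normalizer ((zpowers c : Subgroup G) : Set G)).index = 16) : False := by
  classical
  haveI : Fact (Nat.Prime 5) := ⟨by norm_num⟩
  haveI : Fact (Nat.Prime 3) := ⟨Nat.prime_three⟩
  have hsq : ¬ 5 ^ 2 ∣ Nat.card G := by rw [h]; norm_num
  set M := normalizer ((zpowers c : Subgroup G) : Set G) with hMdef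
  have hMc : Nat.card M = 360 := by
    have := M.card_mul_index
    rw [hMi, h] at this
    omega
  have hMtop : M ≠ ⊤ := fun e => by rw [e, index_top] at hMi; omega
  have hc3 : c ^ 3 = 1 := by rw [← hc, pow_orderOf_eq_one]
  set A := centralizer ({c} : Set G) with hAdef
  have hAz : centralizer ((zpowers c : Subgroup G) : Set G) = A := by
    rw [zpowers_eq_closure, centralizer_closure]
  have hAM : A ≤ M := hAz ▸ centralizer_le_normalizer _
  have hcA : c ∈ A := mem_centralizer_singleton_iff.2 rfl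
  have hcM : c ∈ M := hAM hcA
  have hPA : P ≤ A := fun z hz => mem_centralizer_singleton_iff.2 (mem_centralizer_iff.1 hcP z hz)
  have hPM : P ≤ M := hPA.trans hAM
  obtain ⟨i, hi2, hMA⟩ := exists_normalizer_index (zpowers c) (by rw [Nat.card_zpowers, hc])
  rw [hAz] at hMA
  change Nat.card M = Nat.card A * i at hMA
  have hi : i = 1 ∨ i = 2 := (Nat.dvd_prime Nat.prime_two).1 hi2
  rw [hMc] at hMA
  have hcube : ∀ d ∈ M, d ^ 3 = 1 → d ∈ A := by
    intro d hd hd3
    rcases hi with rfl | rfl
    · rwa [eq_of_le_of_card_ge hAM (by omega)]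
    · have hidx : (A.subgroupOf M).index = 2 := by
        have := (A.subgroupOf M).card_mul_index
        rw [Nat.card_congr (subgroupOfEquivOfLe hAM).toEquiv, hMc] at this
        exact Nat.eq_of_mul_eq_mul_left Nat.card_pos (this.trans hMA)
      have h2 := mul_self_mem_of_index_two hidx ⟨d, hd⟩
      rw [mem_subgroupOf] at h2
      have h2' : d * d ∈ A := h2
      have : d = (d * d) * (d * d) := by
        calc d = d ^ 3 * d := by rw [hd3, one_mul]
          _ = (d * d) * (d * d) := by rw [pow_three]; simp only [mul_assoc]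
      rw [this]
      exact mul_mem h2' h2'
  let Ω := G ⧸ M
  let b : Ω := ((1 : G) : G ⧸ M)
  have hΩ : Nat.card Ω = 16 := by rw [← hMi, index_eq_card]
  have hbfix : ∀ g : G, g • b = b ↔ g ∈ M := by
    intro g
    show ((g * 1 : G) : G ⧸ M) = _ ↔ _
    rw [QuotientGroup.eq, mul_one, mul_one, inv_mem_iff]
  have hbA : ∀ g ∈ A, g • b = b := fun g hg => (hbfix g).2 (hAM hg)
  have hne15 : Nat.card {z : Ω // z ≠ b} = 15 := by
    letI := Fintype.ofFinite Ω
    rw [Nat.card_eq_fintype_card, Fintype.card_subtype_compl, Fintype.card_subtype_eq,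
      ← Nat.card_eq_fintype_card, hΩ]
  -- `c` fixes only the base point
  obtain ⟨hd15, hpos, hsum⟩ := moved_facts hsq hP hPM hMtop Nat.prime_three (by norm_num) hc hcP
    (fun n hn => mul_mem (mul_mem (inv_mem (hNM hn)) hcM) (hNM hn))
  have hcfix : ∀ z : Ω, c • z = z → z = b := by
    have hle := Nat.le_of_dvd hpos hd15
    rw [hMi] at hsum
    have hb1 : 0 < Nat.card {ω : G ⧸ M // c • ω = ω} :=
      Nat.card_pos_iff.2 ⟨⟨⟨b, hbA c hcA⟩⟩, inferInstance⟩
    have h1 : Nat.card {ω : G ⧸ M // c • ω = ω} ≤ 1 := by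
      obtain ⟨q, hq⟩ := hd15; omega
    intro z hz
    exact congrArg Subtype.val
      ((Finite.card_le_one_iff_subsingleton.1 h1).elim ⟨z, hz⟩ ⟨b, hbA c hcA⟩)
  obtain ⟨a₀, ha₀⟩ := exists_prime_orderOf_dvd_card' (G := P) 5 (by rw [hP])
  set a : G := (a₀ : G) with hadef
  have hao : orderOf a = 5 := by rw [hadef, Subgroup.orderOf_coe, ha₀]
  have hagen : zpowers a = P :=
    eq_of_le_of_card_ge (zpowers_le.2 a₀.2) (by rw [Nat.card_zpowers, hao, hP])
  have hafix : ∀ z : Ω, a • z = z → z = b := by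
    intro z hz
    induction z using QuotientGroup.induction_on with
    | _ k =>
      have h1 : k⁻¹ * a * k ∈ M := by
        have := QuotientGroup.eq.1 (hz.symm : (k : G ⧸ M) = ((a * k : G) : G ⧸ M))
        simpa [mul_assoc] using this
      obtain ⟨n, hn, hkn⟩ := exists_normalizer_mul hsq hP hPM (g := k) fun z hz => by
        rw [← hagen] at hz
        obtain ⟨j, rfl⟩ := mem_zpowers_iff.1 hz
        have := zpow_mem h1 j
        rwa [show k⁻¹ * a * k = k⁻¹ * a * (k⁻¹)⁻¹ by rw [inv_inv], conj_zpow, inv_inv] at this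
      rw [QuotientGroup.eq.2 hkn]
      exact QuotientGroup.eq.2 (by simpa using inv_mem (hNM hn))
  have hmove : ∀ g ∈ A, ∀ z : Ω, z ≠ b → g • z ≠ b := fun g hg z hz e =>
    hz (smul_left_cancel g (e.trans (hbA g hg).symm))
  -- the orbit of any other point
  have horb : ∀ y : Ω, y ≠ b → 15 * Nat.card ↥(A ⊓ MulAction.stabilizer G y) = Nat.card A ∧
      ∀ z : Ω, z ≠ b → ∃ g ∈ A, g • y = z := by
    intro y hy
    have hstab : Nat.card (MulAction.stabilizer A y) = Nat.card ↥(A ⊓ MulAction.stabilizer G y) :=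
      Nat.card_congr
        { toFun := fun g => ⟨g.1.1, g.1.2, g.2⟩
          invFun := fun g => ⟨⟨g.1, g.2.1⟩, g.2.2⟩
          left_inv := fun _ => rfl
          right_inv := fun _ => rfl }
    have hmul : Nat.card (MulAction.orbit A y) * Nat.card (MulAction.stabilizer A y) = Nat.card A := by
      rw [← Nat.card_prod]
      exact Nat.card_congr (MulAction.orbitProdStabilizerEquivGroup A y)
    rw [hstab] at hmul
    have hdvd : ∀ (r : ℕ) (g : G) (hg : g ∈ A), r.Prime → g ^ r = 1 →
        (∀ z : Ω, g • z = z → z = b) → r ∣ Nat.card (MulAction.orbit A y) := by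
      intro r g hg hr hgr hfix
      haveI : Fact r.Prime := ⟨hr⟩
      have hK : IsPGroup r (zpowers (⟨g, hg⟩ : A)) := fun k => ⟨1, by
        obtain ⟨j, hj⟩ := mem_zpowers_iff.1 k.2
        apply Subtype.ext
        rw [pow_one, SubmonoidClass.coe_pow, ← hj, ← zpow_natCast, ← zpow_mul, mul_comm, zpow_mul,
          zpow_natCast]
        rw [show (⟨g, hg⟩ : A) ^ r = 1 from Subtype.ext hgr, one_zpow]
        rfl⟩
      haveI : IsEmpty (MulAction.fixedPoints (zpowers (⟨g, hg⟩ : A)) (MulAction.orbit A y)) := ⟨fun z => by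
        have h1 := congrArg Subtype.val (z.2 ⟨_, mem_zpowers _⟩)
        obtain ⟨k, hk⟩ := z.1.2
        exact hmove k.1 k.2 y hy (hk.trans (hfix _ h1))⟩
      have := hK.card_modEq_card_fixedPoints (MulAction.orbit A y)
      rw [Nat.card_of_isEmpty (α := MulAction.fixedPoints (zpowers (⟨g, hg⟩ : A)) (MulAction.orbit A y))] at this
      exact Nat.modEq_zero_iff_dvd.1 this
    have h3 := hdvd 3 c hcA Nat.prime_three hc3 hcfix
    have h5 := hdvd 5 a (hPA a₀.2) (by norm_num) (by rw [← hao, pow_orderOf_eq_one]) hafix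
    have hle : Nat.card (MulAction.orbit A y) ≤ Nat.card {z : Ω // z ≠ b} := by
      refine Nat.card_le_card_of_injective (fun z => ⟨z.1, ?_⟩)
        (fun u v e => Subtype.ext (congrArg (fun w : {z : Ω // z ≠ b} => w.1) e))
      obtain ⟨k, hk⟩ := z.2
      exact hk ▸ hmove k.1 k.2 y hy
    have hpos : 0 < Nat.card (MulAction.orbit A y) :=
      Nat.card_pos_iff.2 ⟨⟨⟨y, MulAction.mem_orbit_self y⟩⟩, inferInstance⟩
    rw [hne15] at hle
    have h15 : Nat.card (MulAction.orbit A y) = 15 := by omega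
    refine ⟨by rw [← h15]; exact hmul, fun z hz => ?_⟩
    have hsurj : Function.Surjective (fun w : MulAction.orbit A y =>
        (⟨w.1, by obtain ⟨k, hk⟩ := w.2; exact hk ▸ hmove k.1 k.2 y hy⟩ : {z : Ω // z ≠ b})) := by
      refine ((Nat.bijective_iff_injective_and_card _).2 ⟨?_, by rw [h15, hne15]⟩).2
      exact fun u v e => Subtype.ext (congrArg (fun w : {z : Ω // z ≠ b} => w.1) e)
    obtain ⟨⟨w, k, hk⟩, hw⟩ := hsurj ⟨z, hz⟩
    exact ⟨k.1, k.2, hk.trans (congrArg Subtype.val hw)⟩
  -- the lines through the base point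
  have hline : ∀ y : Ω, y ≠ b → ∀ z : Ω, z ≠ b → (z ∈ line G b y ↔ ∃ j : ℕ, z = (c ^ j) • y) := by
    intro y hy z hz
    constructor
    swap
    · rintro ⟨j, rfl⟩ d hd hdb hdy
      have hdA := hcube d ((hbfix d).1 hdb) hd
      have hcm : Commute d (c ^ j) :=
        Commute.pow_right (show Commute d c from mem_centralizer_singleton_iff.1 hdA) j
      rw [← mul_smul, hcm.eq, mul_smul, hdy]
    intro hzl
    obtain ⟨hU, -⟩ := horb y hy
    set U := A ⊓ MulAction.stabilizer G y with hUdef
    have hUA : U ≤ A := inf_le_left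
    have hUy : ∀ u ∈ U, u • y = y := fun u hu => hu.2
    set K := zpowers c with hKdef
    have hKU : ∀ k ∈ K, ∀ u ∈ U, Commute k u := by
      intro k hk u hu
      obtain ⟨j, rfl⟩ := mem_zpowers_iff.1 hk
      exact Commute.zpow_left (show Commute c u from (mem_centralizer_singleton_iff.1 (hUA hu)).symm) j
    have hKdis : ∀ k ∈ K, k ∈ U → k = 1 := by
      intro k hk hkU
      by_contra hk1
      have hgen : zpowers k = K := eq_of_le_of_card_ge (zpowers_le.2 hk) (by
        rw [hKdef, Nat.card_zpowers, Nat.card_zpowers, hc]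
        have hd : orderOf k ∣ 3 := by
          have := (zpowers c).orderOf_dvd_natCard hk
          rwa [Nat.card_zpowers, hc] at this
        rcases (Nat.dvd_prime Nat.prime_three).1 hd with e | e
        · exact absurd (orderOf_eq_one_iff.1 e) hk1
        · rw [e])
      obtain ⟨j, hj⟩ := mem_zpowers_iff.1 (hgen.symm ▸ mem_zpowers c : c ∈ zpowers k)
      have hcy : c • y = y := by
        rw [← hj]
        exact (MulAction.stabilizer G y).zpow_mem hkU.2 j
      exact hy (hcfix y hcy)
    set V := K ⊔ U with hVdef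
    have hV : Nat.card V = 3 * Nat.card U := by
      rw [hVdef, card_sup_of_commute K U hKU hKdis, hKdef, Nat.card_zpowers, hc]
    have hVA : V ≤ A := sup_le (zpowers_le.2 hcA) hUA
    have hUpos := Nat.card_pos (α := U)
    have hAval : Nat.card A = 180 ∨ Nat.card A = 360 := by rcases hi with rfl | rfl <;> omega
    obtain ⟨d, hd⟩ := exists_prime_orderOf_dvd_card' (G := U) 3 (by omega)
    -- two subgroups of order three in the two-point stabiliser
    obtain ⟨e, heU, he3, hed⟩ : ∃ e ∈ U, e ^ 3 = 1 ∧ e ∉ zpowers (d : G) := by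
      by_contra! hall
      set B := zpowers (d : G) with hBdef
      have hBc : Nat.card B = 3 := by rw [hBdef, Nat.card_zpowers, Subgroup.orderOf_coe, hd]
      have hBU : B ≤ U := zpowers_le.2 d.2
      set R := K ⊔ B with hRdef
      have hR : Nat.card R = 9 := by
        rw [hRdef, card_sup_of_commute K B (fun k hk u hu => hKU k hk u (hBU hu))
          (fun k hk hu => hKdis k hk (hBU hu)), hKdef, Nat.card_zpowers, hc, hBc]
      have hRA : R ≤ A := sup_le (zpowers_le.2 hcA) (hBU.trans hUA)
      have hBn : ∀ u ∈ U, ∀ x ∈ B, u * x * u⁻¹ ∈ B := by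
        intro u hu x hx
        refine hall _ (mul_mem (mul_mem hu (hBU hx)) (inv_mem hu)) ?_
        have hx3 : x ^ 3 = 1 := by
          have := pow_card_eq_one' (G := B) (x := ⟨x, hx⟩)
          rw [hBc] at this
          exact congrArg Subtype.val this
        rw [conj_pow, hx3, mul_one, mul_inv_cancel]
      have hVn : V ≤ normalizer (R : Set G) := by
        refine sup_le ((le_sup_left : K ≤ R).trans le_normalizer) fun u hu => ?_
        rw [mem_normalizer_iff_map_conj_eq, hRdef, Subgroup.map_sup]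
        have h1 : K.map (↑(MulAut.conj u) : G →* G) = K := by
          rw [hKdef, MonoidHom.map_zpowers]
          show zpowers (u * c * u⁻¹) = zpowers c
          rw [mem_centralizer_singleton_iff.1 (hUA hu), mul_inv_cancel_right]
        have h2 : B.map (↑(MulAut.conj u) : G →* G) = B := by
          refine eq_of_le_of_card_ge (map_le_iff_le_comap.2 fun x hx => hBn u hu x hx) ?_
          exact (Nat.card_congr (equivMapOfInjective B _ (MulEquiv.injective _)).toEquiv).le
        rw [h1, h2]
      let RA : Sylow 3 A := Sylow.ofCard (R.subgroupOf A) (by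
        rw [Nat.card_congr (subgroupOfEquivOfLe hRA).toEquiv, hR,
          show (Nat.card A).factorization 3 = 2 by
            rcases hAval with e | e <;> rw [e] <;> simp [Nat.factorization_def, Fact.out (p := Nat.Prime 3)] <;>
              decide +kernel]
        rfl)
      have hn3 := RA.card_eq_index_normalizer
      have hmod := card_sylow_modEq_one 3 A
      have hle : V.subgroupOf A ≤ normalizer ((RA : Subgroup A) : Set A) := by
        intro x hx
        show x ∈ normalizer ((R.subgroupOf A : Subgroup A) : Set A)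
        rw [mem_normalizer_iff]
        intro z
        simp only [mem_subgroupOf, Subgroup.coe_mul, Subgroup.coe_inv]
        exact mem_normalizer_iff.1 (hVn (mem_subgroupOf.1 hx)) _
      have hVidx : (V.subgroupOf A).index = 5 := by
        have := (V.subgroupOf A).card_mul_index
        rw [Nat.card_congr (subgroupOfEquivOfLe hVA).toEquiv, hV] at this
        apply Nat.eq_of_mul_eq_mul_left (show 0 < 3 * Nat.card U by omega)
        omega
      have hdvd5 : (normalizer ((RA : Subgroup A) : Set A)).index ∣ 5 := hVidx ▸ index_dvd_of_le hle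
      have hnorm : normalizer ((RA : Subgroup A) : Set A) = ⊤ := by
        rcases (Nat.dvd_prime (by norm_num : Nat.Prime 5)).1 hdvd5 with e | e
        · exact index_eq_one.1 e
        · rw [hn3.trans e] at hmod
          exact absurd hmod (by decide)
      have hPR : ∀ p ∈ P, ∀ r ∈ R, p * r * p⁻¹ ∈ R := by
        intro p hp r hr
        have h1 : (⟨p, hPA hp⟩ : A) ∈ normalizer ((RA : Subgroup A) : Set A) := hnorm ▸ mem_top _
        exact (mem_normalizer_iff.1 h1 ⟨r, hRA hr⟩).1 (mem_subgroupOf.2 hr)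
      -- `P` centralises `R`
      letI : MulAction P R :=
        { smul := fun p r => ⟨(p : G) * r * (p : G)⁻¹, hPR p p.2 r r.2⟩
          one_smul := fun r => Subtype.ext (show ((1 : P) : G) * r * ((1 : P) : G)⁻¹ = r by simp)
          mul_smul := fun p q r => Subtype.ext (show ((p * q : P) : G) * r * ((p * q : P) : G)⁻¹ =
            (p : G) * ((q : G) * r * (q : G)⁻¹) * (p : G)⁻¹ by simp [mul_assoc]) }
      have hmod5 := (IsPGroup.of_card (p := 5) (n := 1) (G := P) (by rw [hP]; norm_num)).card_modEq_card_fixedPoints R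
      set F := R ⊓ centralizer (P : Set G) with hFdef
      have hF : Nat.card (MulAction.fixedPoints P R) = Nat.card F := Nat.card_congr
        { toFun := fun r => ⟨r.1.1, r.1.2, fun p hp => by
            have h1 : p * (r.1 : G) * p⁻¹ = r.1 := congrArg Subtype.val (r.2 ⟨p, hp⟩)
            calc p * (r.1 : G) = p * (r.1 : G) * p⁻¹ * p := by group
              _ = (r.1 : G) * p := by rw [h1]⟩
          invFun := fun r => ⟨⟨r.1, r.2.1⟩, fun p => Subtype.ext (by
            show (p : G) * r.1 * (p : G)⁻¹ = r.1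
            rw [r.2.2 p p.2, mul_inv_cancel_right])⟩
          left_inv := fun _ => rfl
          right_inv := fun _ => rfl }
      rw [hF, hR] at hmod5
      have hFdvd : Nat.card F ∣ 9 := hR ▸ card_dvd_of_le inf_le_left
      have hFC : Nat.card F ∣ Nat.card (centralizer (P : Set G)) := card_dvd_of_le inf_le_right
      have hF9 : Nat.card F ∈ ({1, 3, 9} : Finset ℕ) := by
        rw [show ({1, 3, 9} : Finset ℕ) = Nat.divisors 9 by decide]
        exact Nat.mem_divisors.2 ⟨hFdvd, by norm_num⟩
      simp only [Finset.mem_insert, Finset.mem_singleton] at hF9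
      rcases hF9 with e | e | e <;> rw [e] at hmod5 hFC
      · exact absurd hmod5 (by decide)
      · exact absurd hmod5 (by decide)
      · exact h9 hFC
    set D := closure {x : G | x ∈ U ∧ x ^ 3 = 1} with hDdef
    have hDU : D ≤ U := (closure_le _).2 fun x hx => hx.1
    have hdD : (d : G) ∈ D := subset_closure ⟨d.2, by
      have : d ^ 3 = 1 := by rw [← hd, pow_orderOf_eq_one]
      exact congrArg Subtype.val this⟩
    have heD : e ∈ D := subset_closure ⟨heU, he3⟩
    have hDne : D ≠ ⊥ := fun h0 => hed (by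
      rw [h0, mem_bot] at heD
      rw [heD]
      exact one_mem _)
    have hVD : V ≤ normalizer (D : Set G) := by
      refine sup_le (fun k hk => ?_) fun u hu => ?_
      · rw [mem_normalizer_iff]
        intro x
        constructor <;> intro hx
        · rwa [show k * x * k⁻¹ = x by rw [(hKU k hk x (hDU hx)).eq, mul_inv_cancel_right]]
        · have hx' := hx
          have hcm := hKU k hk _ (hDU hx)
          have : k * x * k⁻¹ = x := by
            have h1 : k⁻¹ * (k * x * k⁻¹) * k = x := by group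
            rw [← h1]
            calc k * (k⁻¹ * (k * x * k⁻¹) * k) * k⁻¹ = k * x * k⁻¹ := by group
              _ = k⁻¹ * (k * x * k⁻¹ * k) := by rw [← hcm.eq, inv_mul_cancel_left]
              _ = k⁻¹ * (k * x * k⁻¹) * k := by group
          rwa [this] at hx'
      · rw [mem_normalizer_iff_map_conj_eq, hDdef, MonoidHom.map_closure]
        congr 1
        ext x
        simp only [Set.mem_image, Set.mem_setOf_eq, MulEquiv.coe_toMonoidHom, MonoidHom.coe_coe, MulAut.conj_apply]
        constructor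
        · rintro ⟨w, ⟨hwU, hw3⟩, rfl⟩
          exact ⟨mul_mem (mul_mem hu hwU) (inv_mem hu), by rw [conj_pow, hw3, mul_one, mul_inv_cancel]⟩
        · rintro ⟨hxU, hx3⟩
          refine ⟨u⁻¹ * x * u, ⟨mul_mem (mul_mem (inv_mem hu) hxU) hu, ?_⟩, by group⟩
          rw [show u⁻¹ * x * u = u⁻¹ * x * (u⁻¹)⁻¹ by rw [inv_inv], conj_pow, hx3, mul_one, mul_inv_cancel]
    set W := A ⊓ normalizer (D : Set G) with hWdef
    have hVW : V ≤ W := le_inf hVA hVD
    have hWA : W ≠ A := by
      intro e'
      have hnA : A ≤ normalizer (D : Set G) := e' ▸ inf_le_right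
      have hfixall : ∀ x ∈ D, ∀ w : Ω, x • w = w := by
        intro x hx w
        by_cases hw : w = b
        · rw [hw]; exact hbA x (hUA (hDU hx))
        obtain ⟨g, hg, rfl⟩ := (horb y hy).2 w hw
        have h1 : g⁻¹ * x * g ∈ D := by
          simpa using (mem_normalizer_iff.1 (hnA (inv_mem hg)) x).1 hx
        have h2 := hUy _ (hDU h1)
        rwa [mul_smul, mul_smul, inv_smul_eq_iff] at h2
      have hcore : D ≤ M.normalCore := fun x hx g => by
        have h := QuotientGroup.eq.1 (hfixall x hx ((g⁻¹ : G) : G ⧸ M)).symm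
        simpa [mul_assoc] using h
      rcases (normalCore_normal M).eq_bot_or_eq_top with h0 | h0
      · exact hDne (le_bot_iff.1 (h0 ▸ hcore))
      · exact hMtop (eq_top_iff.2 (h0 ▸ normalCore_le M))
    have hWV : W = V := by
      obtain ⟨q, hq⟩ := card_dvd_of_le hVW
      have hd1 := card_dvd_of_le (inf_le_left : W ≤ A)
      rw [hq, hV, ← hU] at hd1
      have hq5 : q ∣ 5 := by
        have e1 : 15 * Nat.card U = 3 * Nat.card U * 5 := by ring
        rw [e1] at hd1
        exact (Nat.mul_dvd_mul_iff_left (by omega)).1 hd1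
      rcases (Nat.dvd_prime (by norm_num : Nat.Prime 5)).1 hq5 with rfl | rfl
      · exact (eq_of_le_of_card_ge hVW (by omega)).symm
      · exact absurd (eq_of_le_of_card_ge (inf_le_left : W ≤ A) (by rw [hq, hV, ← hU]; omega)) hWA
    obtain ⟨g, hgA, rfl⟩ := (horb y hy).2 z hz
    have hgW : g ∈ W := by
      refine ⟨hgA, ?_⟩
      have hinv : g⁻¹ ∈ normalizer (D : Set G) := by
        rw [mem_normalizer_iff_map_conj_eq]
        refine eq_of_le_of_card_ge ?_ (Nat.card_congr (equivMapOfInjective D _ (MulEquiv.injective _)).toEquiv).le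
        rw [hDdef, MonoidHom.map_closure]
        refine closure_mono ?_
        rintro _ ⟨x, ⟨hxU, hx3⟩, rfl⟩
        have hx' := hzl x hx3 (hbA x (hUA hxU)) (hUy x hxU)
        simp only [Set.mem_setOf_eq, MulEquiv.coe_toMonoidHom, MonoidHom.coe_coe, MulAut.conj_apply, inv_inv]
        refine ⟨⟨A.mul_mem (A.mul_mem (A.inv_mem hgA) (hUA hxU)) hgA, ?_⟩, ?_⟩
        · show (g⁻¹ * x * g) • y = y
          rw [mul_smul, mul_smul, hx', inv_smul_smul]
        · rw [show g⁻¹ * x * g = g⁻¹ * x * (g⁻¹)⁻¹ by rw [inv_inv], conj_pow, hx3, mul_one, mul_inv_cancel]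
      simpa using inv_mem hinv
    rw [hWV] at hgW
    let f : zpowers c × U →* G := MonoidHom.noncommCoprod (zpowers c).subtype U.subtype
      fun k u => hKU k k.2 u u.2
    have hrange : (MonoidHom.noncommCoprod (zpowers c).subtype U.subtype
        fun k u => hKU k k.2 u u.2).range = V := by
      exact (MonoidHom.noncommCoprod_range _ _ _).trans (by rw [Subgroup.range_subtype, Subgroup.range_subtype, hVdef, hKdef])
    rw [← hrange] at hgW
    obtain ⟨⟨k, u⟩, hku⟩ := hgW
    change (k : G) * u = g at hku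
    obtain ⟨j, hj⟩ := mem_powers_iff_mem_zpowers.2 k.2
    refine ⟨j, ?_⟩
    rw [← hku, mul_smul, hUy u u.2]
    exact congrArg (fun v : G => v • y) hj.symm
  have hbline : ∀ y : Ω, b ∈ line G b y ∧ y ∈ line G b y := fun y =>
    ⟨fun d _ h1 _ => h1, fun d _ _ h2 => h2⟩
  have hline_eq : ∀ y : Ω, y ≠ b → ∀ z : Ω, z ≠ b → z ∈ line G b y → line G b z = line G b y := by
    intro y hy z hz hzy
    obtain ⟨j, rfl⟩ := (hline y hy z hz).1 hzy
    ext w
    by_cases hw : w = b
    · subst hw
      exact iff_of_true (hbline _).1 (hbline _).1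
    rw [hline y hy w hw, hline _ hz w hw]
    constructor
    · rintro ⟨k, rfl⟩; exact ⟨k + j, by rw [pow_add, mul_smul]⟩
    · rintro ⟨k, rfl⟩
      refine ⟨k + 2 * j, ?_⟩
      rw [← mul_smul, ← pow_add, show k + 2 * j + j = k + 3 * j by ring, pow_add, pow_mul, hc3, one_pow, mul_one]
  have hline_card : ∀ y : Ω, y ≠ b → Nat.card {z : Ω // z ∈ line G b y ∧ z ≠ b} = 3 := by
    intro y hy
    have hb : Function.Bijective (fun j : Fin 3 => (⟨(c ^ (j : ℕ)) • y,
        (hline y hy _ (hmove _ (pow_mem hcA _) y hy)).2 ⟨_, rfl⟩, hmove _ (pow_mem hcA _) y hy⟩ :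
        {z : Ω // z ∈ line G b y ∧ z ≠ b})) := by
      constructor
      · intro i j e
        have e' : (c ^ (i : ℕ)) • y = (c ^ (j : ℕ)) • y := congrArg Subtype.val e
        by_contra hij
        have key : ∀ i j : ℕ, i < j → j < 3 → (c ^ i) • y ≠ (c ^ j) • y := by
          intro i j hlt hj e
          rw [show j = i + (j - i) by omega, pow_add, mul_smul] at e
          have e2 := smul_left_cancel (c ^ i) e
          have h12 : j - i = 1 ∨ j - i = 2 := by omega
          rcases h12 with h1 | h1 <;> rw [h1] at e2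
          · rw [pow_one] at e2; exact hy (hcfix y e2.symm)
          · refine hy (hcfix y ?_)
            calc c • y = c • (c ^ 2) • y := by rw [← e2]
              _ = (c ^ 3) • y := by rw [← mul_smul, ← pow_succ']
              _ = y := by rw [hc3, one_smul]
        rcases Nat.lt_or_ge (i : ℕ) j with hlt | hge
        · exact key i j hlt j.2 e'
        · exact key j i (lt_of_le_of_ne hge fun e => hij (Fin.ext e.symm)) i.2 e'.symm
      · rintro ⟨z, hz, hzb⟩
        obtain ⟨j, rfl⟩ := (hline y hy z hzb).1 hz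
        refine ⟨⟨j % 3, Nat.mod_lt _ (by norm_num)⟩, Subtype.ext ?_⟩
        show (c ^ (j % 3)) • y = (c ^ j) • y
        rw [← hc, pow_mod_orderOf]
    rw [← Nat.card_congr (Equiv.ofBijective _ hb), Nat.card_fin]
  -- transport to any point
  have htrans : ∀ x : Ω, ∃ g : G, g • b = x := fun x => by
    induction x using QuotientGroup.induction_on with
    | _ k => exact ⟨k, by show ((k * 1 : G) : G ⧸ M) = _; rw [mul_one]⟩
  have hline' : ∀ x y z : Ω, y ≠ x → z ≠ x → z ∈ line G x y → line G x z = line G x y := by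
    intro x y z hy hz hzy
    obtain ⟨g, rfl⟩ := htrans x
    obtain ⟨y, rfl⟩ : ∃ y', y = g • y' := ⟨g⁻¹ • y, (smul_inv_smul g y).symm⟩
    obtain ⟨z, rfl⟩ : ∃ z', z = g • z' := ⟨g⁻¹ • z, (smul_inv_smul g z).symm⟩
    have h1 := hline_eq y (fun e => hy (by rw [e])) z (fun e => hz (by rw [e])) ((line_smul g b y z).1 hzy)
    ext w
    obtain ⟨w, rfl⟩ : ∃ w', w = g • w' := ⟨g⁻¹ • w, (smul_inv_smul g w).symm⟩
    rw [line_smul, line_smul, h1]
  have hcard' : ∀ x y : Ω, y ≠ x → Nat.card {z : Ω // z ∈ line G x y ∧ z ≠ x} = 3 := by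
    intro x y hy
    obtain ⟨g, rfl⟩ := htrans x
    obtain ⟨y, rfl⟩ : ∃ y', y = g • y' := ⟨g⁻¹ • y, (smul_inv_smul g y).symm⟩
    rw [← hline_card y (fun e => hy (by rw [e]))]
    refine Nat.card_congr (Equiv.subtypeEquiv (MulAction.toPerm g) fun w => ?_).symm
    show w ∈ line G b y ∧ w ≠ b ↔ g • w ∈ line G (g • b) (g • y) ∧ g • w ≠ g • b
    rw [line_smul]
    exact and_congr_right fun _ => (smul_left_cancel_iff g).not.symm
  have hmem2 : ∀ x y : Ω, x ∈ line G x y ∧ y ∈ line G x y := fun x y =>
    ⟨fun d _ h1 _ => h1, fun d _ _ h2 => h2⟩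
  let IsLine : Set Ω → Prop := fun S => ∃ x y : Ω, y ≠ x ∧ S = line G x y
  have huniq : ∀ S, IsLine S → ∀ z w : Ω, z ∈ S → w ∈ S → w ≠ z → S = line G z w := by
    rintro S ⟨x, y, hy, rfl⟩ z w hz hw hwz
    by_cases hzx : z = x
    · subst hzx
      exact (hline' z y w hy hwz hw).symm
    have e1 : line G z x = line G x y := by rw [line_comm, hline' x y z hy hzx hz]
    have hw' : w ∈ line G z x := e1 ▸ hw
    rw [hline' z x w (Ne.symm hzx) hwz hw', e1]
  have hpcard : ∀ (p : Ω) (S : Set Ω), IsLine S → p ∈ S → Nat.card {z : Ω // z ∈ S ∧ z ≠ p} = 3 := by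
    intro p S hS hp
    obtain ⟨x, y, hy, hSe⟩ := hS
    by_cases hpx : p = x
    · subst hpx; rw [hSe]; exact hcard' p y hy
    · have hx : x ∈ S := hSe ▸ (hmem2 x y).1
      rw [huniq S ⟨x, y, hy, hSe⟩ p x hp hx (Ne.symm hpx)]
      exact hcard' p x (Ne.symm hpx)
  have hne' : ∀ p : Ω, Nat.card {z : Ω // z ≠ p} = 15 := by
    intro p
    letI := Fintype.ofFinite Ω
    rw [Nat.card_eq_fintype_card, Fintype.card_subtype_compl, Fintype.card_subtype_eq,
      ← Nat.card_eq_fintype_card, hΩ]
  have hScard : ∀ S, IsLine S → Nat.card {z : Ω // z ∈ S} = 4 := by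
    rintro S ⟨x, y, hy, rfl⟩
    have h4 : Nat.card {z : Ω // z ∈ line G x y} = Nat.card {z : Ω // z ∈ line G x y ∧ z ≠ x} + 1 := by
      letI := Fintype.ofFinite Ω
      rw [Nat.card_eq_fintype_card, Nat.card_eq_fintype_card, Fintype.card_subtype, Fintype.card_subtype,
        ← Finset.filter_filter, Finset.filter_ne', Finset.card_erase_add_one
          (by simp [(hmem2 x y).1])]
    rw [h4, hcard' x y hy]
  -- parallel lines
  have hpar : ∀ (S T T' : Set Ω) (p : Ω), IsLine S → IsLine T → IsLine T' → p ∈ T → p ∈ T' →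
      p ∉ S → Disjoint S T → Disjoint S T' → T = T' := by
    intro S T T' p hS hT hT' hpT hpT' hpS hd hd'
    by_contra hne
    let F : {s : Ω // s ∈ S} ⊕ Bool → Set Ω := Sum.elim (fun s => line G p s.1) (fun i => if i then T else T')
    have hsp : ∀ s : {s : Ω // s ∈ S}, s.1 ≠ p := fun s e => hpS (e ▸ s.2)
    have hF : ∀ i, IsLine (F i) ∧ p ∈ F i := by
      rintro (s | b')
      · exact ⟨⟨p, s.1, hsp s, rfl⟩, (hmem2 p s.1).1⟩
      · cases b' <;> simp [F, hT, hT', hpT, hpT']
    have hmeet : ∀ i j, ∀ z, z ≠ p → z ∈ F i → z ∈ F j → F i = F j := fun i j z hz hi hj =>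
      (huniq _ (hF i).1 p z (hF i).2 hi hz).trans (huniq _ (hF j).1 p z (hF j).2 hj hz).symm
    have hFinj : Function.Injective F := by
      rintro (s | i) (s' | j) e
      · refine congrArg Sum.inl (Subtype.ext ?_)
        by_contra hss
        have hs' : s'.1 ∈ line G p s.1 := by
          change line G p s.1 = line G p s'.1 at e
          rw [e]; exact (hmem2 p s'.1).2
        have h1 : S = line G p s.1 :=
          (huniq S hS s.1 s'.1 s.2 s'.2 (fun e => hss e.symm)).trans
            (huniq _ (hF (.inl s)).1 s.1 s'.1 (hmem2 p s.1).2 hs' (fun e => hss e.symm)).symm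
        exact hpS (h1 ▸ (hmem2 p s.1).1)
      · exfalso
        have hs : s.1 ∈ F (.inl s) := (hmem2 p s.1).2
        rw [e] at hs
        cases j
        · exact Set.disjoint_left.1 hd' s.2 hs
        · exact Set.disjoint_left.1 hd s.2 hs
      · exfalso
        have hs : s'.1 ∈ F (.inl s') := (hmem2 p s'.1).2
        rw [← e] at hs
        cases i
        · exact Set.disjoint_left.1 hd' s'.2 hs
        · exact Set.disjoint_left.1 hd s'.2 hs
      · cases i <;> cases j
        · rfl
        · exact absurd e.symm hne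
        · exact absurd e hne
        · rfl
    have hle : Nat.card (Σ i, {z : Ω // z ∈ F i ∧ z ≠ p}) ≤ Nat.card {z : Ω // z ≠ p} := by
      refine Nat.card_le_card_of_injective (fun q => ⟨q.2.1, q.2.2.2⟩) ?_
      rintro ⟨i, z, hz, hzp⟩ ⟨j, w, hw, hwp⟩ e
      obtain rfl : z = w := congrArg Subtype.val e
      obtain rfl := hFinj (hmeet i j z hzp hz hw)
      rfl
    have hsum : Nat.card (Σ i, {z : Ω // z ∈ F i ∧ z ≠ p}) = 18 := by
      rw [Nat.card_congr ((Equiv.sigmaCongrRight fun i =>
        (Finite.equivFinOfCardEq (hpcard p (F i) (hF i).1 (hF i).2))).trans (Equiv.sigmaEquivProd _ _)),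
        Nat.card_prod, Nat.card_sum, hScard S hS, Nat.card_fin, Nat.card_eq_fintype_card, Fintype.card_bool]
    rw [hsum, hne'] at hle
    omega
  have hexists : ∀ S, IsLine S → b ∉ S → ∃ y, y ≠ b ∧ Disjoint S (line G b y) := by
    intro S hS hbS
    by_contra! hall
    have hle : Nat.card {z : Ω // z ≠ b} ≤
        Nat.card (Σ s : {s : Ω // s ∈ S}, {z : Ω // z ∈ line G b s.1 ∧ z ≠ b}) := by
      have hwit : ∀ y : {z : Ω // z ≠ b}, ∃ s : {s : Ω // s ∈ S}, y.1 ∈ line G b s.1 := by
        intro y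
        obtain ⟨s, hsS, hsl⟩ := Set.not_disjoint_iff.1 (hall y.1 y.2)
        refine ⟨⟨s, hsS⟩, ?_⟩
        rw [hline' b y.1 s y.2 (fun e => hbS (e ▸ hsS)) hsl]
        exact (hmem2 b y.1).2
      choose s hs using hwit
      refine Nat.card_le_card_of_injective (fun y => ⟨s y, y.1, hs y, y.2⟩) ?_
      intro y y' e
      exact Subtype.ext (congrArg (fun q : Σ s : {s : Ω // s ∈ S}, {z : Ω // z ∈ line G b s.1 ∧ z ≠ b} => q.2.1) e)
    have hsum : Nat.card (Σ s : {s : Ω // s ∈ S}, {z : Ω // z ∈ line G b s.1 ∧ z ≠ b}) = 12 := by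
      refine (Nat.card_congr ((Equiv.sigmaCongrRight fun s : {s : Ω // s ∈ S} =>
        (Finite.equivFinOfCardEq (hcard' b s.1 (fun e => hbS (e ▸ s.2))))).trans (Equiv.sigmaEquivProd _ _))).trans ?_
      rw [Nat.card_prod, hScard S hS, Nat.card_fin]
    rw [hsum, hne15] at hle
    omega
  let L := {S : Set Ω // IsLine S}
  letI : Setoid L :=
    { r := fun S T => S.1 = T.1 ∨ Disjoint S.1 T.1
      iseqv := by
        refine ⟨fun S => Or.inl rfl, ?_, ?_⟩
        · intro S T hST
          rcases hST with e | e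
          · exact Or.inl e.symm
          · exact Or.inr e.symm
        · intro S T U h1 h2
          rcases h1 with e | h1
          · rw [e]; exact h2
          rcases h2 with e | h2
          · rw [← e]; exact Or.inr h1
          by_cases hdis : Disjoint S.1 U.1
          · exact Or.inr hdis
          obtain ⟨q, hqS, hqU⟩ := Set.not_disjoint_iff.1 hdis
          exact Or.inl (hpar T.1 S.1 U.1 q T.2 S.2 U.2 hqS hqU
            (fun hq => Set.disjoint_left.1 h1 hqS hq) h1.symm h2) }
  let Q := Quotient ‹Setoid L›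
  let cls : {z : Ω // z ≠ b} → Q := fun y => ⟦⟨line G b y.1, b, y.1, y.2, rfl⟩⟧
  have hcls : ∀ q : Q, ∃ y, cls y = q := by
    intro q
    induction q using Quotient.inductionOn with
    | _ S =>
      obtain ⟨x, y, hy, hSe⟩ := S.2
      by_cases hbS : b ∈ S.1
      · obtain ⟨w, hw, hwb⟩ : ∃ w ∈ S.1, w ≠ b := by
          by_cases hxb : x = b
          · exact ⟨y, hSe ▸ (hmem2 x y).2, hxb ▸ hy⟩
          · exact ⟨x, hSe ▸ (hmem2 x y).1, hxb⟩
        exact ⟨⟨w, hwb⟩, Quotient.sound (Or.inl (huniq S.1 S.2 b w hbS hw hwb).symm)⟩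
      · obtain ⟨w, hwb, hd⟩ := hexists S.1 S.2 hbS
        exact ⟨⟨w, hwb⟩, Quotient.sound (Or.inr hd.symm)⟩
  haveI : Finite L := Subtype.finite
  have hQ : Nat.card Q * 3 ≤ 15 := by
    choose r hr using hcls
    rw [← hne15, show (3 : ℕ) = Nat.card (Fin 3) from (Nat.card_fin 3).symm, ← Nat.card_prod]
    refine Nat.card_le_card_of_injective
      (fun q => ⟨(c ^ (q.2 : ℕ)) • (r q.1).1, hmove _ (pow_mem hcA _) _ (r q.1).2⟩) ?_
    rintro ⟨q, i⟩ ⟨q', i'⟩ e
    have e' : (c ^ (i : ℕ)) • (r q).1 = (c ^ (i' : ℕ)) • (r q').1 := congrArg Subtype.val e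
    have h1 : line G b (r q).1 = line G b (r q').1 := by
      rw [← hline' b _ ((c ^ (i : ℕ)) • (r q).1) (r q).2 (hmove _ (pow_mem hcA _) _ (r q).2)
          ((hline _ (r q).2 _ (hmove _ (pow_mem hcA _) _ (r q).2)).2 ⟨_, rfl⟩),
        ← hline' b _ ((c ^ (i' : ℕ)) • (r q').1) (r q').2 (hmove _ (pow_mem hcA _) _ (r q').2)
          ((hline _ (r q').2 _ (hmove _ (pow_mem hcA _) _ (r q').2)).2 ⟨_, rfl⟩), e']
    have hq : q = q' := by
      rw [← hr q, ← hr q']
      exact Quotient.sound (Or.inl h1)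
    subst hq
    refine Prod.ext rfl ?_
    by_contra hii
    have hbij := hline_card (r q).1 (r q).2
    have key : ∀ i j : ℕ, i < j → j < 3 → (c ^ i) • (r q).1 ≠ (c ^ j) • (r q).1 := by
      intro i j hlt hj e
      rw [show j = i + (j - i) by omega, pow_add, mul_smul] at e
      have e2 := smul_left_cancel (c ^ i) e
      have h12 : j - i = 1 ∨ j - i = 2 := by omega
      rcases h12 with h1 | h1 <;> rw [h1] at e2
      · rw [pow_one] at e2; exact (r q).2 (hcfix _ e2.symm)
      · refine (r q).2 (hcfix _ ?_)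
        calc c • (r q).1 = c • (c ^ 2) • (r q).1 := by rw [← e2]
          _ = (c ^ 3) • (r q).1 := by rw [← mul_smul, ← pow_succ']
          _ = (r q).1 := by rw [hc3, one_smul]
    rcases Nat.lt_or_ge (i : ℕ) i' with hlt | hge
    · exact key i i' hlt i'.2 e'
    · exact key i' i (lt_of_le_of_ne hge fun e => hii (Fin.ext e.symm)) i.2 e'.symm
  have himg : ∀ (g : G) (S : L), IsLine ((fun z => g • z) '' S.1) := by
    rintro g ⟨S, x, y, hy, rfl⟩
    refine ⟨g • x, g • y, fun e => hy (smul_left_cancel g e), ?_⟩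
    ext w
    constructor
    · rintro ⟨z, hz, rfl⟩; exact (line_smul g x y z).2 hz
    · intro hw
      exact ⟨g⁻¹ • w, (line_smul g x y _).1 (by rwa [smul_inv_smul]), smul_inv_smul g w⟩
  let T : G → Q → Q := fun g => Quotient.map (fun S => ⟨_, himg g S⟩) (by
    intro S S' hSS
    rcases hSS with e | e
    · exact Or.inl (congrArg (Set.image fun z => g • z) e)
    · exact Or.inr ((Set.disjoint_image_iff (MulAction.injective g)).2 e))
  letI : MulAction G Q :=
    { smul := T
      one_smul := fun q => by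
        induction q using Quotient.inductionOn with
        | _ S => exact Quotient.sound (Or.inl (by simp))
      mul_smul := fun g g' q => by
        induction q using Quotient.inductionOn with
        | _ S =>
          refine Quotient.sound (Or.inl ?_)
          show (fun z => (g * g') • z) '' S.1 = (fun z => g • z) '' ((fun z => g' • z) '' S.1)
          rw [Set.image_image]
          exact congrArg (fun φ => φ '' S.1) (funext fun z => mul_smul g g' z) }
  let π := MulAction.toPermHom G Q
  rcases (inferInstance : π.ker.Normal).eq_bot_or_eq_top with hk | hk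
  · have hle := Nat.card_le_card_of_injective π ((MonoidHom.ker_eq_bot_iff π).1 hk)
    rw [h, Nat.card_perm] at hle
    have h5 := Nat.factorial_le (show Nat.card Q ≤ 5 by omega)
    have := hle.trans h5
    norm_num [Nat.factorial] at this
  · obtain ⟨y₀, hy₀⟩ : ∃ y : Ω, y ≠ b :=
      ⟨_, ((Nat.card_pos_iff.1 (by rw [hne15]; norm_num : 0 < Nat.card {z : Ω // z ≠ b})).1.some).2⟩
    obtain ⟨y₁, hy₁, hy₁l⟩ : ∃ y : Ω, y ≠ b ∧ y ∉ line G b y₀ := by
      by_contra! hall
      have hle := Nat.card_le_card_of_injective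
        (fun z : {z : Ω // z ≠ b} => (⟨z.1, hall z.1 z.2, z.2⟩ : {z : Ω // z ∈ line G b y₀ ∧ z ≠ b}))
        (fun u v e => Subtype.ext (congrArg (fun w : {z : Ω // z ∈ line G b y₀ ∧ z ≠ b} => w.1) e))
      rw [hne15, hline_card y₀ hy₀] at hle
      omega
    obtain ⟨g, hgA, hgy⟩ := (horb y₀ hy₀).2 y₁ hy₁
    have hg : g ∈ π.ker := hk ▸ mem_top g
    have hfix : T g (cls ⟨y₀, hy₀⟩) = cls ⟨y₀, hy₀⟩ :=
      congrArg (fun σ : Equiv.Perm Q => σ (cls ⟨y₀, hy₀⟩)) (MonoidHom.mem_ker.1 hg)
    have h1 : y₁ ∈ (fun z => g • z) '' line G b y₀ := ⟨y₀, (hmem2 b y₀).2, hgy⟩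
    have h2 : b ∈ (fun z => g • z) '' line G b y₀ := ⟨b, (hmem2 b y₀).1, hbA g hgA⟩
    rcases Quotient.exact hfix with e | e
    · have e' : (fun z => g • z) '' line G b y₀ = line G b y₀ := e
      exact hy₁l (e' ▸ h1)
    · exact Set.disjoint_left.1 e h2 (hmem2 b y₀).1

end Cfsg.Agent.Lib.SmallSimple.PlaneSixteen
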