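import Cfsg.Agent.Lib.SmallSimple.Basic

/-!
Points moved by an element which centralises a subgroup of prime order, in coset actions of simple groups.
-/

set_option autoImplicit false

namespace Cfsg.Agent.Lib.SmallSimple

open scoped Pointwise
open Subgroup

variable {G : Type*} [Group G]

/-- The points moved by `c` form a set of cardinality divisible by `p` when `a` of order dividing `p`
commutes with `c` and all its fixed points are fixed by `c`. -/
theorem dvd_card_moved {Ω : Type*} [MulAction G Ω] [Finite Ω] {p : ℕ} [hp : Fact p.Prime] {a c : G}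
    (hac : Commute a c) (ha : a ^ p = 1) (hfix : ∀ ω : Ω, a • ω = ω → c • ω = ω) :
    p ∣ Nat.card {ω : Ω // c • ω ≠ ω} := by
  let M : SubMulAction (zpowers a) Ω :=
    { carrier := {ω | c • ω ≠ ω}
      smul_mem' := by
        rintro ⟨g, hg⟩ ω hω h
        obtain ⟨k, rfl⟩ := mem_zpowers_iff.1 hg
        refine hω ?_
        have h1 : c • (a ^ k) • ω = (a ^ k) • c • ω := by
          rw [← mul_smul, ← mul_smul, ((hac.zpow_left k).symm).eq]
        have h2 : c • (a ^ k) • ω = (a ^ k) • ω := h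
        rw [h1] at h2
        exact smul_left_cancel _ h2 }
  have hP : IsPGroup p (zpowers a) := fun g => ⟨1, by
    obtain ⟨k, hk⟩ := mem_zpowers_iff.1 g.2
    apply Subtype.ext
    rw [pow_one, SubmonoidClass.coe_pow, ← hk, ← zpow_natCast (a ^ k), ← zpow_mul, mul_comm, zpow_mul,
      zpow_natCast, ha, one_zpow]; rfl⟩
  have hempty : IsEmpty (MulAction.fixedPoints (zpowers a) M) := ⟨fun ω => by
    have h := congrArg Subtype.val (ω.2 ⟨a, mem_zpowers a⟩)
    exact ω.1.2 (hfix _ h)⟩
  have h : Nat.card M ≡ 0 [MOD p] := by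
    have := hP.card_modEq_card_fixedPoints M
    rwa [Nat.card_of_isEmpty (α := MulAction.fixedPoints (zpowers a) M)] at this
  exact Nat.modEq_zero_iff_dvd.1 h

theorem card_moved_add_fixed {Ω : Type*} [MulAction G Ω] [Finite Ω] (c : G) :
    Nat.card {ω : Ω // c • ω ≠ ω} + Nat.card {ω : Ω // c • ω = ω} = Nat.card Ω := by
  classical
  rw [add_comm, ← Nat.card_sum, Nat.card_congr (Equiv.sumCompl fun ω : Ω => c • ω = ω)]

variable [Finite G] {p : ℕ} [hp : Fact p.Prime]

/-- Two subgroups of order `p` of `H` are conjugate in `H` when `p ^ 2` does not divide `|G|`. -/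
theorem exists_conj_of_card_prime {P P' H : Subgroup G} (hsq : ¬ p ^ 2 ∣ Nat.card G)
    (hP : Nat.card P = p) (hP' : Nat.card P' = p) (hPH : P ≤ H) (hPH' : P' ≤ H) :
    ∃ h ∈ H, ∀ z, z ∈ P' → h⁻¹ * z * h ∈ P := by
  have hcard : ∀ Q : Subgroup G, Nat.card Q = p → Q ≤ H →
      Nat.card (Q.subgroupOf H) = p ^ (Nat.card H).factorization p := by
    intro Q hQ hQH
    rw [Nat.card_congr (subgroupOfEquivOfLe hQH).toEquiv, hQ]
    have h0 : p ∣ Nat.card H := hQ ▸ card_dvd_of_le hQH
    have h1 : 1 ≤ (Nat.card H).factorization p := hp.out.factorization_pos_of_dvd Nat.card_pos.ne' h0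
    have h2 : (Nat.card H).factorization p ≤ 1 := by
      by_contra hlt
      exact hsq (((hp.out.pow_dvd_iff_le_factorization Nat.card_pos.ne').2 (by omega : 2 ≤ _)).trans
        H.card_subgroup_dvd_card)
    rw [le_antisymm h2 h1, pow_one]
  let A := Sylow.ofCard (P.subgroupOf H) (hcard P hP hPH)
  let B := Sylow.ofCard (P'.subgroupOf H) (hcard P' hP' hPH')
  obtain ⟨h, hh⟩ := MulAction.exists_smul_eq H A B
  refine ⟨h, h.2, fun z hz => ?_⟩
  have hz' : (⟨z, hPH' hz⟩ : H) ∈ (B : Subgroup H) := mem_subgroupOf.2 hz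
  rw [← hh] at hz'
  have h2 : ((MulAut.conj h)⁻¹ • (⟨z, hPH' hz⟩ : H)) ∈ (A : Subgroup H) :=
    mem_pointwise_smul_iff_inv_smul_mem.1 hz'
  have h3 := mem_subgroupOf.1 h2
  simpa using h3

/-- The elements of a coset fixed by `P` come from the normaliser of `P`. -/
theorem exists_normalizer_mul {P H : Subgroup G} (hsq : ¬ p ^ 2 ∣ Nat.card G)
    (hP : Nat.card P = p) (hPH : P ≤ H) {g : G} (hg : ∀ z ∈ P, g⁻¹ * z * g ∈ H) :
    ∃ n ∈ normalizer (P : Set G), g⁻¹ * n ∈ H := by
  have hP' : Nat.card ↥(MulAut.conj g⁻¹ • P) = p :=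
    (Nat.card_congr (equivSMul _ P).toEquiv.symm).trans hP
  have hle : MulAut.conj g⁻¹ • P ≤ H := by
    intro z hz
    obtain ⟨w, hw, rfl⟩ := hz
    simpa using hg w hw
  obtain ⟨h, hh, hconj⟩ := exists_conj_of_card_prime hsq hP hP' hPH hle
  refine ⟨g * h, ?_, by simpa using hh⟩
  have hsub : ∀ z ∈ P, (g * h)⁻¹ * z * (g * h) ∈ P := fun z hz => by
    have := hconj (g⁻¹ * z * g) ⟨z, hz, by simp⟩
    simpa [mul_assoc] using this
  have hinv : (g * h)⁻¹ ∈ normalizer (P : Set G) := by
    rw [mem_normalizer_iff_map_conj_eq]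
    refine eq_of_le_of_card_ge (map_le_iff_le_comap.2 fun z hz => ?_) ?_
    · simpa [mul_assoc] using hsub z hz
    · exact (Nat.card_congr (equivMapOfInjective P _ (MulEquiv.injective _)).toEquiv).le
  simpa using inv_mem hinv

variable [IsSimpleGroup G]

/-- A nontrivial element of prime order `r ≠ p` centralising `P` moves a multiple of `pr` cosets of a
proper subgroup `H`, provided its conjugates under `N(P)` lie in `H`. -/
theorem moved_facts {P H : Subgroup G} (hsq : ¬ p ^ 2 ∣ Nat.card G) (hP : Nat.card P = p) (hPH : P ≤ H)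
    (hH : H ≠ ⊤) {c : G} {r : ℕ} (hr : r.Prime) (hrp : r ≠ p) (hc : orderOf c = r)
    (hcP : c ∈ centralizer (P : Set G))
    (hn : ∀ n ∈ normalizer (P : Set G), n⁻¹ * c * n ∈ H) :
    p * r ∣ Nat.card {ω : G ⧸ H // c • ω ≠ ω} ∧ 0 < Nat.card {ω : G ⧸ H // c • ω ≠ ω} ∧
      Nat.card {ω : G ⧸ H // c • ω ≠ ω} + Nat.card {ω : G ⧸ H // c • ω = ω} = H.index := by
  haveI : Fact r.Prime := ⟨hr⟩
  haveI : IsCyclic P := isCyclic_of_prime_card hP
  obtain ⟨a, ha⟩ := (Subgroup.isCyclic_iff_exists_zpowers_eq_top P).1 inferInstance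
  have haP : a ∈ P := ha ▸ mem_zpowers a
  have hap : a ^ p = 1 := by
    have h : (⟨a, haP⟩ : P) ^ Nat.card P = 1 := pow_card_eq_one'
    rw [hP] at h
    exact congrArg Subtype.val h
  have hac : Commute a c := mem_centralizer_iff.1 hcP a haP
  refine ⟨(Nat.Coprime.mul_dvd_of_dvd_of_dvd
    ((Nat.coprime_primes hp.out hr).2 (Ne.symm hrp)) (dvd_card_moved hac hap ?_)
    (dvd_card_moved (Commute.refl c) (by rw [← hc]; exact pow_orderOf_eq_one c) fun ω h => h)), ?_, ?_⟩
  · intro ω hω
    induction ω using QuotientGroup.induction_on with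
    | _ g =>
      have h1 : g⁻¹ * a * g ∈ H := by
        have h := QuotientGroup.eq.1 (hω.symm : (g : G ⧸ H) = ((a * g : G) : G ⧸ H))
        simpa [mul_assoc] using h
      obtain ⟨n, hnN, hgn⟩ := exists_normalizer_mul hsq hP hPH (g := g) fun z hz => by
        rw [← ha] at hz
        obtain ⟨k, rfl⟩ := mem_zpowers_iff.1 hz
        have := zpow_mem h1 k
        rwa [show g⁻¹ * a * g = g⁻¹ * a * (g⁻¹)⁻¹ by rw [inv_inv], conj_zpow, inv_inv] at this
      rw [show ((g : G ⧸ H)) = (n : G ⧸ H) from QuotientGroup.eq.2 hgn]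
      show ((c * n : G) : G ⧸ H) = (n : G ⧸ H)
      refine (QuotientGroup.eq.2 ?_).symm
      simpa [mul_assoc] using hn n hnN
  · by_contra h0
    have hempty : ∀ ω : G ⧸ H, c • ω = ω := fun ω => by
      by_contra hω
      exact h0 (Nat.card_pos_iff.2 ⟨⟨⟨ω, hω⟩⟩, inferInstance⟩)
    have hcore : c ∈ H.normalCore := fun g => by
      have h := QuotientGroup.eq.1 (hempty ((g⁻¹ : G) : G ⧸ H)).symm
      simpa [mul_assoc] using h
    rcases (normalCore_normal H).eq_bot_or_eq_top with h | h
    · rw [h, mem_bot] at hcore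
      rw [hcore, orderOf_one] at hc
      exact hr.one_lt.ne hc
    · exact hH (eq_top_iff.2 (h ▸ normalCore_le H))
  · rw [card_moved_add_fixed, index_eq_card]

omit [IsSimpleGroup G] in
/-- If `H` is too small to hold `p + 1` conjugates of `P` then it holds only one. -/
theorem unique_of_card_lt {P P' C H : Subgroup G} (hsq : ¬ p ^ 2 ∣ Nat.card G) (hP : Nat.card P = p)
    (hP' : Nat.card P' = p) (hPC : P ≤ C) (hC : C ≤ normalizer (P : Set G)) (hCH : C ≤ H)
    (hPH' : P' ≤ H) (hlt : Nat.card H < Nat.card C * (p + 1)) : P' = P := by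
  have hPH : P ≤ H := hPC.trans hCH
  obtain ⟨h, hh, hconj⟩ := exists_conj_of_card_prime hsq hP hP' hPH hPH'
  have hone : (normalizer ((P.subgroupOf H : Subgroup H) : Set H)).index = 1 := by
    have hcard : Nat.card (P.subgroupOf H) = p ^ (Nat.card H).factorization p := by
      rw [Nat.card_congr (subgroupOfEquivOfLe hPH).toEquiv, hP]
      have h0 : p ∣ Nat.card H := hP ▸ card_dvd_of_le hPH
      have h1 := hp.out.factorization_pos_of_dvd (Nat.card_pos (α := H)).ne' h0
      have h2 : (Nat.card H).factorization p ≤ 1 := by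
        by_contra hlt
        exact hsq (((hp.out.pow_dvd_iff_le_factorization Nat.card_pos.ne').2 (by omega : 2 ≤ _)).trans
          H.card_subgroup_dvd_card)
      rw [le_antisymm h2 h1, pow_one]
    let A := Sylow.ofCard (P.subgroupOf H) hcard
    have hn := A.card_eq_index_normalizer
    have hmod := card_sylow_modEq_one p H
    have hle : C.subgroupOf H ≤ normalizer ((P.subgroupOf H : Subgroup H) : Set H) := by
      intro x hx
      rw [mem_normalizer_iff]
      intro z
      simp only [mem_subgroupOf, Subgroup.coe_mul, Subgroup.coe_inv]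
      exact mem_normalizer_iff.1 (hC (mem_subgroupOf.1 hx)) _
    have h1 := index_antitone hle
    have h2 := (C.subgroupOf H).card_mul_index
    rw [Nat.card_congr (subgroupOfEquivOfLe hCH).toEquiv] at h2
    have h3 : (C.subgroupOf H).index < p + 1 :=
      Nat.lt_of_mul_lt_mul_left (a := Nat.card C) (by rw [h2]; exact hlt)
    rw [hn] at hmod
    change (normalizer ((P.subgroupOf H : Subgroup H) : Set H)).index ≡ 1 [MOD p] at hmod
    rcases Nat.lt_or_ge (normalizer ((P.subgroupOf H : Subgroup H) : Set H)).index p with hlt' | hge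
    · rw [Nat.ModEq, Nat.mod_eq_of_lt hlt', Nat.mod_eq_of_lt hp.out.one_lt] at hmod
      exact hmod
    · have : (normalizer ((P.subgroupOf H : Subgroup H) : Set H)).index = p := by omega
      rw [this, Nat.ModEq, Nat.mod_self, Nat.mod_eq_of_lt hp.out.one_lt] at hmod
      exact absurd hmod (by norm_num)
  have htop := index_eq_one.1 hone
  refine eq_of_le_of_card_ge (fun z hz => ?_) (by rw [hP, hP'])
  have h1 := hconj z hz
  have h2 : (⟨h, hh⟩ : H) ∈ normalizer ((P.subgroupOf H : Subgroup H) : Set H) := htop ▸ mem_top _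
  have h3 := (mem_normalizer_iff.1 h2 ⟨h⁻¹ * z * h, mul_mem (mul_mem (inv_mem hh) (hPH' hz)) hh⟩).1
    (mem_subgroupOf.2 h1)
  simpa [mem_subgroupOf, mul_assoc] using h3

omit [IsSimpleGroup G] in
/-- The situation `|N(P)| = 8p`, `|C(P)| = 4p`: an involution of `C(P)` centralises another conjugate
of `P` and all of `C(P)`. -/
theorem exists_involution_two_conjugates {P : Subgroup G} (hp2 : p ≠ 2) (hP : Nat.card P = p)
    (hN : Nat.card (normalizer (P : Set G)) = 8 * p) (hC : Nat.card (centralizer (P : Set G)) = 4 * p)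
    (h16 : 16 ∣ Nat.card G) :
    ∃ x ∈ centralizer (P : Set G), orderOf x = 2 ∧
      centralizer (P : Set G) ≤ centralizer ({x} : Set G) ∧
      ∃ P' : Subgroup G, Nat.card P' = p ∧ P' ≠ P ∧ P' ≤ centralizer ({x} : Set G) := by
  haveI : Fact (Nat.Prime 2) := ⟨Nat.prime_two⟩
  set N := normalizer (P : Set G) with hNdef
  set C := centralizer (P : Set G) with hCdef
  have hcop : p.Coprime 4 := Nat.Coprime.pow_right 2 ((Nat.coprime_primes hp.out Nat.prime_two).2 hp2)
  haveI : IsCyclic P := isCyclic_of_prime_card hP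
  have hPC : P ≤ C := le_centralizer P
  have hCN : C ≤ N := by
    intro g hg
    rw [mem_normalizer_iff]
    intro z
    constructor
    · intro hz
      rw [← mem_centralizer_iff.1 hg z hz, mul_inv_cancel_right]; exact hz
    · intro hz
      have h2 := mem_centralizer_iff.1 hg _ hz
      rw [inv_mul_cancel_right] at h2
      rwa [← mul_left_cancel h2] at hz
  obtain ⟨T, hT⟩ := Sylow.exists_subgroup_card_pow_prime (G := C) 2 (n := 2)
    (by rw [hC]; exact Dvd.intro p rfl)
  set T' : Subgroup G := T.map C.subtype with hT'def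
  have hT'C : T' ≤ C := map_subtype_le T
  have hT' : Nat.card T' = 4 := by
    rw [Nat.card_congr (equivMapOfInjective T _ C.subtype_injective).toEquiv.symm, hT]; norm_num
  have hTcomm : IsMulCommutative T' := IsPGroup.isMulCommutative_of_card_eq_prime_sq (p := 2) (by rw [hT']; norm_num)
  have hCT : C ≤ centralizer (T' : Set G) := by
    have h1 : C = P ⊔ T' := by
      refine (eq_of_le_of_card_ge (sup_le hPC hT'C) ?_).symm
      refine Nat.le_of_dvd Nat.card_pos ?_
      rw [hC, mul_comm]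
      exact Nat.Coprime.mul_dvd_of_dvd_of_dvd hcop
        (hP ▸ card_dvd_of_le le_sup_left) (hT' ▸ card_dvd_of_le le_sup_right)
    rw [h1]
    refine sup_le ?_ (le_centralizer_iff_isMulCommutative.2 hTcomm)
    exact le_centralizer_iff.1 hT'C
  obtain ⟨U, hU, hTU⟩ := Sylow.exists_subgroup_card_pow_succ (G := N) (p := 2) (n := 2)
    (H := T'.subgroupOf N) (by rw [hN]; exact Dvd.intro p rfl)
    (by rw [Nat.card_congr (subgroupOfEquivOfLe (hT'C.trans hCN)).toEquiv, hT']; norm_num)
  set U' : Subgroup G := U.map N.subtype with hU'def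
  have hU'N : U' ≤ N := map_subtype_le U
  have hU'c : Nat.card U' = 8 := by
    rw [Nat.card_congr (equivMapOfInjective U _ N.subtype_injective).toEquiv.symm, hU]; norm_num
  have hTU' : T' ≤ U' := fun t ht => ⟨⟨t, hCN (hT'C ht)⟩, hTU (mem_subgroupOf.2 ht), rfl⟩
  obtain ⟨V, hV, hUV⟩ := Sylow.exists_subgroup_card_pow_succ (G := normalizer (U' : Set G)) (p := 2) (n := 3)
    (H := U'.subgroupOf (normalizer (U' : Set G))) (by
      obtain ⟨S, hS⟩ := Sylow.exists_subgroup_card_pow_succ (G := G) (p := 2) (n := 3) (H := U')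
        h16 (by rw [hU'c]; norm_num)
      have hn : (U'.subgroupOf S).Normal := Subgroup.normal_of_index_eq_minFac_card (by
        have h1 := (U'.subgroupOf S).card_mul_index
        rw [Nat.card_congr (subgroupOfEquivOfLe hS.2).toEquiv, hU'c, hS.1] at h1
        rw [hS.1]
        norm_num at h1 ⊢
        omega)
      have hle : S ≤ normalizer (U' : Set G) := (normal_subgroupOf_iff_le_normalizer hS.2).1 hn
      have := card_dvd_of_le hle
      rwa [hS.1] at this)
    (by rw [Nat.card_congr (subgroupOfEquivOfLe le_normalizer).toEquiv, hU'c]; norm_num)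
  obtain ⟨y, hyV, hyU⟩ : ∃ y ∈ V, y ∉ U'.subgroupOf (normalizer (U' : Set G)) := by
    by_contra! h
    have := card_le_of_le (show V ≤ U'.subgroupOf _ from h)
    rw [hV, Nat.card_congr (subgroupOfEquivOfLe le_normalizer).toEquiv, hU'c] at this
    norm_num at this
  have hyN : (y : G) ∉ N := by
    intro hy
    have hle : V.map (normalizer (U' : Set G)).subtype ⊓ N ≤ U' := by
      have hU'le : U' ≤ V.map (normalizer (U' : Set G)).subtype ⊓ N :=
        le_inf (fun u hu => ⟨⟨u, le_normalizer hu⟩, hUV (mem_subgroupOf.2 hu), rfl⟩) hU'N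
      refine (eq_of_le_of_card_ge hU'le ?_).ge
      have h1 := card_dvd_of_le (inf_le_left : V.map (normalizer (U' : Set G)).subtype ⊓ N ≤ _)
      have h2 := card_dvd_of_le (inf_le_right : V.map (normalizer (U' : Set G)).subtype ⊓ N ≤ _)
      rw [Nat.card_congr (equivMapOfInjective V _ (normalizer (U' : Set G)).subtype_injective).toEquiv.symm,
        hV] at h1
      rw [hN] at h2
      have h3 : Nat.gcd (2 ^ (3 + 1)) (8 * p) = 8 := by
        rw [show (2 : ℕ) ^ (3 + 1) = 8 * 2 from rfl, Nat.gcd_mul_left,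
          (Nat.coprime_primes Nat.prime_two hp.out).2 (Ne.symm hp2)]
      rw [hU'c]
      exact Nat.le_of_dvd (by norm_num) (h3 ▸ Nat.dvd_gcd h1 h2)
    exact hyU (mem_subgroupOf.2 (hle ⟨mem_map_of_mem _ hyV, hy⟩))
  -- two subgroups of index two in `U'` meet
  obtain ⟨x, hxT, hxy, hx1⟩ : ∃ x ∈ T', (y : G)⁻¹ * x * y ∈ T' ∧ x ≠ 1 := by
    by_contra! h
    have hle : T'.map (MulAut.conj (y : G)).toMonoidHom ≤ U' := by
      rintro _ ⟨t, ht, rfl⟩
      exact (mem_normalizer_iff.1 y.2 t).1 (hTU' ht)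
    have hinj : Function.Injective (fun s : T' × T'.map (MulAut.conj (y : G)).toMonoidHom =>
        (⟨(s.1 : G) * s.2, mul_mem (hTU' s.1.2) (hle s.2.2)⟩ : U')) := by
      intro s s' hs
      have h1 : (s.1 : G) * s.2 = s'.1 * s'.2 := congrArg Subtype.val hs
      have h2 : (s'.1 : G)⁻¹ * s.1 = (s'.2 : G) * (s.2 : G)⁻¹ := by
        rw [eq_mul_inv_iff_mul_eq, mul_assoc, h1, inv_mul_cancel_left]
      have h3 : (s'.1 : G)⁻¹ * s.1 = 1 := by
        refine h _ (mul_mem (inv_mem s'.1.2) s.1.2) ?_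
        rw [h2]
        obtain ⟨t, ht, htt⟩ := mul_mem s'.2.2 (inv_mem s.2.2)
        rw [← htt]
        simpa [mul_assoc] using ht
      refine Prod.ext (Subtype.ext (inv_mul_eq_one.1 h3).symm) (Subtype.ext ?_)
      rw [h3] at h2
      exact (mul_inv_eq_one.1 h2.symm).symm
    have := Nat.card_le_card_of_injective _ hinj
    rw [Nat.card_prod, Nat.card_congr (equivMapOfInjective T' _ (MulEquiv.injective _)).toEquiv.symm,
      hT', hU'c] at this
    norm_num at this
  obtain ⟨j, hj⟩ : ∃ j : ℕ, orderOf (x ^ j) = 2 := by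
    have h4 : orderOf x ∣ 4 := hT' ▸ orderOf_dvd_natCard _ hxT
    have h1 : orderOf x ≠ 1 := fun h => hx1 (orderOf_eq_one_iff.1 h)
    have := Nat.le_of_dvd (by norm_num) h4
    refine ⟨orderOf x / 2, ?_⟩
    rw [orderOf_pow' x (by interval_cases h : orderOf x <;> simp_all)]
    interval_cases h : orderOf x <;> simp_all
  refine ⟨x ^ j, hT'C (pow_mem hxT j), hj, ?_, P.map (MulAut.conj (y : G)).toMonoidHom, ?_, ?_, ?_⟩
  · intro g hg
    rw [mem_centralizer_singleton_iff]
    exact (mem_centralizer_iff.1 (hCT hg) _ (pow_mem hxT j)).symm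
  · rw [Nat.card_congr (equivMapOfInjective P _ (MulEquiv.injective _)).toEquiv.symm, hP]
  · intro h
    exact hyN (mem_normalizer_iff_map_conj_eq.2 h)
  · rintro _ ⟨z, hz, rfl⟩
    rw [mem_centralizer_singleton_iff]
    have h2 : (y : G)⁻¹ * x ^ j * y ∈ T' := by
      have := pow_mem hxy j
      rwa [show (y : G)⁻¹ * x * y = (y : G)⁻¹ * x * ((y : G)⁻¹)⁻¹ by rw [inv_inv], conj_pow,
        inv_inv] at this
    have h3 := mem_centralizer_iff.1 (hT'C h2) z hz
    show (y : G) * z * (y : G)⁻¹ * x ^ j = x ^ j * ((y : G) * z * (y : G)⁻¹)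
    calc (y : G) * z * (y : G)⁻¹ * x ^ j = (y : G) * (z * ((y : G)⁻¹ * x ^ j * y)) * (y : G)⁻¹ := by group
      _ = (y : G) * ((y : G)⁻¹ * x ^ j * y * z) * (y : G)⁻¹ := by rw [h3]
      _ = x ^ j * ((y : G) * z * (y : G)⁻¹) := by group

end Cfsg.Agent.Lib.SmallSimple
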