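import Cfsg.Agent.Lib.SmallSimple.FixedPointTools

/-!
A simple group of order 5040 would have self-centralising Sylow 7-subgroups with normaliser of order 42
(helper17).
-/

set_option autoImplicit false
set_option linter.unusedSectionVars false

namespace Cfsg.Agent.Lib.SmallSimple.Order5040

open Subgroup

variable {G : Type*} [Group G] [Finite G] [IsSimpleGroup G]

theorem not_comm (h : Nat.card G = 5040) : ¬ IsMulCommutative G :=
  not_isMulCommutative_of_card (by rw [h]; norm_num)

theorem eight_le_index (h : Nat.card G = 5040) {H : Subgroup G} (hH : H ≠ ⊤) : 8 ≤ H.index := by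
  have hd := two_mul_card_dvd_factorial (not_comm h) H hH
  have h0 : H.index ≠ 0 := index_ne_zero_of_finite
  rw [h] at hd
  by_contra hlt
  interval_cases hi : H.index
  all_goals first | (exact absurd rfl h0) | (norm_num [Nat.factorial] at hd)

theorem centralizer_ne_top (h : Nat.card G = 5040) {x : G} (hx : x ≠ 1) :
    centralizer ({x} : Set G) ≠ ⊤ := by
  intro ht
  have hc : x ∈ center G := mem_center_iff.2 fun g =>
    mem_centralizer_singleton_iff.1 (ht ▸ mem_top g)
  rcases (inferInstance : (center G).Normal).eq_bot_or_eq_top with hb | hb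
  · exact hx (by rwa [hb, mem_bot] at hc)
  · exact not_comm h (center_eq_top_iff.1 hb)

theorem moved_add_fixed (H : Subgroup G) (x : G) :
    Nat.card {ω : G ⧸ H // x • ω ≠ ω} + Nat.card {ω : G ⧸ H // x • ω = ω} = H.index := by
  rw [card_moved_add_fixed, index_eq_card]

/-- Conjugates by the normaliser stay in the centraliser. -/
theorem conj_mem_centralizer {P : Subgroup G} {c n : G} (hc : c ∈ centralizer (P : Set G))
    (hn : n ∈ normalizer (P : Set G)) : n⁻¹ * c * n ∈ centralizer (P : Set G) := by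
  refine mem_centralizer_iff.2 fun z hz => ?_
  have h1 := mem_centralizer_iff.1 hc (n * z * n⁻¹) ((mem_normalizer_iff.1 hn z).1 hz)
  calc z * (n⁻¹ * c * n) = n⁻¹ * ((n * z * n⁻¹) * c) * n := by group
    _ = n⁻¹ * (c * (n * z * n⁻¹)) * n := by rw [h1]
    _ = n⁻¹ * c * n * z := by group

/-- An element of order 5 is sent to itself or its inverse by an element acting with trivial square. -/
theorem act_five {q s : G} (hq : orderOf q = 5) (hs : s * q * s⁻¹ ∈ zpowers q)
    (hs2 : s * (s * q * s⁻¹) * s⁻¹ = q) : s * q * s⁻¹ = q ∨ s * q * s⁻¹ = q⁻¹ := by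
  classical
  have hqf : IsOfFinOrder q := isOfFinOrder_of_finite q
  rw [IsOfFinOrder.mem_zpowers_iff_mem_range_orderOf hqf, hq] at hs
  obtain ⟨j, hj, hjq⟩ := Finset.mem_image.1 hs
  rw [Finset.mem_range] at hj
  have hjj : q ^ (j * j) = q := by
    rw [← hjq, conj_pow.symm, ← hjq, ← pow_mul] at hs2
    exact hs2
  have hmod : j * j % 5 = 1 := by
    have h1 : q ^ (j * j) = q ^ 1 := by rw [pow_one]; exact hjj
    rw [pow_eq_pow_iff_modEq, hq] at h1
    exact h1
  rw [← hjq]
  interval_cases j
  · omega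
  · exact Or.inl (pow_one q)
  · omega
  · omega
  · refine Or.inr (eq_inv_of_mul_eq_one_left ?_)
    rw [← pow_succ, show 4 + 1 = orderOf q from hq.symm, pow_orderOf_eq_one]

/-- Two elements of order two acting in the same nontrivial way on `q`: the product centralises `q`. -/
theorem mul_commute_five {q x c : G} (hq : orderOf q = 5) (hx : x * x = 1) (hc : c * c = 1)
    (hxq : x * q * x⁻¹ ∈ zpowers q) (hcq : c * q * c⁻¹ ∈ zpowers q)
    (hx' : ¬ Commute x q) (hc' : ¬ Commute c q) : Commute (x * c) q := by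
  have key : ∀ s : G, s * s = 1 → s * q * s⁻¹ ∈ zpowers q → ¬ Commute s q → s * q * s⁻¹ = q⁻¹ := by
    intro s hs hsq hs'
    refine (act_five hq hsq ?_).resolve_left fun he => hs' (mul_inv_eq_iff_eq_mul.1 he)
    rw [show s * (s * q * s⁻¹) * s⁻¹ = (s * s) * q * (s * s)⁻¹ by group, hs, one_mul, inv_one, mul_one]
  refine mul_inv_eq_iff_eq_mul.1 ?_
  calc x * c * q * (x * c)⁻¹ = x * (c * q * c⁻¹) * x⁻¹ := by group
    _ = (x * q * x⁻¹)⁻¹ := by rw [key c hc hcq hc']; group
    _ = q := by rw [key x hx hxq hx', inv_inv]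

/-- The case `n₇ = 36` does not occur. -/
theorem case36 (h : Nat.card G = 5040) [Fact (Nat.Prime 7)] (P : Subgroup G) (hP : Nat.card P = 7)
    (hN : Nat.card ↥(normalizer (P : Set G)) = 140) (hC : Nat.card ↥(centralizer (P : Set G)) = 70) :
    False := by
  classical
  haveI : Fact (Nat.Prime 5) := ⟨Nat.prime_five⟩
  haveI : Fact (Nat.Prime 2) := ⟨Nat.prime_two⟩
  haveI : IsCyclic P := isCyclic_of_prime_card hP
  have hG := not_comm h
  set N := normalizer (P : Set G) with hNdef
  set C := centralizer (P : Set G) with hCdef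
  have hCN : C ≤ N := centralizer_le_normalizer _
  have hPC : P ≤ C := le_centralizer _
  have hPN : P ≤ N := le_normalizer
  have hsq7 : ¬ 7 ^ 2 ∣ Nat.card G := by rw [h]; norm_num
  have hsq5 : ¬ 5 ^ 2 ∣ Nat.card G := by rw [h]; norm_num
  have hNi : N.index = 36 := by
    have := N.card_mul_index
    rw [hN, h] at this; omega
  have hC2 : (C.subgroupOf N).index = 2 := by
    have := (C.subgroupOf N).card_mul_index
    rw [Nat.card_congr (subgroupOfEquivOfLe hCN).toEquiv, hC, hN] at this; omega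
  have oddC : ∀ y ∈ N, Odd (orderOf y) → y ∈ C := by
    intro y hy ⟨k, hk⟩
    have hz := sq_mem_of_index_two hC2 (⟨y, hy⟩ ^ (k + 1) : N)
    rw [← pow_mul, mem_subgroupOf, SubmonoidClass.coe_pow,
      show (k + 1) * 2 = orderOf y + 1 by omega, pow_succ, pow_orderOf_eq_one, one_mul] at hz
    exact hz
  obtain ⟨q', hq'⟩ := exists_prime_orderOf_dvd_card' (G := C) 5 (by rw [hC]; norm_num)
  set q : G := (q' : G) with hqdef
  have hq : orderOf q = 5 := by rw [hqdef, Subgroup.orderOf_coe, hq']
  have hqC : q ∈ C := q'.2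
  set Qs := zpowers q with hQsdef
  have hQs : Nat.card Qs = 5 := by rw [hQsdef, Nat.card_zpowers, hq]
  have hQC : Qs ≤ C := zpowers_le.2 hqC
  set NQ := normalizer (Qs : Set G) with hNQdef
  have hCQ : C ≤ NQ := by
    have hr := relIndex_normalizer_modEq hsq5 hQs hQC
    have hsup : P ⊔ Qs ≤ C ⊓ NQ := by
      refine sup_le (le_inf hPC ?_) (le_inf hQC le_normalizer)
      exact le_trans (le_centralizer_iff.1 hQC) (centralizer_le_normalizer _)
    have h7 : 7 ∣ Nat.card ↥(C ⊓ NQ) := hP ▸ card_dvd_of_le (le_sup_left.trans hsup)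
    have h5 : 5 ∣ Nat.card ↥(C ⊓ NQ) := hQs ▸ card_dvd_of_le (le_sup_right.trans hsup)
    have hm := relIndex_mul_relIndex (⊥ : Subgroup G) (C ⊓ NQ) C bot_le inf_le_left
    rw [relIndex_bot_left, relIndex_bot_left, inf_relIndex_left, hC] at hm
    obtain ⟨u, hu⟩ : 35 ∣ Nat.card ↥(C ⊓ NQ) := Nat.Coprime.mul_dvd_of_dvd_of_dvd (by norm_num : Nat.Coprime 5 7) h5 h7
    rw [hu] at hm
    refine relIndex_eq_one.1 ?_
    rw [← hNQdef] at hr
    have hle : NQ.relIndex C ≤ 2 := by
      rcases Nat.eq_zero_or_pos u with h0 | h0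
      · rw [h0] at hm; omega
      · nlinarith
    omega
  have uniq5 : ∀ y ∈ C, orderOf y = 5 → zpowers y = Qs := by
    intro y hy hy5
    have hY : Nat.card (zpowers y) = 5 := by rw [Nat.card_zpowers, hy5]
    obtain ⟨g, hg, hconj⟩ := exists_conj_of_card_prime hsq5 hQs hY hQC (zpowers_le.2 hy)
    refine eq_of_le_of_card_ge (fun z hz => ?_) (by rw [hQs, hY])
    have h1 := (mem_normalizer_iff.1 (hCQ hg) _).1 (hconj z hz)
    simpa [mul_assoc] using h1
  have uniqN5 : ∀ y ∈ N, orderOf y = 5 → zpowers y = Qs := fun y hy hy5 =>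
    uniq5 y (oddC y hy (hy5 ▸ by decide)) hy5
  have hNNQ : N ≤ NQ := by
    intro n hn
    refine mem_normalizer_iff_map_conj_eq.2 ?_
    rw [hQsdef, MonoidHom.map_zpowers, ← hQsdef]
    refine uniqN5 _ ?_ ?_
    · exact N.mul_mem (N.mul_mem hn (hCN hqC)) (N.inv_mem hn)
    · simpa [hq] using (MulAut.conj n).orderOf_eq q
  have hNQ : NQ = N := by
    let S : Sylow 5 G := Sylow.ofCard Qs (by
      rw [hQs, h, show (5040 : ℕ) = 5 ^ 1 * 1008 from rfl, Nat.factorization_mul (by norm_num) (by norm_num),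
        Finsupp.add_apply, Nat.prime_five.factorization_pow, Finsupp.single_eq_same,
        Nat.factorization_eq_zero_of_not_dvd (by norm_num), add_zero]
      norm_num)
    have hS : (S : Subgroup G) = Qs := Sylow.coe_ofCard _ _
    obtain ⟨h1, h2, -⟩ := card_sylow_facts (p := 5) hG (by rw [h]; norm_num)
    have hne : NQ ≠ ⊤ := by
      intro ht
      exact sylow_normalizer_ne_top hG S (by rw [h]; norm_num) (by rw [hS]; exact ht)
    rw [card_sylow_eq_index S, hS, ← hNQdef] at h2
    have h8 := eight_le_index h hne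
    obtain ⟨u, hu⟩ := hN ▸ card_dvd_of_le hNNQ
    have hi := NQ.card_mul_index
    rw [hu, h] at hi
    refine (eq_of_le_of_card_ge hNNQ ?_).symm
    rw [hu, hN]
    have hu36 : u * NQ.index = 36 := by
      rw [mul_assoc] at hi; omega
    have : u ≤ 4 := by nlinarith
    interval_cases u <;> omega
  have qfix : ∀ ω : G ⧸ N, q • ω = ω → ω = ((1 : G) : G ⧸ N) := by
    intro ω hω
    induction ω using QuotientGroup.induction_on with
    | _ g =>
      have hmem : g⁻¹ * q * g ∈ N := by
        have h' := QuotientGroup.eq.1 hω.symm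
        simpa [mul_assoc] using h'
      have hz := uniqN5 _ hmem (by simpa [hq] using (MulAut.conj g⁻¹).orderOf_eq q)
      have hg : g⁻¹ ∈ NQ := by
        refine mem_normalizer_iff_map_conj_eq.2 ?_
        rw [hQsdef, MonoidHom.map_zpowers, ← hQsdef]
        simpa using hz
      rw [hNQ] at hg
      exact QuotientGroup.eq.2 (by simpa using hg)
  have hqpow : q ^ 5 = 1 := by rw [← hq, pow_orderOf_eq_one]
  have dvd5 : ∀ x ∈ N, Commute x q → 5 ∣ Nat.card {ω : G ⧸ N // x • ω ≠ ω} := fun x hx hxq =>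
    dvd_card_moved hxq.symm hqpow fun ω hω => by
      rw [qfix ω hω]
      exact (QuotientGroup.eq (s := N)).2 (by simpa using N.inv_mem hx)
  have hperf := commutator_eq_top hG
  have hNne : N ≠ ⊤ := fun ht => by rw [ht, index_top] at hNi; omega
  have hnoinv : ∀ x ∈ N, orderOf x = 2 → ¬ Commute x q := by
    intro x hx hx2 hxq
    have hx21 : x ^ 2 = 1 := by rw [← hx2, pow_orderOf_eq_one]
    have h4 := four_dvd_card_moved hperf (Ω := G ⧸ N) hx21
    have h5 := dvd5 x hx hxq
    have hsum := moved_add_fixed N x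
    rw [hNi] at hsum
    by_cases hxC : x ∈ C
    · obtain ⟨h14, hpos, -⟩ := moved_facts hsq7 hP hPN hNne Nat.prime_two (by norm_num) hx2 hxC
        fun n hn => N.mul_mem (N.mul_mem (N.inv_mem hn) hx) hn
      omega
    · have hfree : ∀ a : P, ∀ ω : G ⧸ N, ω ≠ ((1 : G) : G ⧸ N) → (a : G) • ω = ω → a = 1 := by
        intro a ω hne hω
        by_contra ha
        refine hne ?_
        induction ω using QuotientGroup.induction_on with
        | _ g =>
          have hgen : zpowers a = ⊤ := zpowers_eq_top_of_prime_card hP ha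
          have hmem : g⁻¹ * (a : G) * g ∈ N := by
            have h' := QuotientGroup.eq.1 hω.symm
            simpa [mul_assoc] using h'
          obtain ⟨n, hn, hgn⟩ := exists_normalizer_mul hsq7 hP hPN (g := g) fun z hz => by
            obtain ⟨k, hk⟩ := mem_zpowers_iff.1 (hgen ▸ mem_top (⟨z, hz⟩ : P))
            have hk' : z = (a : G) ^ k := by simpa using (congrArg Subtype.val hk).symm
            have := zpow_mem hmem k
            rwa [show g⁻¹ * (a : G) * g = g⁻¹ * (a : G) * (g⁻¹)⁻¹ by rw [inv_inv], conj_zpow, inv_inv,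
              ← hk'] at this
          have hgN : g ∈ N := by
            have := N.mul_mem hn (N.inv_mem hgn)
            simpa using this
          exact QuotientGroup.eq.2 (by simpa using hgN)
      have hb := fixed_mul_le_of_free hP (fun ω : G ⧸ N => ω ≠ ((1 : G) : G ⧸ N)) hfree hx hxC
      rw [hNi] at hb
      have hle : Nat.card {ω : G ⧸ N // x • ω = ω} ≤
          Nat.card {ω : G ⧸ N // x • ω = ω ∧ ω ≠ ((1 : G) : G ⧸ N)} + 1 := by
        rw [← Finite.card_option]
        refine Nat.card_le_card_of_injective (fun ω => if hω : ω.1 = ((1 : G) : G ⧸ N) then none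
          else some ⟨ω.1, ω.2, hω⟩) ?_
        rintro ⟨ω, hω⟩ ⟨ω', hω'⟩ he
        by_cases h1 : ω = ((1 : G) : G ⧸ N) <;> by_cases h2 : ω' = ((1 : G) : G ⧸ N) <;>
          simp_all
      omega
  obtain ⟨c', hc'⟩ := exists_prime_orderOf_dvd_card' (G := C) 2 (by rw [hC]; norm_num)
  set c : G := (c' : G) with hcdef
  have hc : orderOf c = 2 := by rw [hcdef, Subgroup.orderOf_coe, hc']
  have hcC : c ∈ C := c'.2
  have mul_self : ∀ x : G, orderOf x = 2 → x * x = 1 := fun x hx => by
    rw [← pow_two, ← hx, pow_orderOf_eq_one]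
  have act : ∀ x ∈ N, x * q * x⁻¹ ∈ zpowers q := fun x hx =>
    (mem_normalizer_iff.1 (hNNQ hx) q).1 (mem_zpowers q)
  have hcq := hnoinv c (hCN hcC) hc
  have oddW : ∀ w ∈ N, Commute w q → Odd (orderOf w) := by
    intro w hw hwq
    rw [← Nat.not_even_iff_odd]
    rintro ⟨k, hk⟩
    have hk0 : k ≠ 0 := by
      rintro rfl
      exact (orderOf_pos w).ne' (by omega)
    refine hnoinv (w ^ k) (N.pow_mem hw k) ?_ (hwq.pow_left k)
    rw [orderOf_pow' w hk0, hk, Nat.gcd_eq_right ⟨2, by ring⟩, ← two_mul,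
      Nat.mul_div_cancel _ (Nat.pos_of_ne_zero hk0)]
  have inQ : ∀ x ∈ N, orderOf x = 2 → x * c ∈ Qs := by
    intro x hx hx2
    have hw : Commute (x * c) q := mul_commute_five hq (mul_self x hx2) (mul_self c hc) (act x hx)
      (act c (hCN hcC)) (hnoinv x hx hx2) hcq
    have hwN : x * c ∈ N := N.mul_mem hx (hCN hcC)
    have hwodd := oddW _ hwN hw
    have hwC : x * c ∈ C := oddC _ hwN hwodd
    set w := x * c with hwdef
    have hw35 : orderOf w ∣ 70 := hC ▸ C.orderOf_dvd_natCard hwC
    have hcwc : c * w * c⁻¹ = w⁻¹ := by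
      rw [hwdef, inv_eq_of_mul_eq_one_right (mul_self c hc), _root_.mul_inv_rev,
        inv_eq_of_mul_eq_one_right (mul_self c hc), inv_eq_of_mul_eq_one_right (mul_self x hx2),
        mul_assoc, mul_assoc, mul_self c hc, mul_one]
    have hw7 : w ^ 5 ∈ P := by
      have h1 : orderOf (w ^ 5) ∣ 7 := by
        refine orderOf_dvd_of_pow_eq_one ?_
        rw [← pow_mul]
        refine orderOf_dvd_iff_pow_eq_one.1 ?_
        exact Nat.Coprime.dvd_of_dvd_mul_left (Nat.coprime_two_right.2 hwodd) (show orderOf w ∣ 2 * (5 * 7) from hw35)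
      rcases (Nat.dvd_prime (by norm_num)).1 h1 with h1 | h1
      · rw [orderOf_eq_one_iff.1 h1]; exact P.one_mem
      · obtain ⟨g, hg, hconj⟩ := exists_conj_of_card_prime hsq7 hP (P' := zpowers (w ^ 5))
          (by rw [Nat.card_zpowers, h1]) hPC (zpowers_le.2 (C.pow_mem hwC 5))
        have h2 := hconj _ (mem_zpowers (w ^ 5))
        have h3 := mem_centralizer_iff.1 hg _ h2
        have : w ^ 5 = g⁻¹ * w ^ 5 * g := by
          calc w ^ 5 = g * (g⁻¹ * w ^ 5 * g) * g⁻¹ := by group
            _ = _ := by rw [← h3]; group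
        exact this ▸ h2
    have hfix : c * w ^ 5 * c⁻¹ = w ^ 5 := by
      rw [← mem_centralizer_iff.1 hcC _ hw7, mul_inv_cancel_right]
    rw [← conj_pow, hcwc, inv_pow] at hfix
    have h10 : w ^ 10 = 1 := by
      rw [show (10 : ℕ) = 5 + 5 from rfl, pow_add]
      nth_rw 1 [← hfix]
      exact inv_mul_cancel _
    have h5 : orderOf w ∣ 5 :=
      Nat.Coprime.dvd_of_dvd_mul_left (Nat.coprime_two_right.2 hwodd) (show orderOf w ∣ 2 * 5 from
        orderOf_dvd_of_pow_eq_one h10)
    rcases (Nat.dvd_prime Nat.prime_five).1 h5 with h5 | h5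
    · rw [orderOf_eq_one_iff.1 h5]; exact Qs.one_mem
    · exact uniq5 w hwC h5 ▸ mem_zpowers w
  set X := {y : N // IsConj c (y : G)}
  have hXo : ∀ y : X, orderOf ((y.1 : N) : G) = 2 := fun y => by
    obtain ⟨k, hk⟩ := isConj_iff.1 y.2
    rw [← hk, ← hc]
    simpa using (MulAut.conj k).orderOf_eq c
  have hm5 : Nat.card X ≤ 5 := by
    rw [← hQs]
    refine Nat.card_le_card_of_injective (fun y : X => (⟨((y.1 : N) : G) * c, inQ _ y.1.2 (hXo y)⟩ : Qs)) ?_
    intro a b hab
    exact Subtype.ext (Subtype.ext (mul_right_cancel (congrArg Subtype.val hab)))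
  have h5m : 5 ≤ Nat.card X := by
    rw [← hQs]
    refine Nat.card_le_card_of_injective (fun a : Qs => (⟨⟨(a : G) * c * (a : G)⁻¹,
      N.mul_mem (N.mul_mem (hCN (hQC a.2)) (hCN hcC)) (N.inv_mem (hCN (hQC a.2)))⟩,
      isConj_iff.2 ⟨a, rfl⟩⟩ : X)) ?_
    intro a b hab
    have hab' : (a : G) * c * (a : G)⁻¹ = (b : G) * c * (b : G)⁻¹ :=
      congrArg (fun y : X => ((y.1 : N) : G)) hab
    by_contra hne
    have hne' : b⁻¹ * a ≠ 1 := fun h1 => hne (inv_mul_eq_one.1 h1).symm
    have hgen : zpowers (b⁻¹ * a) = ⊤ := zpowers_eq_top_of_prime_card hQs hne'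
    have hcm : Commute ((b⁻¹ * a : Qs) : G) c := by
      show (b : G)⁻¹ * a * c = c * ((b : G)⁻¹ * a)
      calc (b : G)⁻¹ * a * c = (b : G)⁻¹ * ((a : G) * c * (a : G)⁻¹) * a := by group
        _ = _ := by rw [hab']; group
    obtain ⟨k, hk⟩ := mem_zpowers_iff.1 (hgen ▸ mem_top (⟨q, mem_zpowers q⟩ : Qs))
    have hk' : q = ((b⁻¹ * a : Qs) : G) ^ k := by simpa using (congrArg Subtype.val hk).symm
    exact hcq (hk' ▸ (hcm.zpow_left k).symm)
  have hcount := card_centralizer_mul_eq c N
  change _ * Nat.card X = _ at hcount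
  rw [show Nat.card X = 5 by omega, hN] at hcount
  obtain ⟨h14, hpos, hsum⟩ := moved_facts hsq7 hP hPN hNne Nat.prime_two (by norm_num) hc hcC
    fun n hn => N.mul_mem (N.mul_mem (N.inv_mem hn) (hCN hcC)) hn
  have h4 := four_dvd_card_moved hperf (Ω := G ⧸ N) (x := c) (by rw [← hc, pow_orderOf_eq_one])
  change _ + _ = N.index at hsum
  rw [hNi] at hsum
  have hfix8 : Nat.card {ω : G ⧸ N // c • ω = ω} = 8 := by omega
  rw [hfix8] at hcount
  have hd := (centralizer ({c} : Set G)).card_subgroup_dvd_card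
  rw [h, show Nat.card ↥(centralizer ({c} : Set G)) = 224 by omega] at hd
  norm_num at hd

/-- The case `n₇ = 120` with a centraliser of order `7r`, `r ∈ {2, 3}`, does not occur. -/
theorem case120 (h : Nat.card G = 5040) [Fact (Nat.Prime 7)] (P : Subgroup G) (hP : Nat.card P = 7)
    (hN : Nat.card ↥(normalizer (P : Set G)) = 42) {r : ℕ} (hr : r = 2 ∨ r = 3)
    (hC : Nat.card ↥(centralizer (P : Set G)) = 7 * r) : False := by
  classical
  have hrp : r.Prime := by rcases hr with rfl | rfl <;> norm_num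
  haveI : Fact r.Prime := ⟨hrp⟩
  haveI : IsCyclic P := isCyclic_of_prime_card hP
  have hG := not_comm h
  set N := normalizer (P : Set G) with hNdef
  set C := centralizer (P : Set G) with hCdef
  have hCN : C ≤ N := centralizer_le_normalizer _
  have hPC : P ≤ C := le_centralizer _
  have hsq7 : ¬ 7 ^ 2 ∣ Nat.card G := by rw [h]; norm_num
  obtain ⟨c', hc'⟩ := exists_prime_orderOf_dvd_card' (G := C) r (by rw [hC]; exact dvd_mul_left r 7)
  set c : G := (c' : G) with hcdef
  have hc : orderOf c = r := by rw [hcdef, Subgroup.orderOf_coe, hc']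
  have hcC : c ∈ C := c'.2
  set H := centralizer ({c} : Set G) with hHdef
  have hPH : P ≤ H := fun z hz => mem_centralizer_singleton_iff.2 (mem_centralizer_iff.1 hcC z hz)
  have hCH : C ≤ H := by
    have h1 : P ⊔ zpowers c = C := by
      refine eq_of_le_of_card_ge (sup_le hPC (zpowers_le.2 hcC)) ?_
      rw [hC]
      refine Nat.le_of_dvd Nat.card_pos (Nat.Coprime.mul_dvd_of_dvd_of_dvd ?_
        (hP ▸ card_dvd_of_le le_sup_left) ?_)
      · rcases hr with rfl | rfl <;> norm_num
      · have := card_dvd_of_le (le_sup_right : zpowers c ≤ P ⊔ zpowers c)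
        rwa [Nat.card_zpowers, hc] at this
    rw [← h1]
    exact sup_le hPH (zpowers_le.2 (mem_centralizer_singleton_iff.2 rfl))
  have hc1 : c ≠ 1 := fun h1 => by rw [h1, orderOf_one] at hc; exact hrp.one_lt.ne hc
  have hHne := centralizer_ne_top h hc1
  obtain ⟨hdvd, hpos, hsum⟩ := moved_facts hsq7 hP hPH hHne hrp (by rcases hr with rfl | rfl <;> norm_num)
    hc hcC fun n hn => hCH (conj_mem_centralizer hcC hn)
  change _ + _ = H.index at hsum
  have hidx := H.card_mul_index
  rw [h] at hidx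
  have h8 := eight_le_index h hHne
  have hk := relIndex_normalizer_modEq hsq7 hP hPH
  change N.relIndex H % 7 = 1 at hk
  have hm := relIndex_mul_relIndex (⊥ : Subgroup G) (H ⊓ N) H bot_le inf_le_left
  rw [relIndex_bot_left, relIndex_bot_left, inf_relIndex_left] at hm
  have hu1 : Nat.card C ∣ Nat.card ↥(H ⊓ N) := card_dvd_of_le (le_inf hCH hCN)
  have hu2 : Nat.card ↥(H ⊓ N) ∣ Nat.card N := card_dvd_of_le inf_le_right
  rw [hC] at hu1
  rw [hN] at hu2
  set k := N.relIndex H
  set u := Nat.card ↥(H ⊓ N) with hudef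
  rw [← hm] at hidx
  rcases hr with rfl | rfl
  · -- the element has order two
    have hperf := commutator_eq_top hG
    have hNH : N ≤ H := by
      intro n hn
      refine mem_centralizer_singleton_iff.2 ?_
      set c₁ := n⁻¹ * c * n with hc₁
      have hc₁C : c₁ ∈ C := conj_mem_centralizer hcC hn
      have hc₁o : orderOf c₁ = 2 := by
        rw [hc₁, ← hc]
        simpa using (MulAut.conj n⁻¹).orderOf_eq c
      have hidx2 : (P.subgroupOf C).index = 2 := by
        have := (P.subgroupOf C).card_mul_index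
        rw [Nat.card_congr (subgroupOfEquivOfLe hPC).toEquiv, hP, hC] at this; omega
      have hnot : ∀ z : C, orderOf (z : G) = 2 → z ∉ P.subgroupOf C := by
        intro z hz hzP
        have := P.orderOf_dvd_natCard (mem_subgroupOf.1 hzP)
        rw [hz, hP] at this
        norm_num at this
      have hmem : c₁ * c ∈ P := by
        have := (mul_mem_iff_of_index_two hidx2 (a := (⟨c₁, hc₁C⟩ : C)) (b := ⟨c, hcC⟩)).2
          (iff_of_false (hnot _ hc₁o) (hnot _ hc))
        exact mem_subgroupOf.1 this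
      have hcom : Commute c₁ c := mem_centralizer_singleton_iff.1 (hCH hc₁C)
      have hsq : (c₁ * c) ^ 2 = 1 := by
        rw [hcom.mul_pow, ← hc₁o, pow_orderOf_eq_one, one_mul, hc₁o, ← hc, pow_orderOf_eq_one]
      have h1 : c₁ * c = 1 := by
        refine orderOf_eq_one_iff.1 (Nat.eq_one_of_dvd_coprimes (by norm_num : Nat.Coprime 2 7)
          (orderOf_dvd_of_pow_eq_one hsq) ?_)
        have := P.orderOf_dvd_natCard hmem
        rwa [hP] at this
      have h2 : c₁ = c := by
        rw [eq_inv_of_mul_eq_one_left h1]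
        exact inv_eq_of_mul_eq_one_right (by rw [← pow_two, ← hc, pow_orderOf_eq_one])
      calc n * c = n * c₁ := by rw [h2]
        _ = c * n := by rw [hc₁]; group
    have h4m := four_dvd_card_moved hperf (Ω := G ⧸ H) (x := c) (by rw [← hc, pow_orderOf_eq_one])
    have h4 := four_dvd_card_centralizer (by rw [h]; norm_num) hc
    rw [← hHdef, ← hm] at h4
    have hu : u = 42 := by rw [hudef, inf_eq_right.2 hNH, hN]
    rw [hu] at hidx h4
    have hk15 : k ≤ 15 := by nlinarith
    interval_cases k <;> omega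
  · have h9 : 9 ∣ Nat.card H := by
      haveI : Fact (Nat.Prime 3) := ⟨Nat.prime_three⟩
      have hzp : Nat.card ↥(zpowers c) = 3 ^ 1 := by rw [Nat.card_zpowers, hc, pow_one]
      obtain ⟨K, hK, hcK⟩ := Sylow.exists_subgroup_card_pow_succ (p := 3) (n := 1) (by rw [h]; norm_num) hzp
      have hKc : IsMulCommutative K := IsPGroup.isMulCommutative_of_card_eq_prime_sq (p := 3) hK
      have hle : K ≤ H := fun k hk => mem_centralizer_singleton_iff.2
        (congrArg Subtype.val (hKc.is_comm.comm ⟨k, hk⟩ ⟨c, hcK (mem_zpowers c)⟩))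
      simpa [hK] using card_dvd_of_le hle
    rw [← hm] at h9
    have hu' : u = 21 ∨ u = 42 := by
      obtain ⟨v, hv⟩ := hu1
      have := Nat.le_of_dvd (by norm_num) hu2
      have hv0 : 0 < u := Nat.card_pos
      have : v ≤ 2 := by omega
      interval_cases v <;> omega
    rcases hu' with hu | hu <;> rw [hu] at hidx h9
    · have hk30 : k ≤ 30 := by nlinarith
      interval_cases k <;> omega
    · have hk15 : k ≤ 15 := by nlinarith
      interval_cases k <;> omega

theorem sylow_seven (h : Nat.card G = 5040) [Fact (Nat.Prime 7)] (P : Subgroup G) (hP : Nat.card P = 7) :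
    centralizer (P : Set G) = P ∧ Nat.card ↥(normalizer (P : Set G)) = 42 := by
  classical
  haveI : IsCyclic P := isCyclic_of_prime_card hP
  have hG := not_comm h
  have hperf := commutator_eq_top hG
  let S : Sylow 7 G := Sylow.ofCard P (by
    rw [hP, h, show (5040 : ℕ) = 7 ^ 1 * 720 from rfl, Nat.factorization_mul (by norm_num) (by norm_num),
      Finsupp.add_apply, (by norm_num : Nat.Prime 7).factorization_pow, Finsupp.single_eq_same,
      Nat.factorization_eq_zero_of_not_dvd (by norm_num), add_zero]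
    norm_num)
  have hS : (S : Subgroup G) = P := Sylow.coe_ofCard _ _
  set N := normalizer (P : Set G) with hNdef
  set C := centralizer (P : Set G) with hCdef
  have hCN : C ≤ N := centralizer_le_normalizer _
  have hPC : P ≤ C := le_centralizer _
  have hsq : ¬ 7 ^ 2 ∣ Nat.card G := by rw [h]; norm_num
  obtain ⟨-, h2, -⟩ := card_sylow_facts (p := 7) hG (by rw [h]; norm_num)
  rw [card_sylow_eq_index S, hS, ← hNdef] at h2
  have hnle := not_normalizer_le_centralizer hG S (by rw [h]; norm_num)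
  rw [hS, ← hNdef, ← hCdef] at hnle
  have hNne : N ≠ ⊤ := by
    have := sylow_normalizer_ne_top hG S (by rw [h]; norm_num)
    rwa [hS] at this
  have h8 := eight_le_index h hNne
  have hmul := N.card_mul_index
  rw [h] at hmul
  obtain ⟨u, hu⟩ : 7 ∣ Nat.card N := hP ▸ card_dvd_of_le le_normalizer
  have hd : N.index ∣ 720 := by
    rw [hu, mul_assoc] at hmul
    exact ⟨u, by rw [mul_comm]; omega⟩
  obtain ⟨i, hi6, hNC⟩ := exists_normalizer_index P hP
  rw [← hNdef, ← hCdef] at hNC
  have hi1 : i ≠ 1 := by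
    rintro rfl
    refine hnle fun g hg => ?_
    rw [mul_one] at hNC
    exact (eq_of_le_of_card_ge hCN hNC.le).ge hg
  have hi' : i = 2 ∨ i = 3 ∨ i = 6 := by
    have := Nat.le_of_dvd (by norm_num) hi6
    interval_cases i <;> omega
  have hcases : N.index ∈ ({1, 8, 15, 36, 120} : Finset ℕ) := by
    rw [show ({1, 8, 15, 36, 120} : Finset ℕ) = (Nat.divisors 720).filter (· % 7 = 1) by decide +kernel]
    exact Finset.mem_filter.2 ⟨Nat.mem_divisors.2 ⟨hd, by norm_num⟩, h2⟩
  simp only [Finset.mem_insert, Finset.mem_singleton] at hcases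
  rcases hcases with hn | hn | hn | hn | hn
  · omega
  · exfalso
    rw [hn] at hmul
    haveI : Fact (Nat.Prime 3) := ⟨Nat.prime_three⟩
    obtain ⟨c, hc⟩ := exists_prime_orderOf_dvd_card' (G := C) 3 (by rcases hi' with rfl | rfl | rfl <;> omega)
    rw [← Subgroup.orderOf_coe] at hc
    obtain ⟨hdvd, hpos, hsum⟩ := moved_facts hsq hP le_normalizer hNne Nat.prime_three (by norm_num) hc c.2
      fun n hn => N.mul_mem (N.mul_mem (N.inv_mem hn) (hCN c.2)) hn
    change _ + _ = N.index at hsum
    omega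
  · exfalso
    rw [hn] at hmul
    haveI : Fact (Nat.Prime 2) := ⟨Nat.prime_two⟩
    obtain ⟨c, hc⟩ := exists_prime_orderOf_dvd_card' (G := C) 2 (by rcases hi' with rfl | rfl | rfl <;> omega)
    rw [← Subgroup.orderOf_coe] at hc
    obtain ⟨hdvd, hpos, hsum⟩ := moved_facts hsq hP le_normalizer hNne Nat.prime_two (by norm_num) hc c.2
      fun n hn => N.mul_mem (N.mul_mem (N.inv_mem hn) (hCN c.2)) hn
    have h4 := four_dvd_card_moved hperf (Ω := G ⧸ N) (x := (c : G)) (by rw [← hc, pow_orderOf_eq_one])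
    change Nat.card {ω : G ⧸ N // (c : G) • ω ≠ ω} + _ = N.index at hsum
    change 7 * 2 ∣ Nat.card {ω : G ⧸ N // (c : G) • ω ≠ ω} at hdvd
    change 0 < Nat.card {ω : G ⧸ N // (c : G) • ω ≠ ω} at hpos
    omega
  · exfalso
    rw [hn] at hmul
    obtain ⟨v, hv⟩ : 7 ∣ Nat.card C := hP ▸ card_dvd_of_le hPC
    exact case36 h P hP (show Nat.card N = 140 by omega)
      (show Nat.card C = 70 by rcases hi' with rfl | rfl | rfl <;> omega)
  · rw [hn] at hmul
    have hN42 : Nat.card N = 42 := by omega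
    refine ⟨?_, hN42⟩
    rcases hi' with rfl | rfl | rfl
    · exact (case120 h P hP hN42 (r := 3) (Or.inr rfl) (show Nat.card C = 7 * 3 by omega)).elim
    · exact (case120 h P hP hN42 (r := 2) (Or.inl rfl) (show Nat.card C = 7 * 2 by omega)).elim
    · exact (eq_of_le_of_card_ge hPC (by rw [hP]; omega)).symm

/-- Elements of order seven commute with no element of order two, three or five. -/
theorem not_commute_seven (h : Nat.card G = 5040) [Fact (Nat.Prime 7)] {a x : G} (ha : orderOf a = 7)
    (hx : orderOf x = 2 ∨ orderOf x = 3 ∨ orderOf x = 5) : ¬ Commute a x := by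
  intro hc
  have hP : Nat.card (zpowers a) = 7 := by rw [Nat.card_zpowers, ha]
  have hxC : x ∈ centralizer ((zpowers a : Subgroup G) : Set G) := mem_centralizer_iff.2 fun z hz => by
    obtain ⟨k, rfl⟩ := mem_zpowers_iff.1 hz
    exact (hc.zpow_left k).eq
  rw [(sylow_seven h _ hP).1] at hxC
  have := (zpowers a).orderOf_dvd_natCard hxC
  rw [hP] at this
  rcases hx with hx | hx | hx <;> rw [hx] at this <;> norm_num at this

end Cfsg.Agent.Lib.SmallSimple.Order5040
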