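import Cfsg.Agent.Lib.SmallSimple.Order168

/-!
The 168 elements of the simple group of order 168, as an explicit table of permutations.
-/

set_option autoImplicit false

namespace Cfsg.Agent.Lib.SmallSimple

/-- The indices: the two Bruhat cells. -/
abbrev Ix168 := (Fin 7 × Fin 3) ⊕ (Fin 7 × Fin 7 × Fin 3)

/-- The elements. -/
def el168 : Ix168 → Equiv.Perm Line7 :=
  Sum.elim (fun p => shift7 ^ p.1.val * dbl7 ^ p.2.val)
    (fun p => shift7 ^ p.1.val * inv7 * shift7 ^ p.2.1.val * dbl7 ^ p.2.2.val)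

lemma el168_mem (i : Ix168) : el168 i ∈ lineGroup := by
  have a : shift7 ∈ lineGroup := Subgroup.subset_closure (by simp)
  have b : dbl7 ∈ lineGroup := Subgroup.subset_closure (by simp)
  have c : inv7 ∈ lineGroup := Subgroup.subset_closure (by simp)
  rcases i with p | p
  · exact mul_mem (pow_mem a _) (pow_mem b _)
  · exact mul_mem (mul_mem (mul_mem (pow_mem a _) c) (pow_mem a _)) (pow_mem b _)

set_option maxHeartbeats 1000000 in
lemma el168_injective : Function.Injective el168 := by
  have h : ∀ i j, (el168 i none = el168 j none ∧ el168 i (some 0) = el168 j (some 0) ∧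
      el168 i (some 1) = el168 j (some 1)) → i = j := by decide +kernel
  exact fun i j e => h i j ⟨by rw [e], by rw [e], by rw [e]⟩

variable {G : Type*} [Group G] [Finite G] [IsSimpleGroup G]

/-- The elements of the group are the entries of the table. -/
theorem exists_table (hcard : Nat.card G = 168) :
    ∃ (φ : G →* Equiv.Perm Line7) (E : Ix168 ≃ G),
      Function.Injective φ ∧ ∀ i, φ (E i) = el168 i := by
  obtain ⟨φ, hinj, hr⟩ := exists_line_embedding hcard
  have hmem : ∀ i, ∃ g, φ g = el168 i := fun i => MonoidHom.mem_range.1 (hr ▸ el168_mem i)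
  choose E hE using hmem
  have hEi : Function.Injective E := fun i j e => el168_injective (by rw [← hE i, ← hE j, e])
  exact ⟨φ, Equiv.ofBijective E ((Nat.bijective_iff_injective_and_card E).2 ⟨hEi, by
    rw [hcard, Nat.card_eq_fintype_card]; rfl⟩), hinj, hE⟩

omit [Finite G] [IsSimpleGroup G] in
lemma card_setOf_table {φ : G →* Equiv.Perm Line7} {E : Ix168 ≃ G} (hE : ∀ i, φ (E i) = el168 i)
    (P : G → Prop) (Q : Equiv.Perm Line7 → Prop) [DecidablePred Q] (h : ∀ g, P g ↔ Q (φ g)) :
    Nat.card {g : G // P g} = (Finset.univ.filter fun i => Q (el168 i)).card := by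
  rw [← Fintype.card_subtype, ← Nat.card_eq_fintype_card]
  exact Nat.card_congr (E.subtypeEquiv fun i => by rw [h, hE]).symm

section facts
variable {φ : G →* Equiv.Perm Line7} (hφ : Function.Injective φ)
include hφ

omit [Finite G] [IsSimpleGroup G] in
lemma orderOf_eq_prime_table {p : ℕ} [Fact p.Prime] (g : G) :
    orderOf g = p ↔ φ g ^ p = 1 ∧ φ g ≠ 1 := by
  rw [orderOf_eq_prime_iff, ← hφ.eq_iff, map_pow, map_one, ← hφ.ne_iff (x := g), map_one]

omit [Finite G] [IsSimpleGroup G] in
lemma orderOf_eq_four_table (g : G) : orderOf g = 4 ↔ φ g ^ 4 = 1 ∧ φ g ^ 2 ≠ 1 := by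
  have e : ∀ n, φ g ^ n = 1 ↔ g ^ n = 1 := fun n => by rw [← hφ.eq_iff, map_pow, map_one]
  rw [ne_eq, e, e]
  constructor
  · intro h
    exact ⟨h ▸ pow_orderOf_eq_one g, fun h2 => by
      have := orderOf_dvd_of_pow_eq_one h2; rw [h] at this; exact absurd this (by decide)⟩
  · intro h
    have := Fact.mk Nat.prime_two
    exact orderOf_eq_prime_pow (p := 2) (n := 1) h.2 h.1

omit [Finite G] [IsSimpleGroup G] in
lemma isConj_table {E : Ix168 ≃ G} (hE : ∀ i, φ (E i) = el168 i) (g : G) (u : G) :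
    IsConj g u ↔ ∃ k, el168 k * φ g = φ u * el168 k := by
  rw [isConj_iff]
  constructor
  · rintro ⟨c, hc⟩
    obtain ⟨k, rfl⟩ := E.surjective c
    exact ⟨k, by rw [← hE k, ← map_mul, ← map_mul, ← hc, inv_mul_cancel_right]⟩
  · rintro ⟨k, hk⟩
    rw [← hE k, ← map_mul, ← map_mul, hφ.eq_iff] at hk
    exact ⟨E k, by rw [hk, mul_inv_cancel_right]⟩

end facts

end Cfsg.Agent.Lib.SmallSimple
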