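import Cfsg.Agent.Lib.SmallSimple.UnitaryThree168Data

/-!
A subgroup of `PSU₃(3)` isomorphic to `PSL₂(7)`.
-/

set_option autoImplicit false

namespace Cfsg.Agent.Lib.SmallSimple.UnitaryThree168

open Matrix

attribute [local irreducible] nX nY nW ix el168

theorem exists_hom (F : Type*) [Field F] [Fintype F] (hF : Fintype.card F = 9) :
    ∃ φ : R9 →+* F, Function.Injective φ := by
  haveI : Fact (Nat.Prime 3) := ⟨Nat.prime_three⟩
  obtain ⟨p, hp⟩ := CharP.exists F
  haveI := hp
  obtain ⟨n, hpp, hn⟩ := FiniteField.card F p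
  have hp3 : p = 3 := by
    rw [hF] at hn
    have h3 : (3 : ℕ) ∣ p ^ (n : ℕ) := hn ▸ (by norm_num)
    exact ((Nat.prime_dvd_prime_iff_eq Nat.prime_three hpp).1 (Nat.prime_three.dvd_of_dvd_pow h3)).symm
  subst hp3
  letI := ZMod.algebra F 3
  obtain ⟨w, hw⟩ : IsSquare (-1 : F) := FiniteField.isSquare_neg_one_iff.2 (by rw [hF]; norm_num)
  let L : R9 →ₐ[ZMod 3] F := QuadraticAlgebra.lift ⟨w, by
    rw [← hw, zero_smul, add_zero, Algebra.smul_def, mul_one, map_ofNat]
    have h3 : (3 : F) = 0 := by exact_mod_cast CharP.cast_eq_zero F 3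
    linear_combination (-1 : F) * h3⟩
  refine ⟨L.toRingHom, ?_⟩
  intro a b h
  by_contra hab
  have hd : ∀ x : R9, x ≠ 0 → ∃ y, x * y = 1 := by
    rintro ⟨u, v⟩ hx
    obtain ⟨s, t, hst⟩ := r9_inverse u v hx
    exact ⟨_, hst⟩
  obtain ⟨y, hy⟩ := hd (a - b) (sub_ne_zero.2 hab)
  have h1 := congrArg L.toRingHom hy
  rw [map_mul, map_sub, h, sub_self, zero_mul, map_one] at h1
  exact zero_ne_one h1

theorem exists_sub {F : Type*} [Field F] [Fintype F] (hF : Fintype.card F = 9) :
    ∃ f : lineGroup →* Cfsg.PSU 3 F 3, f ≠ 1 := by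
  classical
  obtain ⟨φ, hφ⟩ := exists_hom F hF
  let lift : ∀ M : M9, M.det = 1 → Matrix.SpecialLinearGroup (Fin 3) F := fun M h =>
    ⟨φ.mapMatrix M, by rw [← RingHom.map_det, h, map_one]⟩
  have hlift : ∀ (M : M9) (h : M.det = 1), M * (M.map fun x => x ^ 3)ᵀ = 1 →
      lift M h ∈ Cfsg.SU 3 F 3 := by
    intro M h hu u v
    have hM : (φ.mapMatrix M) * ((φ.mapMatrix M).map fun x => x ^ 3)ᵀ = 1 := by
      have := congrArg φ.mapMatrix hu
      rw [map_mul, map_one] at this
      rw [← this]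
      congr 1
      ext i j
      simp
    have hM' := mul_eq_one_comm.1 hM
    have hexp : ∀ i j, ∑ k, φ.mapMatrix M k i * (φ.mapMatrix M k j) ^ 3 = if i = j then 1 else 0 := by
      intro i j
      have := congrFun (congrFun hM' j) i
      rw [Matrix.mul_apply, Matrix.one_apply] at this
      simp only [Matrix.transpose_apply, Matrix.map_apply] at this
      simp only [eq_comm (a := i), ← this]
      exact Finset.sum_congr rfl fun k _ => mul_comm _ _
    haveI : ExpChar F 3 := by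
      obtain ⟨p, hp⟩ := CharP.exists F
      haveI := hp
      haveI : Fact (Nat.Prime 3) := ⟨Nat.prime_three⟩
      have h0 : (3 : F) = 0 := by
        have := congrArg φ r9_three
        rwa [map_ofNat, map_zero] at this
      have : CharP F 3 := by
        have hd : p ∣ 3 := (CharP.cast_eq_zero_iff F p 3).1 (by exact_mod_cast h0)
        rcases (Nat.dvd_prime Nat.prime_three).1 hd with rfl | rfl
        · exact absurd rfl (CharP.char_ne_one F 1)
        · exact hp
      exact ExpChar.prime Nat.prime_three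
    change Cfsg.hermForm 3 F 3 ((φ.mapMatrix M) *ᵥ u) ((φ.mapMatrix M) *ᵥ v) = _
    simp only [Cfsg.hermForm, Matrix.mulVec, dotProduct, Fin.sum_univ_three,
      add_pow_expChar, mul_pow]
    have e00 := hexp 0 0
    have e01 := hexp 0 1
    have e02 := hexp 0 2
    have e10 := hexp 1 0
    have e11 := hexp 1 1
    have e12 := hexp 1 2
    have e20 := hexp 2 0
    have e21 := hexp 2 1
    have e22 := hexp 2 2
    simp [Fin.sum_univ_three] at e00 e01 e02 e10 e11 e12 e20 e21 e22
    simp only [RingHom.mapMatrix_apply, Matrix.map_apply]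
    linear_combination (u 0 * v 0 ^ 3) * e00 + (u 0 * v 1 ^ 3) * e01 + (u 0 * v 2 ^ 3) * e02 +
      (u 1 * v 0 ^ 3) * e10 + (u 1 * v 1 ^ 3) * e11 + (u 1 * v 2 ^ 3) * e12 +
      (u 2 * v 0 ^ 3) * e20 + (u 2 * v 1 ^ 3) * e21 + (u 2 * v 2 ^ 3) * e22
  obtain ⟨hdX, hdY, hdW, huX, huY, huW⟩ := unitary_gens
  let sX : Cfsg.SU 3 F 3 := ⟨lift mX hdX, hlift _ hdX huX⟩
  let sY : Cfsg.SU 3 F 3 := ⟨lift mY hdY, hlift _ hdY huY⟩
  let sW : Cfsg.SU 3 F 3 := ⟨lift mW hdW, hlift _ hdW huW⟩
  let m : Cfsg.SU 3 F 3 →* Matrix (Fin 3) (Fin 3) F :=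
    { toFun := fun s => ((s : Matrix.SpecialLinearGroup (Fin 3) F) : Matrix (Fin 3) (Fin 3) F)
      map_one' := rfl
      map_mul' := fun _ _ => rfl }
  have hm : Function.Injective m := fun s t h => Subtype.ext (Subtype.ext h)
  have himg : ∀ i, m (img sX sY sW i) = φ.mapMatrix (img mX mY mW i) := by
    intro i
    rcases i with p | p <;> simp only [img, Sum.elim_inl, Sum.elim_inr, map_mul, map_pow] <;> rfl
  have step : ∀ (s : Cfsg.SU 3 F 3) (M : M9) (i j : Ix168), m s = φ.mapMatrix M →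
      img mX mY mW i * M = img mX mY mW j → img sX sY sW i * s = img sX sY sW j := by
    intro s M i j hs h
    apply hm
    rw [map_mul, himg, himg, hs, ← map_mul, h]
  let pr := QuotientGroup.mk' (Subgroup.center (Cfsg.SU 3 F 3))
  let Γs : Set (Equiv.Perm Line7 × Cfsg.PSU 3 F 3) :=
    {(shift7, pr sX), (dbl7, pr sY), (inv7, pr sW)}
  let Γ := Subgroup.closure Γs
  have hΓ : (Γ : Set (Equiv.Perm Line7 × Cfsg.PSU 3 F 3)) ⊆
      Set.range fun i : Fin 168 => (el168 (ix i), pr (img sX sY sW (ix i))) := by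
    refine Cfsg.Agent.Lib.PSLTwo.closure_subset_of_closed ⟨0, ?_⟩ ?_
    · simp only
      rw [one_ix.1, one_ix.2]
      simp [img]
    · rintro _ ⟨i, rfl⟩ s hs
      obtain ⟨h1, h2, h3⟩ := el_step i
      rcases hs with rfl | rfl | rfl
      · refine ⟨nX.getD i.val 0, ?_⟩
        simp only [Prod.mk_mul_mk]
        rw [← h1, ← map_mul, step sX mX _ _ rfl (img_step_X i)]
      · refine ⟨nY.getD i.val 0, ?_⟩
        simp only [Prod.mk_mul_mk]
        rw [← h2, ← map_mul, step sY mY _ _ rfl (img_step_Y i)]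
      · refine ⟨nW.getD i.val 0, ?_⟩
        simp only [Prod.mk_mul_mk]
        rw [← h3, ← map_mul, step sW mW _ _ rfl (img_step_W i)]
  let p1 : Γ →* Equiv.Perm Line7 := (MonoidHom.fst _ _).comp Γ.subtype
  have hrange : p1.range = lineGroup := by
    rw [MonoidHom.range_comp, Subgroup.range_subtype, MonoidHom.map_closure]
    congr 1
    simp [Γs, Set.image_insert_eq]
  have hinj : Function.Injective p1 := by
    rintro ⟨a, ha⟩ ⟨b, hb⟩ h
    obtain ⟨i, rfl⟩ := hΓ ha
    obtain ⟨j, rfl⟩ := hΓ hb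
    have h' : ix i = ix j := el168_injective h
    exact Subtype.ext (by simp only [h'])
  let e : Γ ≃* lineGroup := (MonoidHom.ofInjective hinj).trans (MulEquiv.subgroupCongr hrange)
  refine ⟨((MonoidHom.snd _ _).comp Γ.subtype).comp e.symm.toMonoidHom, fun h => ?_⟩
  let γ : Γ := ⟨(shift7, pr sX), Subgroup.subset_closure (Set.mem_insert _ _)⟩
  have h1 := DFunLike.congr_fun h (e γ)
  simp [γ] at h1
  have h2 : sX ∈ Subgroup.center (Cfsg.SU 3 F 3) := (QuotientGroup.eq_one_iff sX).1 h1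
  have h3 := congrArg m (Subgroup.mem_center_iff.1 h2 sY)
  rw [map_mul, map_mul] at h3
  change φ.mapMatrix mY * φ.mapMatrix mX = φ.mapMatrix mX * φ.mapMatrix mY at h3
  rw [← map_mul, ← map_mul] at h3
  exact (show mY * mX ≠ mX * mY by decide +kernel) (Matrix.map_injective hφ h3)

/-- `PSU₃(3)` has a subgroup isomorphic to `PSL₂(7)`. -/
theorem exists_psl_two_seven {F : Type*} [Field F] [Fintype F] (hF : Fintype.card F = 9)
    {K : Type*} [Field K] [Fintype K] (hK : Fintype.card K = 7) :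
    ∃ H : Subgroup (Cfsg.PSU 3 F 3),
      Nonempty (H ≃* Matrix.ProjectiveSpecialLinearGroup (Fin 2) K) := by
  classical
  haveI : IsSimpleGroup (Matrix.ProjectiveSpecialLinearGroup (Fin 2) K) :=
    Matrix.ProjectiveSpecialLinearGroup.rank_two_simple (by rw [Nat.card_eq_fintype_card, hK]; norm_num)
  have hc : Nat.card (Matrix.ProjectiveSpecialLinearGroup (Fin 2) K) = 168 := by
    have h := Cfsg.Agent.Lib.Classical.card_PSL_two (F := K)
    rw [hK, show Nat.gcd 2 (7 - 1) = 2 by decide] at h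
    norm_num [-Nat.card_eq_fintype_card] at h
    omega
  obtain ⟨e⟩ := equiv_lineGroup (G := Matrix.ProjectiveSpecialLinearGroup (Fin 2) K) hc
  haveI : IsSimpleGroup lineGroup := by
    haveI : Nontrivial lineGroup := e.symm.toEquiv.nontrivial
    exact e.symm.isSimpleGroup
  obtain ⟨f, hf⟩ := exists_sub hF
  have hinj : Function.Injective f := by
    rw [← MonoidHom.ker_eq_bot_iff]
    rcases (MonoidHom.normal_ker f).eq_bot_or_eq_top with h | h
    · exact h
    · exact absurd (MonoidHom.ker_eq_top_iff.1 h) hf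
  exact ⟨f.range, ⟨(MonoidHom.ofInjective hinj).symm.trans e.symm⟩⟩

end Cfsg.Agent.Lib.SmallSimple.UnitaryThree168
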